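import Mathlib
import Cfsg.Agent.Lib.Helper13.FumDefs
import Cfsg.Agent.Lib.Helper16.ZFpf

/-!
# S4330, piece FPF: a fixed-point-free `p`-group of odd order of automorphisms is cyclic
-/

set_option autoImplicit false

namespace Cfsg.Agent.Lib.Helper16.FumFPF

open Cfsg.Agent.Lib.Helper13.Fum
open scoped Pointwise

theorem isCyclic_of_fpf (p : ℕ) [Fact p.Prime] (hp : p ≠ 2) {V : Type*} [AddCommGroup V]
    [Finite V] [Nontrivial V] (B : Subgroup (AAut V)) (hBp : IsPGroup p B)
    (hfpf : ∀ b ∈ B, b ≠ 1 → ∀ v : V, b • v = v → v = 0) :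
    IsCyclic B ∧ ∀ x ∈ B, ∀ y ∈ B, x ≠ 1 → x ^ p = 1 → y ^ p = 1 → y ∈ Subgroup.zpowers x := by
  have hpp : p.Prime := Fact.out
  set ρ : ↥B →* AddMonoid.End V := (Units.coeHom (AddMonoid.End V)).comp B.subtype with hρ
  have hF : Cfsg.Agent.Lib.Helper16.Zas.Fpf ρ := by
    refine ⟨?_, ?_⟩
    · intro h
      obtain ⟨v, hv⟩ := exists_ne (0 : V)
      apply hv
      have := congrArg (fun f : AddMonoid.End V => f v) h
      simpa using this
    · intro b hb
      have hb1 : (b : AAut V) ≠ 1 := fun h => hb (Subtype.ext h)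
      have hinj : Function.Injective (ρ b - 1 : AddMonoid.End V) := by
        rw [injective_iff_map_eq_zero]
        intro v hv
        apply hfpf b b.2 hb1 v
        have h1 : (ρ b - 1 : AddMonoid.End V) v = (b : AAut V) • v - v := rfl
        rw [h1, sub_eq_zero] at hv
        exact hv
      have hbij : Function.Bijective (ρ b - 1 : AddMonoid.End V) :=
        Finite.injective_iff_bijective.mp hinj
      let e : V ≃+ V := AddEquiv.ofBijective (ρ b - 1 : AddMonoid.End V) hbij
      refine ⟨⟨(ρ b - 1 : AddMonoid.End V), e.symm.toAddMonoidHom, ?_, ?_⟩, rfl⟩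
      · ext v; exact e.apply_symm_apply v
      · ext v; exact e.symm_apply_apply v
  have hcyc : IsCyclic ↥B := by
    rcases hF.pgroup_cyclic_or_quat p hBp with h | ⟨h2, -⟩
    · exact h
    · exact absurd h2 hp
  refine ⟨hcyc, ?_⟩
  intro x hx y hy hx1 hxp hyp
  by_cases hy1 : y = 1
  · rw [hy1]; exact Subgroup.one_mem _
  have hox : orderOf (⟨x, hx⟩ : ↥B) = p := by
    apply orderOf_eq_prime
    · exact Subtype.ext hxp
    · intro h; exact hx1 (congrArg Subtype.val h)
  have hoy : orderOf (⟨y, hy⟩ : ↥B) = p := by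
    apply orderOf_eq_prime
    · exact Subtype.ext hyp
    · intro h; exact hy1 (congrArg Subtype.val h)
  have hcomm : (⟨x, hx⟩ : ↥B) * ⟨y, hy⟩ = ⟨y, hy⟩ * ⟨x, hx⟩ :=
    (IsCyclic.commGroup (α := ↥B)).mul_comm _ _
  have hmem := hF.mem_zpowers_of_commute hpp hox hoy hcomm
  obtain ⟨n, hn⟩ := Subgroup.mem_zpowers_iff.mp hmem
  refine Subgroup.mem_zpowers_iff.mpr ⟨n, ?_⟩
  have := congrArg Subtype.val hn
  simpa using this

end Cfsg.Agent.Lib.Helper16.FumFPF
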