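import Cfsg.Agent.Lib.Helper3.BG12Pieces

/-!
# B&G 12.10 (S1420), piece Q20E (helper16 for helper3): a `σ(M)'`-element of `M` lies in some
complement of `M_σ`.
-/

set_option autoImplicit false

open Cfsg Cfsg.Agent.Lib.Helper32 Cfsg.Agent.Lib.Helper32.BG10 Cfsg.Agent.Lib.Helper3.BG12
  Cfsg.Agent.Lib.Helper3.BG12S

namespace Cfsg.Agent.Lib.Helper16.BG12

universe u

variable {G : Type u} [Group G] [Finite G]

theorem exists_compl_mem (hG : IsMinSimpleOddOrder G) {M : Subgroup G} (hM : IsCoatom M)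
    {E : Subgroup G} (hE : IsComplIn E (sigmaCore M) M) {x : G} (hxM : x ∈ M)
    (hx : ∀ p : ℕ, p.Prime → p ∣ orderOf x → p ∉ sigma M) :
    ∃ E₁ : Subgroup G, IsComplIn E₁ (sigmaCore M) M ∧ x ∈ E₁ := by
  have hsolv : Group.IsSolvable ↥M := minSimple_solvable hG hM.1
  have hYM : Subgroup.zpowers x ≤ M := (Subgroup.zpowers_le).2 hxM
  have hcop : (Nat.card (Subgroup.zpowers x)).Coprime (Nat.card (sigmaCore M)) := by
    rw [Nat.card_zpowers]
    exact Nat.coprime_of_dvd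
      (fun p hp h1 h2 => hx p hp h1 (mem_sigma_of_dvd_sigmaCore hp h2))
  have hnorm : M ≤ Subgroup.normalizer ((sigmaCore M : Subgroup G) : Set G) :=
    le_normalizer_map_subtype M _
  have hXBL : M ≤ sigmaCore M ⊔ E := by
    intro m hm
    obtain ⟨a, ha, b, hb, rfl⟩ := hE.2.2.2 m hm
    exact Subgroup.mul_mem _ (Subgroup.mem_sup_right ha) (Subgroup.mem_sup_left hb)
  obtain ⟨m, hm, hmY⟩ := exists_cj_le_of_coprime (X := M) (B := sigmaCore M) (L := E)
    (Y := Subgroup.zpowers x) hE.2.1 hnorm hE.1 hXBL hYM hcop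
  refine ⟨cj m⁻¹ E, isComplIn_cj hE hnorm (M.inv_mem hm), ?_⟩
  rw [mem_cj]
  apply hmY
  rw [mem_cj]
  have e : m⁻¹ * ((m⁻¹)⁻¹ * x * m⁻¹) * m = x := by group
  rw [e]
  exact Subgroup.mem_zpowers x

end Cfsg.Agent.Lib.Helper16.BG12
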