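import Cfsg.Agent.Lib.Helper46.BSW0
import Cfsg.Agent.Lib.Helper4.CharExp2
import Cfsg.Agent.Lib.Helper90.BSWAB

/-!
# S3282 (Brauer–Suzuki–Wall), piece COMPL: the list of irreducible characters is complete
(case `δ = -1`), delivered as a summation formula.
-/

set_option autoImplicit false

namespace Cfsg.Agent.Lib.Helper16.BSWCOMPL

/-- Sum over the image of a map whose fibres are the pairs `{l, bar l}`. -/
theorem sum_image_two {L I : Type*} [DecidableEq L] [DecidableEq I] (S : Finset L)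
    (bar : L → L) (g : L → I) (hbar : ∀ l ∈ S, bar l ∈ S ∧ bar l ≠ l)
    (hg : ∀ l ∈ S, ∀ l' ∈ S, (g l = g l' ↔ (l' = l ∨ l' = bar l))) (f : I → ℂ) :
    ∑ χ ∈ S.image g, f χ = (1 / 2) * ∑ l ∈ S, f (g l) := by
  rw [Finset.mul_sum]
  apply Finset.sum_image'
  intro l hl
  have hgb : g (bar l) = g l := ((hg l hl _ (hbar l hl).1).mpr (Or.inr rfl)).symm
  have hfil : S.filter (fun j => g j = g l) = {l, bar l} := by
    ext j
    simp only [Finset.mem_filter, Finset.mem_insert, Finset.mem_singleton]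
    constructor
    · rintro ⟨hj, hjl⟩
      exact (hg l hl j hj).mp hjl.symm
    · rintro (rfl | rfl)
      · exact ⟨hl, rfl⟩
      · exact ⟨(hbar l hl).1, hgb⟩
  rw [hfil, Finset.sum_pair (hbar l hl).2.symm, hgb]
  ring

/-- A finset of indices carrying the full sum of squares of positive naturals is everything. -/
theorem eq_univ_of_sum_sq {I : Type*} [Fintype I] [DecidableEq I] (T : Finset I) (d : I → ℂ)
    (hd : ∀ i, ∃ n : ℕ, 0 < n ∧ d i = (n : ℂ))
    (h : ∑ i ∈ T, d i ^ 2 = ∑ i, d i ^ 2) : T = Finset.univ := by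
  choose n hn hdn using hd
  have h1 := Finset.sum_sdiff (Finset.subset_univ T) (f := fun i => d i ^ 2)
  rw [h] at h1
  have h2 : ∑ i ∈ Finset.univ \ T, d i ^ 2 = 0 := by
    have := h1
    linear_combination this
  have h3 : ((∑ i ∈ Finset.univ \ T, n i ^ 2 : ℕ) : ℂ) = 0 := by
    rw [← h2]
    push_cast
    exact Finset.sum_congr rfl (fun i _ => by rw [hdn i])
  have h4 : ∑ i ∈ Finset.univ \ T, n i ^ 2 = 0 := by exact_mod_cast h3
  rw [Finset.sum_eq_zero_iff] at h4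
  apply Finset.eq_univ_of_forall
  intro i
  by_contra hi
  have := h4 i (Finset.mem_sdiff.mpr ⟨Finset.mem_univ i, hi⟩)
  have hpos := hn i
  have : n i = 0 := by
    rcases Nat.eq_zero_or_pos (n i) with h0 | h0
    · exact h0
    · exfalso
      have : 0 < n i ^ 2 := pow_pos h0 2
      omega
  omega

end Cfsg.Agent.Lib.Helper16.BSWCOMPL

namespace Cfsg.Agent.Lib.Helper46.BSW

open Cfsg Cfsg.Agent.Lib.Helper4
open scoped ComplexConjugate

universe u

variable {G : Type u} [Group G]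

open scoped Classical in
theorem sum_formula [Fintype G] [Fintype (IrrCharacter G)] (K : Subgroup G)
    [Fintype (IrrCharacter K)] (hKab : ∀ a ∈ K, ∀ b ∈ K, a * b = b * a) (hk : 4 ≤ Nat.card K)
    (Δ Z₁ Z₂ : IrrCharacter G) (l₀ : IrrCharacter K) (Θ : IrrCharacter K → IrrCharacter G)
    (hA : Stage1a K (-1) Δ) (hKS : KSeries K Δ Z₁ Z₂ l₀ Θ) (M : Subgroup G) (u : G)
    (hT : TorusData K Δ M u) [Fintype (IrrCharacter M)] (Y : IrrCharacter M → IrrCharacter G)
    (hY : DSeries K Δ M Y) (F : IrrCharacter G → ℂ) :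
    ∑ χ, F χ = F trivIrr + F Δ + F Z₁ + F Z₂
      + (1 / 2) * ∑ l : IrrCharacter K, (if l = trivIrr ∨ l = l₀ then 0 else F (Θ l))
      + (1 / 2) * ∑ ν : IrrCharacter M, (if ν = trivIrr then 0 else F (Y ν)) := by
  set k : ℕ := Nat.card K with hkdef
  -- the index sets
  set L' : Finset (IrrCharacter K) :=
    Finset.univ.filter (fun l => ¬ (l = trivIrr ∨ l = l₀)) with hL'
  set N' : Finset (IrrCharacter M) := Finset.univ.filter (fun ν => ¬ (ν = trivIrr)) with hN'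
  have hL'mem : ∀ l, l ∈ L' ↔ (l ≠ trivIrr ∧ l ≠ l₀) := by
    intro l
    simp only [hL', Finset.mem_filter, Finset.mem_univ, true_and, not_or]
  have hN'mem : ∀ ν, ν ∈ N' ↔ ν ≠ trivIrr := by
    intro ν
    simp only [hN', Finset.mem_filter, Finset.mem_univ, true_and]
  -- degrees
  have dtriv : ((trivIrr : IrrCharacter G) : G → ℂ) 1 = 1 := rfl
  have dΔ : (Δ : G → ℂ) 1 = 2 * (k : ℂ) - 1 := by
    have := hA.deg
    rw [this]
    push_cast
    ring
  have dZ₁ : (Z₁ : G → ℂ) 1 = (k : ℂ) - 1 := hKS.degZ₁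
  have dZ₂ : (Z₂ : G → ℂ) 1 = (k : ℂ) - 1 := hKS.degZ₂
  have dΘ : ∀ l ∈ L', (Θ l : G → ℂ) 1 = 2 * (k : ℂ) - 2 := fun l hl =>
    hKS.degΘ l ((hL'mem l).mp hl).1 ((hL'mem l).mp hl).2
  have dY : ∀ ν ∈ N', (Y ν : G → ℂ) 1 = 2 * (k : ℂ) := fun ν hν => hY.deg ν ((hN'mem ν).mp hν)
  -- numeric facts
  have c1 : (2 * (k : ℂ)) ≠ 1 := by
    intro h
    have : ((2 * k : ℕ) : ℂ) = ((1 : ℕ) : ℂ) := by push_cast; exact h
    have := Nat.cast_injective this
    omega
  have c2 : (2 * (k : ℂ)) ≠ 2 * (k : ℂ) - 1 := by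
    intro h
    have : ((2 * k + 1 : ℕ) : ℂ) = ((2 * k : ℕ) : ℂ) := by push_cast; linear_combination h
    have := Nat.cast_injective this
    omega
  have c3 : (2 * (k : ℂ)) ≠ (k : ℂ) - 1 := by
    intro h
    have : ((k + 1 : ℕ) : ℂ) = ((0 : ℕ) : ℂ) := by push_cast; linear_combination h
    have := Nat.cast_injective this
    omega
  have c4 : (2 * (k : ℂ)) ≠ 2 * (k : ℂ) - 2 := by
    intro h
    have : ((2 * k + 2 : ℕ) : ℂ) = ((2 * k : ℕ) : ℂ) := by push_cast; linear_combination h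
    have := Nat.cast_injective this
    omega
  -- conjugation on the index sets
  have hbarL : ∀ l ∈ L', cbar l ∈ L' ∧ cbar l ≠ l := by
    intro l hl
    obtain ⟨h1, h2⟩ := (hL'mem l).mp hl
    refine ⟨(hL'mem _).mpr ⟨?_, ?_⟩, ?_⟩
    · intro h
      apply h1
      rw [← cbar_cbar l, h, cbar_triv]
    · intro h
      apply h2
      rw [← cbar_cbar l, h, hKS.l0_real]
    · intro h
      rcases hKS.real_iff l h with h' | h'
      · exact h1 h'
      · exact h2 h'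
  have hbarN : ∀ ν ∈ N', cbar ν ∈ N' ∧ cbar ν ≠ ν := by
    intro ν hν
    have h1 := (hN'mem ν).mp hν
    refine ⟨(hN'mem _).mpr ?_, hY.nonreal ν h1⟩
    intro h
    apply h1
    rw [← cbar_cbar ν, h, cbar_triv]
  have hgL : ∀ l ∈ L', ∀ l' ∈ L', (Θ l = Θ l' ↔ (l' = l ∨ l' = cbar l)) := by
    intro l hl l' hl'
    exact hKS.hΘeq l l' ((hL'mem l).mp hl).1 ((hL'mem l).mp hl).2 ((hL'mem l').mp hl').1
      ((hL'mem l').mp hl').2
  have hgN : ∀ ν ∈ N', ∀ ν' ∈ N', (Y ν = Y ν' ↔ (ν' = ν ∨ ν' = cbar ν)) := by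
    intro ν hν ν' hν'
    exact hY.eq_iff ν ν' ((hN'mem ν).mp hν) ((hN'mem ν').mp hν')
  -- the set `T` of listed characters
  set SΘ : Finset (IrrCharacter G) := L'.image Θ with hSΘ
  set SY : Finset (IrrCharacter G) := N'.image Y with hSY
  have hSΘmem : ∀ χ ∈ SΘ, ∃ l ∈ L', Θ l = χ := fun χ hχ => Finset.mem_image.mp hχ
  have hSYmem : ∀ χ ∈ SY, ∃ ν ∈ N', Y ν = χ := fun χ hχ => Finset.mem_image.mp hχ
  have hSYdeg : ∀ χ ∈ SY, (χ : G → ℂ) 1 = 2 * (k : ℂ) := by
    intro χ hχ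
    obtain ⟨ν, hν, rfl⟩ := hSYmem χ hχ
    exact dY ν hν
  have hSΘne : ∀ χ ∈ SΘ, χ ≠ trivIrr ∧ χ ≠ Δ ∧ χ ≠ Z₁ ∧ χ ≠ Z₂ := by
    intro χ hχ
    obtain ⟨l, hl, rfl⟩ := hSΘmem χ hχ
    exact hKS.hΘ l ((hL'mem l).mp hl).1 ((hL'mem l).mp hl).2
  have n1 : (trivIrr : IrrCharacter G) ∉ insert Δ (insert Z₁ (insert Z₂ (SΘ ∪ SY))) := by
    simp only [Finset.mem_insert, Finset.mem_union, not_or]
    refine ⟨fun h => hKS.hΔ h.symm, fun h => hKS.hZ₁.1 h.symm, fun h => hKS.hZ₂.1 h.symm,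
      fun h => (hSΘne _ h).1 rfl, fun h => ?_⟩
    have := hSYdeg _ h
    rw [dtriv] at this
    exact c1 this.symm
  have n2 : Δ ∉ insert Z₁ (insert Z₂ (SΘ ∪ SY)) := by
    simp only [Finset.mem_insert, Finset.mem_union, not_or]
    refine ⟨fun h => hKS.hZ₁.2 h.symm, fun h => hKS.hZ₂.2.1 h.symm,
      fun h => (hSΘne _ h).2.1 rfl, fun h => ?_⟩
    have := hSYdeg _ h
    rw [dΔ] at this
    exact c2 this.symm
  have n3 : Z₁ ∉ insert Z₂ (SΘ ∪ SY) := by
    simp only [Finset.mem_insert, Finset.mem_union, not_or]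
    refine ⟨fun h => hKS.hZ₂.2.2 h.symm, fun h => (hSΘne _ h).2.2.1 rfl, fun h => ?_⟩
    have := hSYdeg _ h
    rw [dZ₁] at this
    exact c3 this.symm
  have n4 : Z₂ ∉ SΘ ∪ SY := by
    simp only [Finset.mem_union, not_or]
    refine ⟨fun h => (hSΘne _ h).2.2.2 rfl, fun h => ?_⟩
    have := hSYdeg _ h
    rw [dZ₂] at this
    exact c3 this.symm
  have n5 : Disjoint SΘ SY := by
    rw [Finset.disjoint_left]
    intro χ h1 h2
    obtain ⟨l, hl, rfl⟩ := hSΘmem χ h1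
    have := hSYdeg _ h2
    rw [dΘ l hl] at this
    exact c4 this.symm
  set T : Finset (IrrCharacter G) :=
    insert trivIrr (insert Δ (insert Z₁ (insert Z₂ (SΘ ∪ SY)))) with hTdef
  have sumT : ∀ f : IrrCharacter G → ℂ, ∑ χ ∈ T, f χ = f trivIrr + f Δ + f Z₁ + f Z₂
      + (1 / 2) * ∑ l ∈ L', f (Θ l) + (1 / 2) * ∑ ν ∈ N', f (Y ν) := by
    intro f
    rw [hTdef, Finset.sum_insert n1, Finset.sum_insert n2, Finset.sum_insert n3,
      Finset.sum_insert n4, Finset.sum_union n5, hSΘ, hSY,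
      Cfsg.Agent.Lib.Helper16.BSWCOMPL.sum_image_two L' cbar Θ hbarL hgL f,
      Cfsg.Agent.Lib.Helper16.BSWCOMPL.sum_image_two N' cbar Y hbarN hgN f]
    ring
  -- cardinalities of the index sets
  have hKfin : Finite ↥K := inferInstance
  have hcardK : Fintype.card (IrrCharacter K) = k := by
    rw [← Nat.card_eq_fintype_card, hkdef]
    exact ab_card (fun a b => Subtype.ext (hKab a a.2 b b.2))
  have hcardM : Fintype.card (IrrCharacter M) + 1 = k := by
    rw [← Nat.card_eq_fintype_card, hkdef, ← hT.card]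
    congr 1
    exact ab_card (fun a b => Subtype.ext (hT.hab a a.2 b b.2))
  have hcL : L'.card + 2 = k := by
    have e : L' = (Finset.univ.erase trivIrr).erase l₀ := by
      ext l
      rw [hL'mem]
      simp only [Finset.mem_erase, Finset.mem_univ, and_true]
      tauto
    rw [e, Finset.card_erase_of_mem (Finset.mem_erase.mpr ⟨hKS.l0_ne, Finset.mem_univ _⟩),
      Finset.card_erase_of_mem (Finset.mem_univ _), Finset.card_univ, hcardK]
    omega
  have hcN : N'.card + 2 = k := by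
    have e : N' = Finset.univ.erase trivIrr := by
      ext ν
      rw [hN'mem]
      simp only [Finset.mem_erase, Finset.mem_univ, and_true]
    rw [e, Finset.card_erase_of_mem (Finset.mem_univ _), Finset.card_univ]
    omega
  have hcL' : (L'.card : ℂ) = (k : ℂ) - 2 := by
    have : ((L'.card + 2 : ℕ) : ℂ) = (k : ℂ) := by rw [hcL]
    push_cast at this
    linear_combination this
  have hcN' : (N'.card : ℂ) = (k : ℂ) - 2 := by
    have : ((N'.card + 2 : ℕ) : ℂ) = (k : ℂ) := by rw [hcN]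
    push_cast at this
    linear_combination this
  -- `T` is everything
  have hG : (Nat.card G : ℂ) = 2 * (k : ℂ) * ((2 * (k : ℂ) - 1) * ((k : ℂ) - 1)) := by
    have := congrArg (Int.cast : ℤ → ℂ) hA.index
    push_cast at this
    rw [this]
    ring
  have hTuniv : T = Finset.univ := by
    apply Cfsg.Agent.Lib.Helper16.BSWCOMPL.eq_univ_of_sum_sq T (fun χ => (χ : G → ℂ) 1)
      (fun χ => irr_one_nat χ)
    have sΘ : ∑ l ∈ L', (Θ l : G → ℂ) 1 ^ 2 = (L'.card : ℂ) * (2 * (k : ℂ) - 2) ^ 2 := by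
      rw [Finset.sum_congr rfl (fun l hl => by rw [dΘ l hl] :
        ∀ l ∈ L', (Θ l : G → ℂ) 1 ^ 2 = (2 * (k : ℂ) - 2) ^ 2), Finset.sum_const, nsmul_eq_mul]
    have sY : ∑ ν ∈ N', (Y ν : G → ℂ) 1 ^ 2 = (N'.card : ℂ) * (2 * (k : ℂ)) ^ 2 := by
      rw [Finset.sum_congr rfl (fun ν hν => by rw [dY ν hν] :
        ∀ ν ∈ N', (Y ν : G → ℂ) 1 ^ 2 = (2 * (k : ℂ)) ^ 2), Finset.sum_const, nsmul_eq_mul]
    rw [sumT (fun χ => (χ : G → ℂ) 1 ^ 2), sum_sq_irr, hG, sΘ, sY, dtriv, dΔ, dZ₁, dZ₂,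
      hcL', hcN']
    ring
  -- conclusion
  have e1 : ∑ l : IrrCharacter K, (if l = trivIrr ∨ l = l₀ then 0 else F (Θ l))
      = ∑ l ∈ L', F (Θ l) := by
    rw [hL', Finset.sum_filter]
    apply Finset.sum_congr rfl
    intro l _
    by_cases h : (l = trivIrr ∨ l = l₀) <;> simp [h]
  have e2 : ∑ ν : IrrCharacter M, (if ν = trivIrr then 0 else F (Y ν))
      = ∑ ν ∈ N', F (Y ν) := by
    rw [hN', Finset.sum_filter]
    apply Finset.sum_congr rfl
    intro ν _
    by_cases h : ν = trivIrr <;> simp [h]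
  rw [e1, e2, ← sumT F, hTuniv]

end Cfsg.Agent.Lib.Helper46.BSW
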