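import Mathlib
import Cfsg.Agent.Lib.Helper10.BT0
import Cfsg.Agent.Lib.Helper5.BRL1

/-!
# S4700 piece BT-V1 (helper16, for helper10): `ker_val`.
-/

set_option autoImplicit false

namespace Cfsg.Agent.Lib.Helper10.BT

open Cfsg
open Cfsg.Agent.Lib.Helper83 (trivIrr)
open Cfsg.Agent.Lib.Helper10.BR (psum DOut Tab)
open scoped ComplexConjugate

/-- BT-V1 -/
theorem ker_val {G : Type*} [Group G] [Fintype G] (p : ℕ) (hp : p.Prime) (P : Subgroup G)
    (hP : Nat.card P = p) (χ : IrrCharacter G)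
    (hdeg : (χ : G → ℂ) 1 = ((p - 1 : ℕ) : ℂ))
    (hval : ∀ x ∈ P, x ≠ 1 → ∀ y ∈ Subgroup.centralizer (P : Set G), ¬ p ∣ orderOf y →
      (χ : G → ℂ) (x * y) = -1)
    (y : G) (hy : y ∈ Subgroup.centralizer (P : Set G)) (hyp : ¬ p ∣ orderOf y) :
    (χ : G → ℂ) y = (χ : G → ℂ) 1 := by
  classical
  have hchar : IsCharacter G (χ : G → ℂ) := by
    obtain ⟨n, ρ, -, h⟩ := χ.2
    exact ⟨n, ρ, h⟩
  have key : ∀ y' ∈ Subgroup.centralizer (P : Set G), ¬ p ∣ orderOf y' →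
      psum P (χ : G → ℂ) y' = (χ : G → ℂ) y' - ((p - 1 : ℕ) : ℂ) := by
    intro y' hy' hyp'
    rw [Cfsg.Agent.Lib.Helper10.BR.psum_eq_sum]
    rw [← Finset.add_sum_erase Finset.univ _ (Finset.mem_univ (1 : P))]
    have h1 : ∀ u ∈ Finset.univ.erase (1 : P), (χ : G → ℂ) (y' * (u : G)) = -1 := by
      intro u hu
      have hu1 : (u : G) ≠ 1 := by
        intro h
        exact (Finset.ne_of_mem_erase hu) (Subtype.ext h)
      have hcomm : y' * (u : G) = (u : G) * y' :=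
        ((Subgroup.mem_centralizer_iff.1 hy') (u : G) u.2).symm
      rw [hcomm]
      exact hval (u : G) u.2 hu1 y' hy' hyp'
    rw [Finset.sum_congr rfl h1, Finset.sum_const, Finset.card_erase_of_mem (Finset.mem_univ _),
      Finset.card_univ, ← Nat.card_eq_fintype_card, hP, OneMemClass.coe_one, mul_one,
      nsmul_eq_mul]
    ring
  have h1mem : (1 : G) ∈ Subgroup.centralizer (P : Set G) := Subgroup.one_mem _
  have h1ord : ¬ p ∣ orderOf (1 : G) := by
    rw [orderOf_one]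
    exact hp.one_lt.not_ge ∘ Nat.le_of_dvd one_pos
  have h0 : psum P (χ : G → ℂ) 1 = 0 := by
    rw [key 1 h1mem h1ord, hdeg, sub_self]
  have h2 := Cfsg.Agent.Lib.Helper10.BR.psum_zero P (χ : G → ℂ) hchar h0 y
  rw [key y hy hyp] at h2
  rw [hdeg]
  exact sub_eq_zero.1 h2

end Cfsg.Agent.Lib.Helper10.BT
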