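import Mathlib
import Cfsg.Agent.Lib.Helper10.BT0

/-!
# S4700 piece BT-X2 (helper16, for helper10): `preC_eq`.
-/

set_option autoImplicit false

namespace Cfsg.Agent.Lib.Helper10.BT

open Cfsg
open Cfsg.Agent.Lib.Helper83 (trivIrr)
open Cfsg.Agent.Lib.Helper10.BR (psum DOut Tab)
open scoped ComplexConjugate

/-- BT-X2 -/
theorem preC_eq {G : Type*} [Group G] [Fintype G] (p : ℕ) (hp : p.Prime) (M : Ideal AlgInt)
    (P : Subgroup G) (e t n : ℕ) (ε : ℤ) (x₀ : ℕ) (A B C Y : Finset (IrrCharacter G))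
    (h : PreC G p M P e t n ε x₀ A B C Y) (ht : 1 ≤ t) :
    ε * (x₀ : ℤ) = 1 + (A.card : ℤ) * (1 + n * p) - (B.card : ℤ) * (p - 1)
      - (C.card : ℤ) * ((p - 1) * (1 + n * p)) := by
  have hY : Y.Nonempty := by
    rw [← Finset.card_pos, h.cardY]
    exact ht
  obtain ⟨θ, hθ⟩ := hY
  have h1 : ¬ p ∣ orderOf (1 : G) := by
    rw [orderOf_one]
    exact hp.one_lt.not_ge ∘ Nat.le_of_dvd one_pos
  have h2 := h.t1 θ hθ 1 h1
  rw [h.degY θ hθ, Finset.sum_congr rfl h.degA, Finset.sum_congr rfl h.degB,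
    Finset.sum_congr rfl h.degC, Finset.sum_const, Finset.sum_const, Finset.sum_const] at h2
  have hp1 : ((p - 1 : ℕ) : ℂ) = (p : ℂ) - 1 := by rw [Nat.cast_sub hp.one_le, Nat.cast_one]
  have h3 : ((ε * (x₀ : ℤ) : ℤ) : ℂ) =
      ((1 + (A.card : ℤ) * (1 + n * p) - (B.card : ℤ) * (p - 1)
        - (C.card : ℤ) * ((p - 1) * (1 + n * p)) : ℤ) : ℂ) := by
    push_cast
    rw [h2]
    simp only [nsmul_eq_mul]
    push_cast
    rw [hp1]
  exact_mod_cast h3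

end Cfsg.Agent.Lib.Helper10.BT
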