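import Cfsg.Agent.Lib.Helper36.E8Facts
import Cfsg.Agent.Lib.Helper25.ChevGr
import Cfsg.Agent.Lib.Helper25.ChevPara
import Cfsg.Agent.Lib.Helper25.ChevNWord
import Cfsg.Agent.Lib.Helper24.ChevSL2

/-!
# Iterated cores in `E₈(2)` (S5751), piece UB1 (helper16): a conjugate of the parabolic by a word
is block upper triangular for the transported level.
-/

set_option autoImplicit false

namespace Cfsg.Agent.Lib.Helper36.E8C

open Cfsg.Lie Cfsg.Agent.Lib.Helper24 Cfsg.Agent.Lib.Helper25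

private theorem UB1_lvU_one (c : List ℤ) : LvU c (1 : Matrix chevE8.Idx chevE8.Idx K2) := by
  intro a b h
  by_cases hab : a = b
  · rw [hab]
  · exact absurd (Matrix.one_apply_ne hab) h

private theorem UB1_lvU_mul (c : List ℤ) {M N : Matrix chevE8.Idx chevE8.Idx K2}
    (hM : LvU c M) (hN : LvU c N) : LvU c (M * N) := by
  intro a b h
  rw [Matrix.mul_apply] at h
  obtain ⟨k, _, hk⟩ := Finset.exists_ne_zero_of_sum_ne_zero h
  exact le_trans (hN k b (right_ne_zero_of_mul hk)) (hM a k (left_ne_zero_of_mul hk))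

private theorem UB1_x_lvU (c : List ℤ) (s : ℕ) (hs : s < chevE8.nroots) (hw : 0 ≤ wc c s)
    (t : K2) : LvU c (chevE8.x K2 s t) := by
  have hsf := sign_facts chevE8 hE8 s hs
  have hn : chevE8.neg s < chevE8.nroots :=
    neg_lt_of_preChk chevE8 (preChk_of_mem chevE8 hE8') s hs
  have hne : chevE8.neg s ≠ s := by
    intro e
    rcases hsf.1 with hp | hp
    · have h1 := hsf.2.2.2.1 hp
      rw [e] at h1
      exact hsf.2.1 ⟨hp, h1⟩
    · have h1 := hsf.2.2.1.1 hp
      rw [e] at h1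
      exact hsf.2.1 ⟨h1, hp⟩
  have hgr : AddGraded chevE8 (wc c) := addGraded_coW [c] chevE8 hE8' 0
  have hlv : ∀ a : chevE8.Idx, lv c a = lvl chevE8 (wc c) a := by
    intro a
    cases a <;> rfl
  intro a b h
  rw [hlv, hlv]
  rcases x_entry_graded chevE8 (wc c) hgr s hs hn hne t a b h with e | ⟨k, _, e⟩
  · rw [e]
  · rw [e]
    have h0 : (0 : ℤ) ≤ (k : ℤ) * wc c s := mul_nonneg (Int.natCast_nonneg k) hw
    omega

private theorem UB1_nw_val (L : List ℕ) :
    (((nw L : E8G) : GL chevE8.Idx K2) : Matrix chevE8.Idx chevE8.Idx K2) =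
      nWordMat K2 chevE8 L := by
  induction L with
  | nil => rfl
  | cons k L ih =>
    show (((nn k * nw L : E8G) : GL chevE8.Idx K2) : Matrix chevE8.Idx chevE8.Idx K2) = _
    rw [Subgroup.coe_mul, Units.val_mul, nn_val, ih, nWordMat_cons]

private theorem UB1_diag_bot : chevE8.diagonalSubgroup K2 = ⊥ := by
  unfold ChevalleyDatum.diagonalSubgroup
  rw [Subgroup.closure_eq_bot_iff]
  rintro g ⟨r, t, hr, ht, hg⟩
  have hK : ∀ u : K2, u ≠ 0 → u = 1 := by decide
  have ht1 : t = 1 := hK t ht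
  rw [ht1, hMat_one chevE8 hE8' r hr] at hg
  exact Units.ext hg

/-- a conjugate of the parabolic by a word is block upper triangular for the transported level -/
theorem conj_word_lvU (L : List ℕ) (hL : ∀ k ∈ L, k < 8) (c : List ℤ)
    (hc : ∀ s, chevE8.IsPosRoot s ∨ chevE8.InRootSub Jn s → 0 ≤ wc c (wP L s))
    (p : E8G) (hp : p ∈ M1) :
    LvU c (((nw L * p * (nw L)⁻¹ : E8G) : GL chevE8.Idx K2) :
      Matrix chevE8.Idx chevE8.Idx K2) := by
  have hL' : ∀ i ∈ L, i < chevE8.rank := hL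
  have hp' : (p : GL chevE8.Idx K2) ∈ Pm := Subgroup.mem_subgroupOf.1 hp
  have hPm : Pm = Subgroup.closure {g : GL chevE8.Idx K2 | ∃ (r : ℕ) (t : K2),
      (chevE8.IsPosRoot r ∨ chevE8.InRootSub Jn r) ∧
        (g : Matrix chevE8.Idx chevE8.Idx K2) = chevE8.x K2 r t} := by
    unfold Pm
    rw [parabolic_eq chevE8 hE8 Jn, UB1_diag_bot, bot_sup_eq]
  rw [hPm] at hp'
  -- the generators
  have hgen : ∀ (g : GL chevE8.Idx K2) (r : ℕ) (t : K2),
      (chevE8.IsPosRoot r ∨ chevE8.InRootSub Jn r) →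
      (g : Matrix chevE8.Idx chevE8.Idx K2) = chevE8.x K2 r t →
      LvU c ((((nw L : E8G) : GL chevE8.Idx K2) * g * ((nw L : E8G) : GL chevE8.Idx K2)⁻¹ :
        GL chevE8.Idx K2) : Matrix chevE8.Idx chevE8.Idx K2) := by
    intro g r t hr hg
    have hr' : r < chevE8.nroots := by
      rcases hr with h | h
      · exact h.1
      · exact h.1
    have e : ((((nw L : E8G) : GL chevE8.Idx K2) * g * ((nw L : E8G) : GL chevE8.Idx K2)⁻¹ :
        GL chevE8.Idx K2) : Matrix chevE8.Idx chevE8.Idx K2) =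
        chevE8.x K2 (wPi chevE8 L r) (((wEta chevE8 L r : ℤ) : K2) * t) := by
      rw [Units.val_mul, Units.val_mul, hg, UB1_nw_val, nWordMat_conj chevE8 hE8 L hL' r hr' t,
        Matrix.mul_assoc, ← UB1_nw_val, Units.mul_inv, Matrix.mul_one]
    rw [e]
    exact UB1_x_lvU c _ (wPi_lt chevE8 hE8 L hL' r hr') (hc r hr) _
  have key := closure_pred
    {g : GL chevE8.Idx K2 | ∃ (r : ℕ) (t : K2),
      (chevE8.IsPosRoot r ∨ chevE8.InRootSub Jn r) ∧
        (g : Matrix chevE8.Idx chevE8.Idx K2) = chevE8.x K2 r t}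
    (fun g => LvU c ((((nw L : E8G) : GL chevE8.Idx K2) * g *
      ((nw L : E8G) : GL chevE8.Idx K2)⁻¹ : GL chevE8.Idx K2) :
        Matrix chevE8.Idx chevE8.Idx K2))
    (by
      show LvU c ((((nw L : E8G) : GL chevE8.Idx K2) * 1 *
        ((nw L : E8G) : GL chevE8.Idx K2)⁻¹ : GL chevE8.Idx K2) :
          Matrix chevE8.Idx chevE8.Idx K2)
      rw [mul_one, mul_inv_cancel, Units.val_one]
      exact UB1_lvU_one c)
    (by
      intro a b ha hb
      show LvU c ((((nw L : E8G) : GL chevE8.Idx K2) * (a * b) *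
        ((nw L : E8G) : GL chevE8.Idx K2)⁻¹ : GL chevE8.Idx K2) :
          Matrix chevE8.Idx chevE8.Idx K2)
      have e : ((nw L : E8G) : GL chevE8.Idx K2) * (a * b) *
          ((nw L : E8G) : GL chevE8.Idx K2)⁻¹ =
          (((nw L : E8G) : GL chevE8.Idx K2) * a * ((nw L : E8G) : GL chevE8.Idx K2)⁻¹) *
            (((nw L : E8G) : GL chevE8.Idx K2) * b * ((nw L : E8G) : GL chevE8.Idx K2)⁻¹) := by
        group
      rw [e, Units.val_mul]
      exact UB1_lvU_mul c ha hb)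
    (by
      rintro g ⟨r, t, hr, hg⟩
      have hr' : r < chevE8.nroots := by
        rcases hr with h | h
        · exact h.1
        · exact h.1
      exact ⟨hgen g r t hr hg, hgen g⁻¹ r (-t) hr (Cfsg.Agent.Lib.Helper25.xGL_inv chevE8 hE8 r hr' t g hg)⟩)
    (p : GL chevE8.Idx K2) hp'
  have e : (((nw L * p * (nw L)⁻¹ : E8G) : GL chevE8.Idx K2)) =
      ((nw L : E8G) : GL chevE8.Idx K2) * (p : GL chevE8.Idx K2) *
        ((nw L : E8G) : GL chevE8.Idx K2)⁻¹ := by
    rw [Subgroup.coe_mul, Subgroup.coe_mul, Subgroup.coe_inv]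
  rw [e]
  exact key

end Cfsg.Agent.Lib.Helper36.E8C
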