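import Mathlib
import Cfsg.Agent.Lib.Helper4.FCDefs

/-! Project FC (S4146, architect helper4): piece BCB1 (proof by helper16). -/

set_option autoImplicit false

namespace Cfsg.Agent.Lib.Helper4.FC

universe u

theorem bcb1_helper16_dvd0 {G : Type*} [Group G] [Finite G] (H N : Subgroup G)
    [N.Normal] : H.relIndex N ∣ H.index := by
  have h1 : H.relIndex (H ⊔ N) * Nat.card H = Nat.card (H ⊔ N : Subgroup G) := by
    rw [← Subgroup.relIndex_bot_left, mul_comm, ← Subgroup.relIndex_bot_left]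
    exact Subgroup.relIndex_mul_relIndex ⊥ H (H ⊔ N) bot_le le_sup_left
  have h2 : N.relIndex (H ⊔ N) * Nat.card N = Nat.card (H ⊔ N : Subgroup G) := by
    rw [← Subgroup.relIndex_bot_left, mul_comm, ← Subgroup.relIndex_bot_left]
    exact Subgroup.relIndex_mul_relIndex ⊥ N (H ⊔ N) bot_le le_sup_right
  rw [Subgroup.relIndex_sup_right] at h2
  have h3 : H.relIndex N * Nat.card (H ⊓ N : Subgroup G) = Nat.card N := by
    rw [← Subgroup.inf_relIndex_right, ← Subgroup.relIndex_bot_left, mul_comm,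
      ← Subgroup.relIndex_bot_left]
    exact Subgroup.relIndex_mul_relIndex ⊥ (H ⊓ N) N bot_le inf_le_right
  have h4 : N.relIndex H * Nat.card (H ⊓ N : Subgroup G) = Nat.card H := by
    rw [← Subgroup.inf_relIndex_left, ← Subgroup.relIndex_bot_left, mul_comm,
      ← Subgroup.relIndex_bot_left]
    exact Subgroup.relIndex_mul_relIndex ⊥ (H ⊓ N) H bot_le inf_le_left
  have hpos : 0 < Nat.card H := Nat.card_pos
  have heq : H.relIndex (H ⊔ N) * Nat.card H = H.relIndex N * Nat.card H := by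
    rw [h1, ← h2, ← h3, ← h4]; ring
  rw [← Nat.eq_of_mul_eq_mul_right hpos heq]
  exact Subgroup.relIndex_dvd_index_of_le le_sup_left

theorem bcb1_helper16_dvd {G : Type u} [Group G] [Finite G] (A C K : Subgroup G) [A.Normal]
    (hAC : A ≤ C) : K.relIndex A ∣ K.relIndex C := by
  have h := bcb1_helper16_dvd0 (K.subgroupOf C) (A.subgroupOf C)
  rw [Subgroup.relIndex_subgroupOf hAC] at h
  exact h

theorem fc_bcb1 : L3Stmt.{u} → BCb1Stmt.{u} := by
  intro hL3 G _ _ n m p s r A x g hFour hp hpn hs hr hrs hAn hAp hx hcsx hAx hg hgx v hv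
  obtain ⟨hn1, hm1, hnm, hcs, -, -, -⟩ := hFour
  obtain ⟨a, ha⟩ := hx
  obtain ⟨b, hb⟩ := hg
  have hcomm : Commute x g := (Subgroup.mem_centralizer_iff.mp hgx) x (Set.mem_singleton x)
  have hcop : (orderOf x).Coprime (orderOf g) := by
    rw [ha, hb]
    exact Nat.Coprime.pow _ _ ((Nat.coprime_primes hs hr).mpr (Ne.symm hrs))
  have hL := hL3 G x g hcomm hcop
  have hle : Cen x ⊓ Cen g ≤ Cen x := inf_le_left
  have h1 : (Cen x ⊓ Cen g).relIndex (Cen x) * (Cen x).index = (Cen x ⊓ Cen g).index :=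
    Subgroup.relIndex_mul_index hle
  have h2 : (Cen x ⊓ Cen g).relIndex (Cen x) = (Cen g).relIndex (Cen x) :=
    Subgroup.inf_relIndex_left _ _
  have h3 : (Cen x ⊓ Cen g).index = cs (x * g) := by rw [← hL]
  have hAC : A ≤ Cen x := by
    intro w hw
    rw [Subgroup.mem_centralizer_iff]
    intro y hy
    rw [Set.mem_singleton_iff] at hy
    rw [hy]
    exact hAx w hw
  have h4 : (Cen g).relIndex A ∣ (Cen g).relIndex (Cen x) :=
    bcb1_helper16_dvd A (Cen x) (Cen g) hAC
  have hcsx' : (Cen x).index = n := hcsx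
  rw [h2, h3, hcsx'] at h1
  have hn0 : 0 < n := by omega
  have hk : (Cen g).relIndex (Cen x) ∣ m := by
    rcases hcs (x * g) with h | h | h | h
    · rw [h] at h1
      have h5 : n = 1 := Nat.eq_one_of_mul_eq_one_left h1
      omega
    · rw [h] at h1
      have h5 : (Cen g).relIndex (Cen x) = 1 :=
        Nat.eq_of_mul_eq_mul_right hn0 (by rw [h1, one_mul])
      rw [h5]
      exact one_dvd m
    · rw [h] at h1
      have hdvd : n ∣ m := Dvd.intro_left _ h1
      have h5 : n = 1 := Nat.Coprime.eq_one_of_dvd hnm hdvd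
      omega
    · rw [h] at h1
      have h5 : (Cen g).relIndex (Cen x) = m :=
        Nat.eq_of_mul_eq_mul_right hn0 (by rw [h1, mul_comm])
      rw [h5]
  have hdm : (Cen g).relIndex A ∣ m := h4.trans hk
  haveI : Fact p.Prime := ⟨hp⟩
  obtain ⟨j, hj⟩ := hAp.index ((Cen g).subgroupOf A)
  have hj' : (Cen g).relIndex A = p ^ j := hj
  have hpm : ¬ p ∣ m := by
    intro hpm
    have h5 := Nat.eq_one_of_dvd_coprimes hnm hpn hpm
    exact hp.one_lt.ne' h5
  have hj0 : j = 0 := by
    by_contra hne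
    apply hpm
    rw [hj'] at hdm
    exact (dvd_pow_self p hne).trans hdm
  rw [hj0, pow_zero] at hj'
  have hA : A ≤ Cen g := Subgroup.relIndex_eq_one.mp hj'
  exact (Subgroup.mem_centralizer_iff.mp (hA hv)) g (Set.mem_singleton g)

end Cfsg.Agent.Lib.Helper4.FC
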