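import Mathlib
import Cfsg.Agent.Lib.Helper97.KLin

/-!
# Piece P-G23 of S5886 (helper16, for helper97)

For a field subalgebra `K` of prime degree `r ≥ 3` of the matrix algebra and a subgroup `M` of `GL`
containing the `K`-linear maps of determinant one: if some element of `M` fixing `u` moves a vector
of the `K`-line `K u` out of that line, then `M` contains an element stabilising the `K`-line
`K u` but not normalising the action of `K` on it.
-/

set_option autoImplicit false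

namespace Cfsg.Agent.Lib.Helper16.KG23

open Matrix Cfsg.Agent.Lib.Helper97

section basics

variable {F : Type*} [Field F] {n : ℕ}

/-- The linear automorphism of `F^n` given by an invertible matrix. -/
def glE (g : GL (Fin n) F) : (Fin n → F) ≃ₗ[F] (Fin n → F) :=
  LinearEquiv.ofLinearMap (Matrix.mulVecLin (g : Matrix (Fin n) (Fin n) F))
    (Matrix.mulVecLin ((g⁻¹ : GL (Fin n) F) : Matrix (Fin n) (Fin n) F))
    (LinearMap.ext fun v => by
      rw [LinearMap.comp_apply, Matrix.mulVecLin_apply, Matrix.mulVecLin_apply,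
        Matrix.mulVec_mulVec, ← Units.val_mul, mul_inv_cancel, Units.val_one, Matrix.one_mulVec,
        LinearMap.id_apply])
    (LinearMap.ext fun v => by
      rw [LinearMap.comp_apply, Matrix.mulVecLin_apply, Matrix.mulVecLin_apply,
        Matrix.mulVec_mulVec, ← Units.val_mul, inv_mul_cancel, Units.val_one, Matrix.one_mulVec,
        LinearMap.id_apply])

lemma glE_apply (g : GL (Fin n) F) (v : Fin n → F) :
    glE g v = (g : Matrix (Fin n) (Fin n) F) *ᵥ v := rfl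

lemma glE_symm_apply (g : GL (Fin n) F) (v : Fin n → F) :
    (glE g).symm v = ((g⁻¹ : GL (Fin n) F) : Matrix (Fin n) (Fin n) F) *ᵥ v := rfl

lemma inv_mulVec_mulVec (g : GL (Fin n) F) (v : Fin n → F) :
    ((g⁻¹ : GL (Fin n) F) : Matrix (Fin n) (Fin n) F) *ᵥ
      ((g : Matrix (Fin n) (Fin n) F) *ᵥ v) = v := by
  rw [Matrix.mulVec_mulVec, ← Units.val_mul, inv_mul_cancel, Units.val_one, Matrix.one_mulVec]

lemma mulVec_inv_mulVec (g : GL (Fin n) F) (v : Fin n → F) :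
    (g : Matrix (Fin n) (Fin n) F) *ᵥ
      (((g⁻¹ : GL (Fin n) F) : Matrix (Fin n) (Fin n) F) *ᵥ v) = v := by
  rw [Matrix.mulVec_mulVec, ← Units.val_mul, mul_inv_cancel, Units.val_one, Matrix.one_mulVec]

/-- The image of a subspace under an invertible matrix. -/
def gim (L : Submodule F (Fin n → F)) (g : GL (Fin n) F) : Submodule F (Fin n → F) :=
  L.map (glE g).toLinearMap

lemma mem_gim {L : Submodule F (Fin n → F)} {g : GL (Fin n) F} {v : Fin n → F} :
    v ∈ gim L g ↔ ((g⁻¹ : GL (Fin n) F) : Matrix (Fin n) (Fin n) F) *ᵥ v ∈ L := by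
  rw [gim, Submodule.mem_map_equiv, glE_symm_apply]

lemma mulVec_mem_gim {L : Submodule F (Fin n → F)} (g : GL (Fin n) F) {v : Fin n → F}
    (hv : v ∈ L) : (g : Matrix (Fin n) (Fin n) F) *ᵥ v ∈ gim L g := by
  rw [mem_gim, inv_mulVec_mulVec]
  exact hv

lemma finrank_gim (L : Submodule F (Fin n → F)) (g : GL (Fin n) F) :
    Module.finrank F ↥(gim L g) = Module.finrank F ↥L :=
  LinearEquiv.finrank_map_eq (glE g) L

lemma gim_inf (L L' : Submodule F (Fin n → F)) (g : GL (Fin n) F) :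
    gim (L ⊓ L') g = gim L g ⊓ gim L' g :=
  Submodule.map_inf _ (glE g).injective

lemma gim_mul (L : Submodule F (Fin n → F)) (a b : GL (Fin n) F) :
    gim L (a * b) = gim (gim L b) a := by
  ext v
  rw [mem_gim, mem_gim, mem_gim, _root_.mul_inv_rev, Units.val_mul, Matrix.mulVec_mulVec]

lemma gim_inv_gim (L : Submodule F (Fin n → F)) (a : GL (Fin n) F) :
    gim (gim L a⁻¹) a = L := by
  ext v
  rw [mem_gim, mem_gim, inv_inv, mulVec_inv_mulVec]

end basics

variable {F : Type*} [Field F] [Fintype F] {n : ℕ} {K : Subalgebra F (Matrix (Fin n) (Fin n) F)}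

theorem exists_notNormL_r3 {r : ℕ} (hK : Cfsg.Geo.IsFieldSubalgebra r K) (hr : r.Prime)
    (hr3 : 3 ≤ r) (hn : r < n) (M : Subgroup (GL (Fin n) F)) (hM : klG K ≤ M) (u : Fin n → F)
    (hu : u ≠ 0) (h : GL (Fin n) F) (hh : h ∈ M)
    (hhu : (h : Matrix (Fin n) (Fin n) F) *ᵥ u = u) (ω : ↥K)
    (hω : ∀ k : ↥K, (k : Matrix (Fin n) (Fin n) F) *ᵥ u ≠
      (h : Matrix (Fin n) (Fin n) F) *ᵥ ((ω : Matrix (Fin n) (Fin n) F) *ᵥ u)) :
    ∃ z : GL (Fin n) F, z ∈ M ∧ StabL K u (z : Matrix (Fin n) (Fin n) F) ∧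
      ¬ NormL K u (z : Matrix (Fin n) (Fin n) F) := by
  classical
  have hn0 : Nonempty (Fin n) := ⟨⟨0, by omega⟩⟩
  set L : Submodule F (Fin n → F) := LinearMap.range (actLin K u) with hL
  have memL : ∀ v : Fin n → F, v ∈ L ↔ ∃ k : ↥K, (k : Matrix (Fin n) (Fin n) F) *ᵥ u = v := by
    intro v
    rw [hL, LinearMap.mem_range]
    rfl
  have hinj : Function.Injective (actLin K u) := by
    rw [← LinearMap.ker_eq_bot, LinearMap.ker_eq_bot']
    intro k hk
    exact Subtype.ext (fs_eq_zero hK k.2 hu hk)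
  have hLr : Module.finrank F ↥L = r := by
    rw [hL, LinearMap.finrank_range_of_inj hinj, hK.finrank_eq]
  -- the given `h` moves `L`
  have hhL : gim L h ≠ L := by
    intro e
    have h1 : (h : Matrix (Fin n) (Fin n) F) *ᵥ ((ω : Matrix (Fin n) (Fin n) F) *ᵥ u) ∈ gim L h :=
      mulVec_mem_gim h ((memL _).2 ⟨ω, rfl⟩)
    rw [e] at h1
    obtain ⟨k, hk⟩ := (memL _).1 h1
    exact hω k hk
  -- maximal intersection
  obtain ⟨h', hh'M, hh'L, hmax⟩ : ∃ h' : GL (Fin n) F, h' ∈ M ∧ gim L h' ≠ L ∧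
      ∀ g : GL (Fin n) F, g ∈ M → gim L g ≠ L →
        Module.finrank F ↥(L ⊓ gim L g) ≤ Module.finrank F ↥(L ⊓ gim L h') := by
    have hne : Nonempty {g : GL (Fin n) F // g ∈ M ∧ gim L g ≠ L} := ⟨⟨h, hh, hhL⟩⟩
    obtain ⟨x₀, hx₀⟩ := Finite.exists_max
      (fun g : {g : GL (Fin n) F // g ∈ M ∧ gim L g ≠ L} =>
        Module.finrank F ↥(L ⊓ gim L g.1))
    exact ⟨x₀.1, x₀.2.1, x₀.2.2, fun g hg hgL => hx₀ ⟨g, hg, hgL⟩⟩
  have hd1 : L ⊓ gim L h' ≠ ⊥ := by
    have h1 : 0 < Module.finrank F ↥(L ⊓ gim L h) := by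
      rw [Module.finrank_pos_iff_exists_ne_zero]
      have hu1 : u ∈ L := (memL u).2 ⟨1, by rw [OneMemClass.coe_one, Matrix.one_mulVec]⟩
      have hu2 : u ∈ gim L h := by
        have := mulVec_mem_gim h hu1
        rw [hhu] at this
        exact this
      exact ⟨⟨u, hu1, hu2⟩, fun e => hu (congrArg Subtype.val e)⟩
    have h2 := hmax h hh hhL
    intro hbot
    rw [hbot, finrank_bot] at h2
    omega
  obtain ⟨s, hs, hs0⟩ := Submodule.exists_mem_ne_zero_of_ne_bot hd1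
  obtain ⟨c, hc⟩ := (memL s).1 hs.1
  obtain ⟨y₀, hy₀, hy₀L⟩ : ∃ y₀, y₀ ∈ gim L h' ∧ y₀ ∉ L := by
    by_contra hcon
    push Not at hcon
    exact hh'L (Submodule.eq_of_le_of_finrank_eq hcon (finrank_gim L h'))
  obtain ⟨π₁, hπ₁u, hπ₁y⟩ :=
    exists_kfun_pair hK u y₀ (fun k hk => hy₀L ((memL y₀).2 ⟨k, hk⟩))
  set π : KFun K := π₁.smul hK.comm c with hπ
  have hπu : π u = 0 := by rw [hπ, KFun.smul_apply, hπ₁u, mul_zero]
  have hπy : π y₀ = c := by rw [hπ, KFun.smul_apply, hπ₁y, mul_one]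
  set x : GL (Fin n) F := ktG u π hπu with hx
  have hxM : x ∈ M := hM (ktG_mem u π hπu)
  have hxv : ∀ v : Fin n → F, (x : Matrix (Fin n) (Fin n) F) *ᵥ v =
      v + ((π v : ↥K) : Matrix (Fin n) (Fin n) F) *ᵥ u := fun v => ktG_mulVec u π hπu v
  have hπL : ∀ v ∈ L, π v = 0 := by
    intro v hv
    obtain ⟨k, rfl⟩ := (memL v).1 hv
    rw [π.map_k, hπu, mul_zero]
  have hxL : ∀ v ∈ L, (x : Matrix (Fin n) (Fin n) F) *ᵥ v = v := by
    intro v hv
    rw [hxv, hπL v hv, ZeroMemClass.coe_zero, Matrix.zero_mulVec, add_zero]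
  have hxy : (x : Matrix (Fin n) (Fin n) F) *ᵥ y₀ = y₀ + s := by rw [hxv, hπy, hc]
  -- `x` stabilises `h' L`
  have hclaim : gim (gim L h') x = gim L h' := by
    by_contra hne
    set g : GL (Fin n) F := h'⁻¹ * x * h' with hg
    have hgM : g ∈ M := M.mul_mem (M.mul_mem (M.inv_mem hh'M) hxM) hh'M
    have hgim : gim (gim L g) h' = gim (gim L h') x := by
      rw [hg, gim_mul, gim_mul, gim_inv_gim]
    have hgL : gim L g ≠ L := by
      intro e
      rw [e] at hgim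
      exact hne hgim.symm
    have h1 := hmax g hgM hgL
    have h2 : Module.finrank F ↥(L ⊓ gim L g) =
        Module.finrank F ↥(gim L h' ⊓ gim (gim L h') x) := by
      rw [← finrank_gim (L ⊓ gim L g) h', gim_inf, hgim]
    have h3 : L ⊓ gim L h' < gim L h' ⊓ gim (gim L h') x := by
      rw [SetLike.lt_iff_le_and_exists]
      refine ⟨fun v hv => ⟨hv.2, ?_⟩, y₀ + s, ⟨?_, ?_⟩, ?_⟩
      · have := mulVec_mem_gim x hv.2
        rw [hxL v hv.1] at this
        exact this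
      · exact Submodule.add_mem _ hy₀ hs.2
      · rw [← hxy]
        exact mulVec_mem_gim x hy₀
      · intro hys
        apply hy₀L
        have := Submodule.sub_mem _ hys.1 hs.1
        rw [add_sub_cancel_right] at this
        exact this
    have h4 := Submodule.finrank_lt_finrank_of_lt h3
    omega
  set z : GL (Fin n) F := h'⁻¹ * x * h' with hz
  have hzM : z ∈ M := M.mul_mem (M.mul_mem (M.inv_mem hh'M) hxM) hh'M
  have hzv : ∀ v : Fin n → F, (z : Matrix (Fin n) (Fin n) F) *ᵥ v =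
      ((h'⁻¹ : GL (Fin n) F) : Matrix (Fin n) (Fin n) F) *ᵥ
        ((x : Matrix (Fin n) (Fin n) F) *ᵥ ((h' : Matrix (Fin n) (Fin n) F) *ᵥ v)) := by
    intro v
    rw [hz, Units.val_mul, Units.val_mul, Matrix.mulVec_mulVec, Matrix.mulVec_mulVec]
  have hzL : ∀ v ∈ L, (z : Matrix (Fin n) (Fin n) F) *ᵥ v ∈ L := by
    intro v hv
    rw [hzv, ← mem_gim, ← hclaim]
    exact mulVec_mem_gim x (mulVec_mem_gim h' hv)
  refine ⟨z, hzM, fun c₁ => ?_, fun hN => ?_⟩
  · obtain ⟨c', hc'⟩ := (memL _).1 (hzL _ ((memL _).2 ⟨c₁, rfl⟩))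
    exact ⟨c', hc'.symm⟩
  -- the fixed space
  set φV : (Fin n → F) →ₗ[F] (Fin n → F) :=
    (actLin K u) ∘ₗ π.toLin ∘ₗ (glE h').toLinearMap with hφV
  have hφ : ∀ t : Fin n → F, φV t =
      ((π ((h' : Matrix (Fin n) (Fin n) F) *ᵥ t) : ↥K) : Matrix (Fin n) (Fin n) F) *ᵥ u :=
    fun t => rfl
  have hfix : ∀ t : Fin n → F, φV t = 0 → (z : Matrix (Fin n) (Fin n) F) *ᵥ t = t := by
    intro t ht
    rw [hzv, hxv, ← hφ, ht, add_zero, inv_mulVec_mulVec]
  set Fx : Submodule F (Fin n → F) := L ⊓ LinearMap.ker φV with hFx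
  have hF1 : Module.finrank F ↥(L ⊓ gim L h') ≤ Module.finrank F ↥Fx := by
    rw [← finrank_gim (L ⊓ gim L h') h'⁻¹]
    apply Submodule.finrank_mono
    intro t ht
    rw [mem_gim, inv_inv] at ht
    obtain ⟨ht1, ht3⟩ := Submodule.mem_inf.mp ht
    have ht2 : t ∈ L := by
      rw [mem_gim, inv_mulVec_mulVec] at ht3
      exact ht3
    refine Submodule.mem_inf.mpr ⟨ht2, ?_⟩
    rw [LinearMap.mem_ker, hφ, hπL _ ht1, ZeroMemClass.coe_zero, Matrix.zero_mulVec]
  have hF2 : r ≤ Module.finrank F ↥(L ⊓ gim L h') + Module.finrank F ↥Fx := by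
    have e1 := LinearMap.finrank_range_add_finrank_ker (φV.domRestrict L)
    rw [LinearMap.range_domRestrict, LinearMap.ker_domRestrict, hLr] at e1
    have e2 : Module.finrank F ↥(Submodule.comap L.subtype (LinearMap.ker φV)) =
        Module.finrank F ↥Fx := by
      rw [hFx, ← Submodule.map_comap_subtype, Submodule.finrank_map_subtype_eq]
    have e3 : Module.finrank F ↥(Submodule.map φV L) ≤ Module.finrank F ↥(L ⊓ gim L h') := by
      apply Submodule.finrank_mono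
      rintro _ ⟨t, ht, rfl⟩
      refine ⟨(memL _).2 ⟨_, (hφ t).symm⟩, ?_⟩
      have h1 : φV t = (x : Matrix (Fin n) (Fin n) F) *ᵥ ((h' : Matrix (Fin n) (Fin n) F) *ᵥ t) -
          (h' : Matrix (Fin n) (Fin n) F) *ᵥ t := by
        rw [hxv, hφ, add_sub_cancel_left]
      rw [h1]
      refine Submodule.sub_mem _ ?_ (mulVec_mem_gim h' ht)
      rw [← hclaim]
      exact mulVec_mem_gim x (mulVec_mem_gim h' ht)
    omega
  have hF3 : 2 ≤ Module.finrank F ↥Fx := by omega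
  have hFz : ∀ t ∈ Fx, (z : Matrix (Fin n) (Fin n) F) *ᵥ t = t :=
    fun t ht => hfix t (LinearMap.mem_ker.mp ht.2)
  obtain ⟨w₁, hw₁, hw₁0⟩ : ∃ w₁ ∈ Fx, w₁ ≠ 0 := by
    apply Submodule.exists_mem_ne_zero_of_ne_bot
    intro hbot
    rw [hbot, finrank_bot] at hF3
    omega
  obtain ⟨w₂, hw₂, hw₂s⟩ : ∃ w₂ ∈ Fx, w₂ ∉ Submodule.span F {w₁} := by
    by_contra hcon
    push Not at hcon
    have h1 : Fx ≤ Submodule.span F {w₁} := hcon
    have h2 := Submodule.finrank_mono h1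
    rw [finrank_span_singleton hw₁0] at h2
    omega
  obtain ⟨b, hb⟩ := (memL w₁).1 hw₁.1
  obtain ⟨b₂, hb₂⟩ := (memL w₂).1 hw₂.1
  have hb0 : (b : Matrix (Fin n) (Fin n) F) ≠ 0 := by
    intro e
    rw [e, Matrix.zero_mulVec] at hb
    exact hw₁0 hb.symm
  obtain ⟨b', hb', hbb'⟩ := hK.inv b b.2 hb0
  have hb'b : b' * (b : Matrix (Fin n) (Fin n) F) = 1 := by
    rw [hK.comm b' hb' b b.2]; exact hbb'
  -- every vector of `L` is a `K`-multiple of `w₁`
  have hLw : ∀ a : ↥K, (a : Matrix (Fin n) (Fin n) F) *ᵥ u =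
      ((a * ⟨b', hb'⟩ : ↥K) : Matrix (Fin n) (Fin n) F) *ᵥ w₁ := by
    intro a
    rw [← hb, Subalgebra.coe_mul, Matrix.mulVec_mulVec, mul_assoc, hb'b, mul_one]
  have hz1 := hFz w₁ hw₁
  have hz2 := hFz w₂ hw₂
  let E : Subalgebra F ↥K :=
    { carrier := {k : ↥K | (z : Matrix (Fin n) (Fin n) F) *ᵥ
          ((k : Matrix (Fin n) (Fin n) F) *ᵥ w₁) = (k : Matrix (Fin n) (Fin n) F) *ᵥ w₁}
      mul_mem' := by
        intro k₁ k₂ hk₁ hk₂
        rw [Set.mem_ofPred_eq] at hk₁ hk₂ ⊢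
        obtain ⟨k₁', hk₁'⟩ := hN k₁
        have e1 := hk₁' b
        rw [hb, hz1, hk₁] at e1
        have e2 : (k₁ : Matrix (Fin n) (Fin n) F) - (k₁' : Matrix (Fin n) (Fin n) F) = 0 := by
          apply fs_eq_zero hK (K.sub_mem k₁.2 k₁'.2) hw₁0
          rw [Matrix.sub_mulVec, e1, sub_self]
        have e3 := hk₁' (k₂ * b)
        rw [Subalgebra.coe_mul, ← Matrix.mulVec_mulVec, hb, hk₂, ← sub_eq_zero.mp e2] at e3
        rw [Subalgebra.coe_mul, ← Matrix.mulVec_mulVec]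
        exact e3
      one_mem' := by
        rw [Set.mem_ofPred_eq, OneMemClass.coe_one, Matrix.one_mulVec]
        exact hz1
      add_mem' := by
        intro k₁ k₂ hk₁ hk₂
        rw [Set.mem_ofPred_eq] at hk₁ hk₂ ⊢
        rw [Subalgebra.coe_add, Matrix.add_mulVec, Matrix.mulVec_add, hk₁, hk₂]
      zero_mem' := by
        rw [Set.mem_ofPred_eq, ZeroMemClass.coe_zero, Matrix.zero_mulVec, Matrix.mulVec_zero]
      algebraMap_mem' := by
        intro a
        rw [Set.mem_ofPred_eq, Subalgebra.coe_algebraMap, Algebra.algebraMap_eq_smul_one,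
          Matrix.smul_mulVec, Matrix.one_mulVec, Matrix.mulVec_smul, hz1] }
  have hE : ∀ k : ↥K, k ∈ E ↔ (z : Matrix (Fin n) (Fin n) F) *ᵥ
      ((k : Matrix (Fin n) (Fin n) F) *ᵥ w₁) = (k : Matrix (Fin n) (Fin n) F) *ᵥ w₁ :=
    fun k => Iff.rfl
  have hdom : IsDomain ↥K := (fs_isField hK).isDomain
  have hsimp : IsSimpleOrder (Subalgebra F ↥K) :=
    Subalgebra.isSimpleOrder_of_finrank_prime F ↥K (by rw [hK.finrank_eq]; exact hr)
  have hk₂ : (b₂ * ⟨b', hb'⟩ : ↥K) ∈ E := by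
    rw [hE, ← hLw b₂, hb₂]
    exact hz2
  have hEtop : E = ⊤ := by
    rcases eq_bot_or_eq_top E with hbot | htop
    · exfalso
      rw [hbot, Algebra.mem_bot] at hk₂
      obtain ⟨a, ha⟩ := hk₂
      apply hw₂s
      rw [Submodule.mem_span_singleton]
      refine ⟨a, ?_⟩
      rw [← hb₂, hLw b₂, ← ha, Subalgebra.coe_algebraMap, Algebra.algebraMap_eq_smul_one,
        Matrix.smul_mulVec, Matrix.one_mulVec]
    · exact htop
  -- contradiction: `z` is the identity on `L` but moves `h'⁻¹ y₀`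
  have ht₀ : ((h'⁻¹ : GL (Fin n) F) : Matrix (Fin n) (Fin n) F) *ᵥ y₀ ∈ L := mem_gim.mp hy₀
  obtain ⟨a, ha⟩ := (memL _).1 ht₀
  have h1 : (a * ⟨b', hb'⟩ : ↥K) ∈ E := by rw [hEtop]; exact Algebra.mem_top
  rw [hE, ← hLw a, ha, hzv, mulVec_inv_mulVec, hxy, Matrix.mulVec_add] at h1
  have h2 : ((h'⁻¹ : GL (Fin n) F) : Matrix (Fin n) (Fin n) F) *ᵥ s = 0 := by
    have := h1
    rw [add_eq_left] at this
    exact this
  apply hs0
  have h3 := congrArg (fun v => (h' : Matrix (Fin n) (Fin n) F) *ᵥ v) h2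
  simp only [mulVec_inv_mulVec, Matrix.mulVec_zero] at h3
  exact h3

end Cfsg.Agent.Lib.Helper16.KG23
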