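import Mathlib
import Cfsg.Agent.Lib.Helper81.OSum
import Cfsg.Agent.Lib.Helper81.DeltaGrp
import Cfsg.Agent.Lib.Helper51.DicksonTwo
import Cfsg.Agent.Lib.Helper52.OmegaGeom
import Cfsg.Agent.Lib.Helper29.OmOG

/-!
# OMEGA-SYL piece ISOO, core (helper16): a form of dimension `2m+1` which is `c x₀² + Σ x_i y_i`
in suitable coordinates and whose discriminant is the right square class is isometric to
`quadFormOdd m`.
-/

set_option autoImplicit false
set_option linter.unusedSectionVars false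

namespace Cfsg.Agent.Lib.Helper16.OmISOO

open Cfsg Cfsg.Agent.Lib.Helper51 Cfsg.Agent.Lib.Helper81.OSum

section

variable {F : Type*} [Field F]

/-- The form `c x₀² + Σ x_i y_i`. -/
noncomputable def qc (m : ℕ) (c : F) : QuadraticForm F (Unit ⊕ (Fin m ⊕ Fin m) → F) :=
  osum (uf c) (QPlus m F)

theorem qc_apply (m : ℕ) (c : F) (x : Unit ⊕ (Fin m ⊕ Fin m) → F) :
    qc m c x = c * (x (Sum.inl ())) ^ 2
      + ∑ i : Fin m, x (Sum.inr (Sum.inl i)) * x (Sum.inr (Sum.inr i)) := by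
  unfold qc
  rw [osum_apply, uf_apply, QPlus_apply]
  show c * (x (Sum.inl ()) * x (Sum.inl ()))
    + ∑ i : Fin m, x (Sum.inr (Sum.inl i)) * x (Sum.inr (Sum.inr i)) = _
  ring

theorem det_gram_qc (m : ℕ) (c : F) : (gram (qc m c)).det = 2 * c * (-1) ^ m := by
  unfold qc
  rw [Cfsg.Agent.Lib.Helper29.OmOG.det_gram_osum, Cfsg.Agent.Lib.Helper29.OmOG.det_gram_uf,
    det_gram_QPlus]

/-- Scaling the first coordinate. -/
noncomputable def scale (m : ℕ) (s : F) (hs : s ≠ 0) :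
    (Unit ⊕ (Fin m ⊕ Fin m) → F) ≃ₗ[F] (Unit ⊕ (Fin m ⊕ Fin m) → F) :=
  LinearEquiv.piCongrRight (fun j : Unit ⊕ (Fin m ⊕ Fin m) =>
    LinearEquiv.smulOfNeZero F F (Sum.elim (fun _ => s) (fun _ => 1) j)
      (by rcases j with j | j <;> simp [hs]))

theorem scale_inl (m : ℕ) (s : F) (hs : s ≠ 0) (x : Unit ⊕ (Fin m ⊕ Fin m) → F) :
    scale m s hs x (Sum.inl ()) = s * x (Sum.inl ()) := by
  simp [scale]

theorem scale_inr (m : ℕ) (s : F) (hs : s ≠ 0) (x : Unit ⊕ (Fin m ⊕ Fin m) → F)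
    (j : Fin m ⊕ Fin m) : scale m s hs x (Sum.inr j) = x (Sum.inr j) := by
  simp [scale]

/-- The core of `iso_odd`: from the coordinates of `std_odd` and the comparison of Gram
determinants of `gram_det_transport`. -/
theorem iso_odd_of {ι : Type} [Fintype ι] [DecidableEq ι] (h2 : (2 : F) ≠ 0)
    (W : QuadraticForm F (ι → F)) (m : ℕ)
    (hd : IsSquare (2 * (-1) ^ m * (gram W).det))
    (hstd : ∃ (L : (ι → F) ≃ₗ[F] (Unit ⊕ (Fin m ⊕ Fin m) → F)) (c : F), c ≠ 0 ∧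
      ∀ v, W v = c * (L v (Sum.inl ())) ^ 2
        + ∑ i : Fin m, L v (Sum.inr (Sum.inl i)) * L v (Sum.inr (Sum.inr i)))
    (hgt : ∀ (Q₂ : QuadraticForm F (Unit ⊕ (Fin m ⊕ Fin m) → F))
      (L : (ι → F) ≃ₗ[F] (Unit ⊕ (Fin m ⊕ Fin m) → F)), (∀ v, Q₂ (L v) = W v) →
      ∃ c : F, c ≠ 0 ∧ (gram W).det = c ^ 2 * (gram Q₂).det) :
    ∃ L : (ι → F) ≃ₗ[F] (Unit ⊕ (Fin m ⊕ Fin m) → F), ∀ v, quadFormOdd m F (L v) = W v := by
  obtain ⟨L, c, hc0, hL⟩ := hstd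
  obtain ⟨d, hd0, hdet⟩ := hgt (qc m c) L (fun v => by rw [qc_apply, hL v])
  obtain ⟨r, hr⟩ := hd
  rw [hdet, det_gram_qc] at hr
  have hpm : ((-1 : F) ^ m) * ((-1) ^ m) = 1 := by
    rw [← mul_pow]
    simp
  have key : r * r = 4 * d ^ 2 * c := by
    linear_combination (4 * d ^ 2 * c) * hpm - hr
  have h2d : 2 * d ≠ 0 := mul_ne_zero h2 hd0
  obtain ⟨s, hs2⟩ : ∃ s : F, s * s = c := by
    refine ⟨r / (2 * d), ?_⟩
    field_simp
    linear_combination key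
  have hs : s ≠ 0 := by
    rintro rfl
    exact hc0 (by rw [← hs2, mul_zero])
  refine ⟨L.trans (scale m s hs), fun v => ?_⟩
  rw [hL v, ← hs2]
  unfold quadFormOdd
  simp only [LinearEquiv.trans_apply, scale_inl, scale_inr]
  ring

end

end Cfsg.Agent.Lib.Helper16.OmISOO
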