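import Mathlib
import Cfsg.Agent.Lib.Helper16.OmISOOCore
import Cfsg.Agent.Lib.Helper34.OmegaGT

/-!
# OMEGA-SYL piece ISOO (helper16): `iso_odd`, with the statement of piece STDO (`std_odd`, for the
given form) as an extra last hypothesis.
-/

set_option autoImplicit false
set_option linter.unusedSectionVars false

namespace Cfsg.Agent.Lib.Helper16.OmISOO

open Cfsg Cfsg.Agent.Lib.Helper51 Cfsg.Agent.Lib.Helper81.OSum

section ISO

variable {ι : Type} [Fintype ι] [DecidableEq ι] {F : Type*} [Field F] [Fintype F]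

/-- `iso_odd` of the skeleton, with the conclusion of `std_odd h2 W hW m hc` as the extra last
hypothesis. -/
theorem iso_odd_of_std (h2 : (2 : F) ≠ 0) (W : QuadraticForm F (ι → F))
    (hW : (QuadraticMap.polarBilin W).Nondegenerate) (m : ℕ)
    (hc : Fintype.card ι = 2 * m + 1) (hd : IsSquare (2 * (-1) ^ m * (gram W).det))
    (hstd : ∃ (L : (ι → F) ≃ₗ[F] (Unit ⊕ (Fin m ⊕ Fin m) → F)) (c : F), c ≠ 0 ∧
      ∀ v, W v = c * (L v (Sum.inl ())) ^ 2
        + ∑ i : Fin m, L v (Sum.inr (Sum.inl i)) * L v (Sum.inr (Sum.inr i))) :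
    ∃ L : (ι → F) ≃ₗ[F] (Unit ⊕ (Fin m ⊕ Fin m) → F), ∀ v, quadFormOdd m F (L v) = W v :=
  iso_odd_of h2 W m hd hstd
    (fun Q₂ L hL => Cfsg.Agent.Lib.Helper34.OmegaGT.gram_det_transport W Q₂ L hL)

end ISO

end Cfsg.Agent.Lib.Helper16.OmISOO
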