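import Mathlib
import Cfsg.Agent.Lib.Helper18.SLMDefs

/-!
# Project SLM (S2332, architect helper18): piece HER (proof by helper16)

`EP` is inherited by the Levi module `V^Q`.
-/

set_option autoImplicit false
set_option linter.unusedSectionVars false
set_option linter.unusedVariables false

namespace Cfsg.Agent.Lib.Helper18.SLM

open Matrix

universe u

variable {F : Type u} [Field F] [Fintype F]

/-- a `(1 + 1 + k)`-block matrix: rows `(a, b, r)`, `(c, d, t)`, `(p i, q i, D i ·)` -/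
def her_mk {k : ℕ} (a b : F) (r : Fin k → F) (c d : F) (t : Fin k → F) (p q : Fin k → F)
    (D : Matrix (Fin k) (Fin k) F) : Matrix (Fin (k + 2)) (Fin (k + 2)) F :=
  Matrix.of fun i j =>
    Fin.cases (Fin.cases a (fun j' => Fin.cases b (fun j'' => r j'') j') j)
      (fun i' => Fin.cases (Fin.cases c (fun j' => Fin.cases d (fun j'' => t j'') j') j)
        (fun i'' => Fin.cases (p i'') (fun j' => Fin.cases (q i'') (fun j'' => D i'' j'') j') j)
        i') i

section entries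

variable {k : ℕ} (a b : F) (r : Fin k → F) (c d : F) (t : Fin k → F) (p q : Fin k → F)
    (D : Matrix (Fin k) (Fin k) F)

theorem her_mk_00 : her_mk a b r c d t p q D 0 0 = a := rfl
theorem her_mk_01 : her_mk a b r c d t p q D 0 (Fin.succ 0) = b := rfl
theorem her_mk_02 (j : Fin k) : her_mk a b r c d t p q D 0 (Fin.succ (Fin.succ j)) = r j := rfl
theorem her_mk_10 : her_mk a b r c d t p q D (Fin.succ 0) 0 = c := rfl
theorem her_mk_11 : her_mk a b r c d t p q D (Fin.succ 0) (Fin.succ 0) = d := rfl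
theorem her_mk_12 (j : Fin k) :
    her_mk a b r c d t p q D (Fin.succ 0) (Fin.succ (Fin.succ j)) = t j := rfl
theorem her_mk_20 (i : Fin k) : her_mk a b r c d t p q D (Fin.succ (Fin.succ i)) 0 = p i := rfl
theorem her_mk_21 (i : Fin k) :
    her_mk a b r c d t p q D (Fin.succ (Fin.succ i)) (Fin.succ 0) = q i := rfl
theorem her_mk_22 (i j : Fin k) :
    her_mk a b r c d t p q D (Fin.succ (Fin.succ i)) (Fin.succ (Fin.succ j)) = D i j := rfl

end entries

theorem her_mk_mul {k : ℕ} (a b : F) (r : Fin k → F) (c d : F) (t : Fin k → F) (p q : Fin k → F)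
    (D : Matrix (Fin k) (Fin k) F) (a' b' : F) (r' : Fin k → F) (c' d' : F) (t' : Fin k → F)
    (p' q' : Fin k → F) (D' : Matrix (Fin k) (Fin k) F) :
    her_mk a b r c d t p q D * her_mk a' b' r' c' d' t' p' q' D' =
      her_mk (a * a' + b * c' + r ⬝ᵥ p') (a * b' + b * d' + r ⬝ᵥ q')
        (a • r' + b • t' + r ᵥ* D')
        (c * a' + d * c' + t ⬝ᵥ p') (c * b' + d * d' + t ⬝ᵥ q')
        (c • r' + d • t' + t ᵥ* D')
        (a' • p + c' • q + D *ᵥ p') (b' • p + d' • q + D *ᵥ q')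
        (vecMulVec p r' + vecMulVec q t' + D * D') := by
  ext i j
  refine Fin.cases ?_ (fun i' => Fin.cases ?_ (fun i'' => ?_) i') i <;>
    refine Fin.cases ?_ (fun j' => Fin.cases ?_ (fun j'' => ?_) j') j <;>
    simp only [Matrix.mul_apply, Fin.sum_univ_succ, her_mk_00, her_mk_01, her_mk_02, her_mk_10,
      her_mk_11, her_mk_12, her_mk_20, her_mk_21, her_mk_22, dotProduct, vecMul, mulVec,
      Pi.add_apply, Pi.smul_apply, smul_eq_mul, Matrix.add_apply, vecMulVec_apply] <;>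
    ring

theorem her_mk_congr {k : ℕ} {a b : F} {r : Fin k → F} {c d : F} {t : Fin k → F}
    {p q : Fin k → F} {D : Matrix (Fin k) (Fin k) F} {a' b' : F} {r' : Fin k → F} {c' d' : F}
    {t' : Fin k → F} {p' q' : Fin k → F} {D' : Matrix (Fin k) (Fin k) F}
    (h1 : a = a') (h2 : b = b') (h3 : r = r') (h4 : c = c') (h5 : d = d') (h6 : t = t')
    (h7 : p = p') (h8 : q = q') (h9 : D = D') :
    her_mk a b r c d t p q D = her_mk a' b' r' c' d' t' p' q' D' := by
  subst h1 h2 h3 h4 h5 h6 h7 h8 h9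
  rfl

theorem her_x1 {k : ℕ} (c : F) (u : Fin k → F) :
    ((x1 (Fin.cons c u : Fin (k + 1) → F) : Matrix.SpecialLinearGroup (Fin (k + 2)) F) :
      Matrix (Fin (k + 2)) (Fin (k + 2)) F) = her_mk 1 c u 0 1 0 0 0 1 := by
  rw [x1_val]
  ext i j
  refine Fin.cases ?_ (fun i' => Fin.cases ?_ (fun i'' => ?_) i') i <;>
    refine Fin.cases ?_ (fun j' => Fin.cases ?_ (fun j'' => ?_) j') j <;>
    simp [-Fin.succ_zero_eq_one, -Fin.succ_zero_eq_one', her_mk_00, her_mk_01, her_mk_02, her_mk_10,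
      her_mk_11, her_mk_12, her_mk_20, her_mk_21, her_mk_22, Matrix.one_apply, vecMulVec_apply,
      Pi.single_apply, Fin.succ_ne_zero, Ne.symm (Fin.succ_ne_zero _)]

theorem her_lev_x1 {k : ℕ} (u : Fin k → F) :
    ((lev (x1 u) : Matrix.SpecialLinearGroup (Fin (k + 2)) F) :
      Matrix (Fin (k + 2)) (Fin (k + 2)) F) = her_mk 1 0 0 0 1 u 0 0 1 := by
  rw [lev_val, x1_val]
  ext i j
  refine Fin.cases ?_ (fun i' => Fin.cases ?_ (fun i'' => ?_) i') i <;>
    refine Fin.cases ?_ (fun j' => Fin.cases ?_ (fun j'' => ?_) j') j <;>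
    simp [-Fin.succ_zero_eq_one, -Fin.succ_zero_eq_one', her_mk_00, her_mk_01, her_mk_02, her_mk_10,
      her_mk_11, her_mk_12, her_mk_20, her_mk_21, her_mk_22, Matrix.one_apply, vecMulVec_apply,
      Pi.single_apply, Fin.succ_ne_zero, Ne.symm (Fin.succ_ne_zero _)]

theorem her_lev_lev {k : ℕ} (y : Matrix.SpecialLinearGroup (Fin k) F) :
    ((lev (lev y) : Matrix.SpecialLinearGroup (Fin (k + 2)) F) :
      Matrix (Fin (k + 2)) (Fin (k + 2)) F) =
      her_mk 1 0 0 0 1 0 0 0 (y : Matrix (Fin k) (Fin k) F) := by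
  rw [lev_val, lev_val]
  ext i j
  refine Fin.cases ?_ (fun i' => Fin.cases ?_ (fun i'' => ?_) i') i <;>
    refine Fin.cases ?_ (fun j' => Fin.cases ?_ (fun j'' => ?_) j') j <;>
    simp [-Fin.succ_zero_eq_one, -Fin.succ_zero_eq_one', her_mk_00, her_mk_01, her_mk_02, her_mk_10,
      her_mk_11, her_mk_12, her_mk_20, her_mk_21, her_mk_22]

/-- the transvection `1 + b • E₁₀` -/
def her_z {k : ℕ} (b : F) : Matrix.SpecialLinearGroup (Fin (k + 2)) F :=
  ⟨Matrix.transvection (Fin.succ 0) 0 b,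
    Matrix.det_transvection_of_ne _ _ (Fin.succ_ne_zero 0) b⟩

theorem her_z_val {k : ℕ} (b : F) :
    ((her_z b : Matrix.SpecialLinearGroup (Fin (k + 2)) F) :
      Matrix (Fin (k + 2)) (Fin (k + 2)) F) = her_mk 1 0 0 b 1 0 0 0 1 := by
  show Matrix.transvection (Fin.succ 0) 0 b = _
  ext i j
  refine Fin.cases ?_ (fun i' => Fin.cases ?_ (fun i'' => ?_) i') i <;>
    refine Fin.cases ?_ (fun j' => Fin.cases ?_ (fun j'' => ?_) j') j <;>
    simp [-Fin.succ_zero_eq_one, -Fin.succ_zero_eq_one', her_mk_00, her_mk_01, her_mk_02, her_mk_10,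
      her_mk_11, her_mk_12, her_mk_20, her_mk_21, her_mk_22, Matrix.one_apply,
      Matrix.transvection, Matrix.single_apply, Fin.succ_ne_zero, Ne.symm (Fin.succ_ne_zero _)]

/-- the Weyl element `e₀ ↦ e₁ ↦ -e₀` -/
def her_s {k : ℕ} : Matrix.SpecialLinearGroup (Fin (k + 2)) F :=
  x1 (Fin.cons (-1) 0 : Fin (k + 1) → F) * her_z 1 * x1 (Fin.cons (-1) 0 : Fin (k + 1) → F)

theorem her_s_val {k : ℕ} :
    ((her_s : Matrix.SpecialLinearGroup (Fin (k + 2)) F) :
      Matrix (Fin (k + 2)) (Fin (k + 2)) F) = her_mk 0 (-1) 0 1 0 0 0 0 1 := by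
  unfold her_s
  rw [Matrix.SpecialLinearGroup.coe_mul, Matrix.SpecialLinearGroup.coe_mul, her_x1, her_z_val,
    her_mk_mul, her_mk_mul]
  apply her_mk_congr <;> simp

theorem her_z_add {k : ℕ} (b c : F) :
    (her_z c * her_z b : Matrix.SpecialLinearGroup (Fin (k + 2)) F) = her_z (c + b) := by
  apply Subtype.ext
  rw [Matrix.SpecialLinearGroup.coe_mul, her_z_val, her_z_val, her_z_val, her_mk_mul]
  apply her_mk_congr <;> simp

theorem her_z_zero {k : ℕ} : (her_z 0 : Matrix.SpecialLinearGroup (Fin (k + 2)) F) = 1 := by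
  apply Subtype.ext
  show Matrix.transvection (Fin.succ 0) 0 (0 : F) = 1
  simp [Matrix.transvection]

theorem her_r2_z {k : ℕ} (u : Fin k → F) (b : F) :
    (lev (x1 u) * her_z b : Matrix.SpecialLinearGroup (Fin (k + 2)) F) = her_z b * lev (x1 u) := by
  apply Subtype.ext
  rw [Matrix.SpecialLinearGroup.coe_mul, Matrix.SpecialLinearGroup.coe_mul, her_z_val,
    her_lev_x1, her_mk_mul, her_mk_mul]
  apply her_mk_congr <;> simp

theorem her_y_z {k : ℕ} (y : Matrix.SpecialLinearGroup (Fin k) F) (b : F) :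
    (lev (lev y) * her_z b : Matrix.SpecialLinearGroup (Fin (k + 2)) F) =
      her_z b * lev (lev y) := by
  apply Subtype.ext
  rw [Matrix.SpecialLinearGroup.coe_mul, Matrix.SpecialLinearGroup.coe_mul, her_z_val,
    her_lev_lev, her_mk_mul, her_mk_mul]
  apply her_mk_congr <;> simp

theorem her_r1_z {k : ℕ} (u : Fin k → F) (b : F) :
    (x1 (Fin.cons 0 u : Fin (k + 1) → F) * her_z b :
      Matrix.SpecialLinearGroup (Fin (k + 2)) F) =
      her_z b * (x1 (Fin.cons 0 u : Fin (k + 1) → F) * lev (x1 (-b • u))) := by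
  apply Subtype.ext
  rw [Matrix.SpecialLinearGroup.coe_mul, Matrix.SpecialLinearGroup.coe_mul,
    Matrix.SpecialLinearGroup.coe_mul, her_z_val, her_x1, her_lev_x1, her_mk_mul, her_mk_mul,
    her_mk_mul]
  apply her_mk_congr <;> simp

theorem her_s_x1 {k : ℕ} (c : F) (u : Fin k → F) :
    (her_s * x1 (Fin.cons c u : Fin (k + 1) → F) :
      Matrix.SpecialLinearGroup (Fin (k + 2)) F) = her_z (-c) * lev (x1 u) * her_s := by
  apply Subtype.ext
  rw [Matrix.SpecialLinearGroup.coe_mul, Matrix.SpecialLinearGroup.coe_mul,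
    Matrix.SpecialLinearGroup.coe_mul, her_z_val, her_x1, her_lev_x1, her_s_val, her_mk_mul,
    her_mk_mul, her_mk_mul]
  apply her_mk_congr <;> simp

theorem her_y_s {k : ℕ} (y : Matrix.SpecialLinearGroup (Fin k) F) :
    (lev (lev y) * her_s : Matrix.SpecialLinearGroup (Fin (k + 2)) F) = her_s * lev (lev y) := by
  apply Subtype.ext
  rw [Matrix.SpecialLinearGroup.coe_mul, Matrix.SpecialLinearGroup.coe_mul, her_s_val,
    her_lev_lev, her_mk_mul, her_mk_mul]
  apply her_mk_congr <;> simp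

theorem her_r2_y {k : ℕ} (y : Matrix.SpecialLinearGroup (Fin k) F) (u : Fin k → F) :
    (lev (x1 u) * lev (lev y) : Matrix.SpecialLinearGroup (Fin (k + 2)) F) =
      lev (lev y) * lev (x1 (u ᵥ* (y : Matrix (Fin k) (Fin k) F))) := by
  apply Subtype.ext
  rw [Matrix.SpecialLinearGroup.coe_mul, Matrix.SpecialLinearGroup.coe_mul, her_lev_x1,
    her_lev_x1, her_lev_lev, her_mk_mul, her_mk_mul]
  apply her_mk_congr <;> simp

theorem her_isTv_lev {k : ℕ} (y : Matrix.SpecialLinearGroup (Fin k) F) (hy : IsTv y) :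
    IsTv (lev y) := by
  obtain ⟨a, φ, h1, h2⟩ := hy
  refine ⟨Fin.cons 0 a, Fin.cons 0 φ, ?_, ?_⟩
  · rw [dotProduct, Fin.sum_univ_succ]
    simpa [dotProduct] using h1
  · rw [lev_val, h2]
    ext i j
    refine Fin.cases ?_ (fun i' => ?_) i <;> refine Fin.cases ?_ (fun j' => ?_) j <;>
      simp [Matrix.one_apply, vecMulVec_apply, Fin.succ_ne_zero, Ne.symm (Fin.succ_ne_zero _)]

theorem her_lev_fix {k : ℕ} (y : Matrix.SpecialLinearGroup (Fin k) F) (ν : Fin k → F)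
    (h : (y : Matrix (Fin k) (Fin k) F) *ᵥ ν = ν) :
    ((lev y : Matrix.SpecialLinearGroup (Fin (k + 1)) F) : Matrix (Fin (k + 1)) (Fin (k + 1)) F) *ᵥ
      (Fin.cons 0 ν : Fin (k + 1) → F) = Fin.cons 0 ν := by
  rw [lev_val]
  ext i
  refine Fin.cases ?_ (fun i' => ?_) i
  · simp [mulVec, dotProduct, Fin.sum_univ_succ]
  · have h1 := congrFun h i'
    simp only [mulVec, dotProduct] at h1
    simp [mulVec, dotProduct, Fin.sum_univ_succ, h1]

theorem her_cons_ne {k : ℕ} (ν : Fin k → F) (h : ν ≠ 0) :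
    (Fin.cons 0 ν : Fin (k + 1) → F) ≠ 0 := by
  intro h0
  apply h
  funext i
  have h1 := congrFun h0 i.succ
  simpa using h1

theorem her_charsum {k : ℕ} (ψ : AddChar F ℂ) (hψ : ψ ≠ 1) (ν : Fin k → F) (hν : ν ≠ 0) (b : F)
    (hb : b ≠ 0) : ∑ u : Fin k → F, ψ (ν ⬝ᵥ (-b • u)) = 0 := by
  classical
  obtain ⟨a, ha⟩ : ∃ a, ψ a ≠ 1 := by
    by_contra hcon
    push Not at hcon
    apply hψ
    ext a
    simpa using hcon a
  obtain ⟨i, hi⟩ : ∃ i, ν i ≠ 0 := by
    by_contra hcon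
    push Not at hcon
    exact hν (funext hcon)
  obtain ⟨u₀, hu₀⟩ : ∃ u₀ : Fin k → F, u₀ = Pi.single i (a / (-b * ν i)) := ⟨_, rfl⟩
  have hf : ν ⬝ᵥ (-b • u₀) = a := by
    rw [dotProduct_smul, hu₀, dotProduct_single, smul_eq_mul]
    field_simp
  have hshift : ∑ u : Fin k → F, ψ (ν ⬝ᵥ (-b • u)) =
      ψ a * ∑ u : Fin k → F, ψ (ν ⬝ᵥ (-b • u)) := by
    rw [Finset.mul_sum, ← Equiv.sum_comp (Equiv.addLeft u₀)]
    apply Finset.sum_congr rfl
    intro u _
    rw [Equiv.coe_addLeft, smul_add, dotProduct_add, AddChar.map_add_eq_mul, hf]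
  have h1 : (ψ a - 1) * ∑ u : Fin k → F, ψ (ν ⬝ᵥ (-b • u)) = 0 := by
    rw [sub_mul, one_mul, ← hshift, sub_self]
  rcases mul_eq_zero.mp h1 with h | h
  · exact absurd (sub_eq_zero.mp h) ha
  · exact h

section rep

variable {V : Type*} [AddCommGroup V] [Module ℂ V]

theorem her_inv_cancel {G : Type*} [Group G] (ρ : Representation ℂ G V) (g : G) (v : V) :
    ρ g (ρ g⁻¹ v) = v := by
  rw [← Module.End.mul_apply, ← map_mul, mul_inv_cancel, map_one, Module.End.one_apply]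

theorem her_step1 (ψ : AddChar F ℂ) (hψ : ψ ≠ 1) {k : ℕ}
    (ρ : Representation ℂ (Matrix.SpecialLinearGroup (Fin (k + 2)) F) V)
    (ν : Fin k → F) (hν : ν ≠ 0) (w : V)
    (ha : ∀ u : Fin (k + 1) → F, ρ (x1 u) w = w)
    (hb : ∀ u : Fin k → F, ρ (lev (x1 u)) w = ψ (ν ⬝ᵥ u) • w)
    (hN : ∑ b : F, ρ (her_z b) w = 0) : w = 0 := by
  classical
  have key : ∀ (u : Fin k → F) (b : F), ρ (x1 (Fin.cons 0 u : Fin (k + 1) → F)) (ρ (her_z b) w) =
      ψ (ν ⬝ᵥ (-b • u)) • ρ (her_z b) w := by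
    intro u b
    rw [← Module.End.mul_apply, ← map_mul, her_r1_z, map_mul, map_mul, Module.End.mul_apply,
      Module.End.mul_apply, hb, map_smul, ha, map_smul]
  have h1 : ∑ u : Fin k → F, ρ (x1 (Fin.cons 0 u : Fin (k + 1) → F)) (∑ b : F, ρ (her_z b) w)
      = 0 := by
    rw [hN]
    simp
  have h2 : ∑ u : Fin k → F, ρ (x1 (Fin.cons 0 u : Fin (k + 1) → F)) (∑ b : F, ρ (her_z b) w) =
      ∑ b : F, (∑ u : Fin k → F, ψ (ν ⬝ᵥ (-b • u))) • ρ (her_z b) w := by
    simp only [map_sum, key]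
    rw [Finset.sum_comm]
    apply Finset.sum_congr rfl
    intro b _
    rw [Finset.sum_smul]
  rw [h2] at h1
  rw [Finset.sum_eq_single (0 : F)] at h1
  · rw [her_z_zero, map_one, Module.End.one_apply] at h1
    have h3 : ∑ u : Fin k → F, ψ (ν ⬝ᵥ (-(0 : F) • u)) = (Fintype.card (Fin k → F) : ℂ) := by
      simp
    rw [h3] at h1
    rcases smul_eq_zero.mp h1 with h | h
    · exfalso
      have h4 : (Fintype.card (Fin k → F) : ℂ) ≠ 0 := Nat.cast_ne_zero.mpr Fintype.card_ne_zero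
      exact h4 h
    · exact h
  · intro b _ hb0
    rw [her_charsum ψ hψ ν hν b hb0, zero_smul]
  · intro h
    exact absurd (Finset.mem_univ _) h

theorem her_main (ψ : AddChar F ℂ) (hψ : ψ ≠ 1) {k : ℕ}
    (ρ : Representation ℂ (Matrix.SpecialLinearGroup (Fin (k + 2)) F) V) (hE : EP ψ ρ)
    (ν : Fin k → F) (hν : ν ≠ 0) (y : Matrix.SpecialLinearGroup (Fin k) F) (hy : IsTv y)
    (hyν : (y : Matrix (Fin k) (Fin k) F) *ᵥ ν = ν) (w : V)
    (ha : ∀ u : Fin (k + 1) → F, ρ (x1 u) w = w)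
    (hb : ∀ u : Fin k → F, ρ (lev (x1 u)) w = ψ (ν ⬝ᵥ u) • w)
    (hc : ∀ u : Fin (k + 1) → F, ρ (x1 u) (ρ (lev (lev y)) w) = ρ (lev (lev y)) w) :
    ρ (lev (lev y)) w = w := by
  classical
  obtain ⟨n, hn⟩ : ∃ n : V, n = ∑ b : F, ρ (her_z b) w := ⟨_, rfl⟩
  have h2a : ∀ c : F, ρ (her_z c) n = n := by
    intro c
    rw [hn, map_sum, ← Equiv.sum_comp (Equiv.addLeft c) (fun b => ρ (her_z b) w)]
    apply Finset.sum_congr rfl
    intro b _
    rw [← Module.End.mul_apply, ← map_mul, her_z_add]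
    rfl
  have h2b : ∀ u : Fin k → F, ρ (lev (x1 u)) n = ψ (ν ⬝ᵥ u) • n := by
    intro u
    rw [hn, map_sum, Finset.smul_sum]
    apply Finset.sum_congr rfl
    intro b _
    rw [← Module.End.mul_apply, ← map_mul, her_r2_z, map_mul, Module.End.mul_apply, hb, map_smul]
  have h2c : ρ (her_s⁻¹) n ∈ wt ψ ρ (Fin.cons 0 ν : Fin (k + 1) → F) := by
    intro u
    have hu : u = Fin.cons (u 0) (Fin.tail u) := (Fin.cons_self_tail u).symm
    have hdot : (Fin.cons 0 ν : Fin (k + 1) → F) ⬝ᵥ u = ν ⬝ᵥ Fin.tail u := by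
      rw [dotProduct, Fin.sum_univ_succ]
      simp [dotProduct, Fin.tail]
    have hrel : x1 u * her_s⁻¹ = her_s⁻¹ * (her_z (-(u 0)) * lev (x1 (Fin.tail u))) := by
      have h := her_s_x1 (u 0) (Fin.tail u)
      rw [← hu] at h
      calc x1 u * her_s⁻¹ = her_s⁻¹ * (her_s * x1 u) * her_s⁻¹ := by group
        _ = her_s⁻¹ * (her_z (-(u 0)) * lev (x1 (Fin.tail u)) * her_s) * her_s⁻¹ := by rw [h]
        _ = her_s⁻¹ * (her_z (-(u 0)) * lev (x1 (Fin.tail u))) := by group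
    rw [← Module.End.mul_apply, ← map_mul, hrel, map_mul, map_mul, Module.End.mul_apply,
      Module.End.mul_apply, h2b, map_smul, h2a, map_smul, hdot]
  have h2d : ρ (lev (lev y)) (ρ (her_s⁻¹) n) = ρ (her_s⁻¹) n :=
    hE (Fin.cons 0 ν) (her_cons_ne ν hν) (lev y) (her_isTv_lev y hy) (her_lev_fix y ν hyν) _ h2c
  have h2e : ρ (lev (lev y)) n = n := by
    have hcomm : lev (lev y) * her_s⁻¹ = her_s⁻¹ * lev (lev y) := by
      have h := her_y_s y
      calc lev (lev y) * her_s⁻¹ = her_s⁻¹ * (her_s * lev (lev y)) * her_s⁻¹ := by group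
        _ = her_s⁻¹ * (lev (lev y) * her_s) * her_s⁻¹ := by rw [h]
        _ = her_s⁻¹ * lev (lev y) := by group
    have h3 : ρ (her_s⁻¹) (ρ (lev (lev y)) n) = ρ (her_s⁻¹) n := by
      rw [← Module.End.mul_apply, ← map_mul, ← hcomm, map_mul, Module.End.mul_apply, h2d]
    have h4 := congrArg (ρ her_s) h3
    rw [her_inv_cancel, her_inv_cancel] at h4
    exact h4
  have h3a : ∀ u : Fin (k + 1) → F,
      ρ (x1 u) (ρ (lev (lev y)) w - w) = ρ (lev (lev y)) w - w := by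
    intro u
    rw [map_sub, hc, ha]
  have h3b : ∀ u : Fin k → F, ρ (lev (x1 u)) (ρ (lev (lev y)) w - w) =
      ψ (ν ⬝ᵥ u) • (ρ (lev (lev y)) w - w) := by
    intro u
    have hdot : ν ⬝ᵥ (u ᵥ* (y : Matrix (Fin k) (Fin k) F)) = ν ⬝ᵥ u := by
      rw [dotProduct_comm, ← dotProduct_mulVec, hyν, dotProduct_comm]
    rw [map_sub, hb, smul_sub]
    congr 1
    rw [← Module.End.mul_apply, ← map_mul, her_r2_y, map_mul, Module.End.mul_apply, hb, map_smul,
      hdot]
  have h3c : ∑ b : F, ρ (her_z b) (ρ (lev (lev y)) w - w) = 0 := by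
    have h6 : ∀ b : F, ρ (her_z b) (ρ (lev (lev y)) w - w) =
        ρ (lev (lev y)) (ρ (her_z b) w) - ρ (her_z b) w := by
      intro b
      rw [map_sub, ← Module.End.mul_apply, ← map_mul, ← her_y_z, map_mul, Module.End.mul_apply]
    simp only [h6]
    rw [Finset.sum_sub_distrib, ← map_sum, ← hn, h2e, sub_self]
  have h5 := her_step1 ψ hψ ρ ν hν _ h3a h3b h3c
  exact sub_eq_zero.mp h5

end rep

-- piece HER
theorem her {V : Type*} [AddCommGroup V] [Module ℂ V] (ψ : AddChar F ℂ) (hψ : ψ ≠ 1) {k : ℕ}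
    (ρ : Representation ℂ (Matrix.SpecialLinearGroup (Fin (k + 2)) F) V) (hE : EP ψ ρ)
    (h0 : ∀ g : Matrix.SpecialLinearGroup (Fin (k + 1)) F, ∀ v ∈ wt ψ ρ 0,
      ρ (lev g) v ∈ wt ψ ρ 0) :
    EP ψ (resW ψ ρ h0) := by
  intro ν hν y hy hyν w hw
  apply Subtype.ext
  rw [resW_apply]
  have ha : ∀ u : Fin (k + 1) → F, ρ (x1 u) (w : V) = w := by
    intro u
    have h := w.2 u
    rw [zero_dotProduct, AddChar.map_zero_eq_one, one_smul] at h
    exact h
  have hb : ∀ u : Fin k → F, ρ (lev (x1 u)) (w : V) = ψ (ν ⬝ᵥ u) • (w : V) := by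
    intro u
    have h := congrArg Subtype.val (hw u)
    rw [resW_apply] at h
    exact h
  have hc : ∀ u : Fin (k + 1) → F,
      ρ (x1 u) (ρ (lev (lev y)) (w : V)) = ρ (lev (lev y)) (w : V) := by
    intro u
    have h := h0 (lev y) (w : V) w.2 u
    rw [zero_dotProduct, AddChar.map_zero_eq_one, one_smul] at h
    exact h
  exact her_main ψ hψ ρ hE ν hν y hy hyν (w : V) ha hb hc

end Cfsg.Agent.Lib.Helper18.SLM
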