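import Mathlib
import Cfsg.Agent.S4127

set_option autoImplicit false

namespace Cfsg.Agent.Lib.Helper16.SqfG

section basic
variable {G : Type*} [Group G]

theorem conj_pow_eq (y u t : G) (hty : y * t = t * y) (h : y * u * y⁻¹ = t * u) (k : ℕ) :
    y ^ k * u * (y ^ k)⁻¹ = t ^ k * u := by
  induction k with
  | zero => simp
  | succ k ih =>
    have hc : y * t ^ k = t ^ k * y := (Commute.pow_right (show Commute y t from hty) k).eq
    calc y ^ (k + 1) * u * (y ^ (k + 1))⁻¹ = y * (y ^ k * u * (y ^ k)⁻¹) * y⁻¹ := by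
          rw [pow_succ']; group
      _ = y * (t ^ k * u) * y⁻¹ := by rw [ih]
      _ = (y * t ^ k) * u * y⁻¹ := by group
      _ = (t ^ k * y) * u * y⁻¹ := by rw [hc]
      _ = t ^ k * (y * u * y⁻¹) := by group
      _ = t ^ k * (t * u) := by rw [h]
      _ = t ^ (k + 1) * u := by rw [pow_succ]; group

theorem le_of_prime_card_of_mem {L L' : Subgroup G} {q : ℕ} (hq : q.Prime)
    (hL : Nat.card L = q) {x : G} (hx : x ∈ L) (hx1 : x ≠ 1) (hx' : x ∈ L') : L ≤ L' := by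
  have hfin : Finite L := Nat.finite_of_card_ne_zero (by rw [hL]; exact hq.ne_zero)
  have hz : Subgroup.zpowers x ≤ L := (Subgroup.zpowers_le).2 hx
  have hcard : Nat.card (Subgroup.zpowers x) = q := by
    have hdvd : Nat.card (Subgroup.zpowers x) ∣ q := hL ▸ Subgroup.card_dvd_of_le hz
    rcases (Nat.dvd_prime hq).1 hdvd with h1 | h1
    · exfalso
      apply hx1
      rw [Nat.card_zpowers] at h1
      exact orderOf_eq_one_iff.1 h1
    · exact h1
  have heq : Subgroup.zpowers x = L := Subgroup.eq_of_le_of_card_ge hz (by rw [hcard, hL])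
  rw [← heq]
  exact (Subgroup.zpowers_le).2 hx'

theorem relIndex_dvd_index_of_normal_right [Finite G] (H K : Subgroup G) [K.Normal] :
    H.relIndex K ∣ H.index := by
  have h1 := Subgroup.relIndex_mul_relIndex (H ⊓ K) K (H ⊔ K) inf_le_right le_sup_right
  have h2 := Subgroup.relIndex_mul_relIndex (H ⊓ K) H (H ⊔ K) inf_le_left le_sup_left
  rw [Subgroup.inf_relIndex_right] at h1
  rw [Subgroup.inf_relIndex_left] at h2
  rw [Subgroup.relIndex_sup_right] at h1
  have hne : 0 < K.relIndex H := Nat.pos_of_ne_zero Subgroup.index_ne_zero_of_finite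
  have h3 : H.relIndex K = H.relIndex (H ⊔ K) := by
    apply Nat.eq_of_mul_eq_mul_right hne
    rw [h1, ← h2, mul_comm]
  rw [h3]
  exact Subgroup.relIndex_dvd_index_of_le le_sup_left

end basic

section main
variable {G : Type*} [Group G]
variable (Q : Subgroup G) [hQn : Q.Normal] (hQab : ∀ a ∈ Q, ∀ b ∈ Q, a * b = b * a)

/-- the commutator map `u ↦ y u y⁻¹ u⁻¹` on an abelian normal subgroup -/
def theta (y : G) : Q →* Q where
  toFun u := ⟨y * u * y⁻¹ * (u : G)⁻¹, Q.mul_mem (hQn.conj_mem u u.2 y) (Q.inv_mem u.2)⟩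
  map_one' := by ext; simp
  map_mul' u v := by
    ext
    have h1 : (y * v * y⁻¹) * (u : G)⁻¹ = (u : G)⁻¹ * (y * v * y⁻¹) :=
      hQab _ (hQn.conj_mem v v.2 y) _ (Q.inv_mem u.2)
    show y * ((u : G) * v) * y⁻¹ * ((u : G) * v)⁻¹
      = (y * u * y⁻¹ * (u : G)⁻¹) * (y * v * y⁻¹ * (v : G)⁻¹)
    have h0 : (v : G)⁻¹ * (u : G)⁻¹ = (u : G)⁻¹ * (v : G)⁻¹ :=
      hQab _ (Q.inv_mem v.2) _ (Q.inv_mem u.2)
    calc y * ((u : G) * v) * y⁻¹ * ((u : G) * v)⁻¹
        = y * u * v * y⁻¹ * ((v : G)⁻¹ * (u : G)⁻¹) := by group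
      _ = y * u * v * y⁻¹ * ((u : G)⁻¹ * (v : G)⁻¹) := by rw [h0]
      _ = (y * u * y⁻¹) * ((y * v * y⁻¹) * (u : G)⁻¹) * (v : G)⁻¹ := by group
      _ = (y * u * y⁻¹) * ((u : G)⁻¹ * (y * v * y⁻¹)) * (v : G)⁻¹ := by rw [h1]
      _ = _ := by group

/-- the range of `theta y`, as a subgroup of `G` -/
def L (y : G) : Subgroup G := (theta Q hQab y).range.map Q.subtype

theorem mem_L (y x : G) : x ∈ L Q hQab y ↔ ∃ u ∈ Q, y * u * y⁻¹ * u⁻¹ = x := by
  unfold L
  rw [Subgroup.mem_map]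
  constructor
  · rintro ⟨w, hw, rfl⟩
    obtain ⟨u, rfl⟩ := MonoidHom.mem_range.1 hw
    exact ⟨u, u.2, rfl⟩
  · rintro ⟨u, hu, rfl⟩
    exact ⟨theta Q hQab y ⟨u, hu⟩, MonoidHom.mem_range.2 ⟨⟨u, hu⟩, rfl⟩, rfl⟩

theorem L_le (y : G) : L Q hQab y ≤ Q := by
  intro x hx
  obtain ⟨u, hu, rfl⟩ := (mem_L Q hQab y x).1 hx
  exact Q.mul_mem (hQn.conj_mem u hu y) (Q.inv_mem hu)

theorem card_L [Finite G] (q : ℕ) [hq : Fact q.Prime]
    (hsq : ∀ x : G, Squarefree (Subgroup.centralizer ({x} : Set G)).index)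
    (hQ : IsPGroup q Q) (y : G) :
    Nat.card (L Q hQab y) = 1 ∨ Nat.card (L Q hQab y) = q := by
  have h1 : Nat.card (L Q hQab y) = (theta Q hQab y).ker.index := by
    unfold L
    rw [Subgroup.card_map_of_injective Q.subtype_injective, Subgroup.index_ker]
  have h2 : (theta Q hQab y).ker = (Subgroup.centralizer ({y} : Set G)).subgroupOf Q := by
    ext u
    rw [MonoidHom.mem_ker, Subgroup.mem_subgroupOf, Subgroup.mem_centralizer_iff]
    simp only [Set.mem_singleton_iff, forall_eq]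
    constructor
    · intro h
      have h' : y * (u : G) * y⁻¹ * (u : G)⁻¹ = 1 := congrArg Subtype.val h
      calc y * (u : G) = (y * (u : G) * y⁻¹ * (u : G)⁻¹) * ((u : G) * y) := by group
        _ = (u : G) * y := by rw [h', one_mul]
    · intro h
      apply Subtype.ext
      show y * (u : G) * y⁻¹ * (u : G)⁻¹ = 1
      rw [h]; group
  have h3 : (theta Q hQab y).ker.index = (Subgroup.centralizer ({y} : Set G)).relIndex Q := by
    rw [h2]; rfl
  have h4 : (Subgroup.centralizer ({y} : Set G)).relIndex Q ∣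
      (Subgroup.centralizer ({y} : Set G)).index := relIndex_dvd_index_of_normal_right _ _
  have h5 : Squarefree ((theta Q hQab y).ker.index) := by
    rw [h3]; exact (hsq y).squarefree_of_dvd h4
  obtain ⟨n, hn⟩ := hQ.index (theta Q hQab y).ker
  rw [h1, hn]
  rw [hn] at h5
  rcases n with _ | _ | n
  · left; simp
  · right; simp
  · exfalso
    have h6 : IsUnit q := h5 q ⟨q ^ n, by ring⟩
    exact hq.out.one_lt.ne' (Nat.isUnit_iff.1 h6)

theorem exists_ne_one_of_card {L' : Subgroup G} {q : ℕ} (hq : q.Prime) (h : Nat.card L' = q) :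
    ∃ l ∈ L', l ≠ 1 := by
  by_contra hcon
  push Not at hcon
  have h1 : L' = ⊥ := (Subgroup.eq_bot_iff_forall _).2 hcon
  rw [h1, Subgroup.card_bot] at h
  exact hq.one_lt.ne h

include hQab in
theorem conj_comm (hD : commutator G ≤ Q) (g y u : G) (hu : u ∈ Q) :
    g * (y * u * y⁻¹) * g⁻¹ = y * (g * u * g⁻¹) * y⁻¹ := by
  have hc : g * y * g⁻¹ * y⁻¹ ∈ Q :=
    hD (Subgroup.commutator_mem_commutator (Subgroup.mem_top g) (Subgroup.mem_top y))
  have hw : y * (g * u * g⁻¹) * y⁻¹ ∈ Q := hQn.conj_mem _ (hQn.conj_mem u hu g) y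
  have h1 := hQab _ hc _ hw
  calc g * (y * u * y⁻¹) * g⁻¹
      = (g * y * g⁻¹ * y⁻¹) * (y * (g * u * g⁻¹) * y⁻¹) * (g * y * g⁻¹ * y⁻¹)⁻¹ := by group
    _ = (y * (g * u * g⁻¹) * y⁻¹) * (g * y * g⁻¹ * y⁻¹) * (g * y * g⁻¹ * y⁻¹)⁻¹ := by rw [h1]
    _ = _ := by group

theorem L_conj (hD : commutator G ≤ Q) (y g x : G) (hx : x ∈ L Q hQab y) :
    g * x * g⁻¹ ∈ L Q hQab y := by
  obtain ⟨u, hu, rfl⟩ := (mem_L Q hQab y x).1 hx
  refine (mem_L Q hQab y _).2 ⟨g * u * g⁻¹, hQn.conj_mem u hu g, ?_⟩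
  have h := conj_comm Q hQab hD g y u hu
  calc y * (g * u * g⁻¹) * y⁻¹ * (g * u * g⁻¹)⁻¹
      = (g * (y * u * y⁻¹) * g⁻¹) * (g * u * g⁻¹)⁻¹ := by rw [h]
    _ = g * (y * u * y⁻¹ * u⁻¹) * g⁻¹ := by group

theorem L_cent_false [Finite G] (q : ℕ) [hq : Fact q.Prime]
    (hsq : ∀ x : G, Squarefree (Subgroup.centralizer ({x} : Set G)).index)
    (hQ : IsPGroup q Q) (y : G) (hy : (orderOf y).Coprime q)
    (x : G) (hx : x ∈ L Q hQab y) (hx1 : x ≠ 1) (hxy : y * x = x * y) : False := by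
  have hcard : Nat.card (L Q hQab y) = q := by
    rcases card_L Q hQab q hsq hQ y with h | h
    · exfalso
      apply hx1
      have h' := Subgroup.card_eq_one.1 h
      rw [h'] at hx
      exact Subgroup.mem_bot.1 hx
    · exact h
  have hle : L Q hQab y ≤ Subgroup.centralizer ({y} : Set G) :=
    le_of_prime_card_of_mem hq.out hcard hx hx1 (by
      rw [Subgroup.mem_centralizer_iff]
      intro h hh
      rw [Set.mem_singleton_iff] at hh
      subst hh
      exact hxy)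
  have hall : ∀ u ∈ Q, y * u * y⁻¹ * u⁻¹ = 1 := by
    intro u hu
    have htL : y * u * y⁻¹ * u⁻¹ ∈ L Q hQab y := (mem_L Q hQab y _).2 ⟨u, hu, rfl⟩
    have hty : y * (y * u * y⁻¹ * u⁻¹) = (y * u * y⁻¹ * u⁻¹) * y := by
      have h' := hle htL
      rw [Subgroup.mem_centralizer_iff] at h'
      exact h' y rfl
    have h1 : y * u * y⁻¹ = (y * u * y⁻¹ * u⁻¹) * u := by group
    have h2 := conj_pow_eq y u _ hty h1 (orderOf y)
    rw [pow_orderOf_eq_one] at h2
    have h3 : (y * u * y⁻¹ * u⁻¹) ^ orderOf y = 1 := by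
      have h' : (y * u * y⁻¹ * u⁻¹) ^ orderOf y * u = u := by rw [← h2]; group
      exact mul_eq_right.1 h'
    have htQ : y * u * y⁻¹ * u⁻¹ ∈ Q := L_le Q hQab y htL
    obtain ⟨n, hn⟩ := hQ ⟨_, htQ⟩
    have h4 : (y * u * y⁻¹ * u⁻¹) ^ q ^ n = 1 := by simpa using congrArg Subtype.val hn
    have h5 : (y * u * y⁻¹ * u⁻¹) ^ (orderOf y).gcd (q ^ n) = 1 := pow_gcd_eq_one.2 ⟨h3, h4⟩
    have h6 : (orderOf y).gcd (q ^ n) = 1 := Nat.Coprime.pow_right n hy
    rw [h6, pow_one] at h5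
    exact h5
  obtain ⟨u, hu, rfl⟩ := (mem_L Q hQab y x).1 hx
  exact hx1 (hall u hu)

theorem L_eq_of_coprime [Finite G] (q : ℕ) [hqf : Fact q.Prime]
    (hsq : ∀ x : G, Squarefree (Subgroup.centralizer ({x} : Set G)).index)
    (hQ : IsPGroup q Q) (hD : commutator G ≤ Q) (y z : G)
    (hy : (orderOf y).Coprime q) (hz : (orderOf z).Coprime q)
    (hLy : Nat.card (L Q hQab y) = q) (hLz : Nat.card (L Q hQab z) = q) :
    L Q hQab y = L Q hQab z := by
  by_contra hne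
  have hq : q.Prime := hqf.out
  have hint : ∀ x, x ∈ L Q hQab y → x ∈ L Q hQab z → x = 1 := by
    intro x hxy hxz
    by_contra hx1
    exact hne (le_antisymm (le_of_prime_card_of_mem hq hLy hxy hx1 hxz)
      (le_of_prime_card_of_mem hq hLz hxz hx1 hxy))
  obtain ⟨ly, hly, hly1⟩ := exists_ne_one_of_card hq hLy
  obtain ⟨lz, hlz, hlz1⟩ := exists_ne_one_of_card hq hLz
  by_cases h2 : ∀ u ∈ Q, z * u = u * z → y * u = u * y
  · have h3 : z * ly * z⁻¹ * ly⁻¹ = 1 :=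
      hint _ (Subgroup.mul_mem _ (L_conj Q hQab hD y z ly hly) (Subgroup.inv_mem _ hly))
        ((mem_L Q hQab z _).2 ⟨ly, L_le Q hQab y hly, rfl⟩)
    have h4 : z * ly = ly * z := by
      calc z * ly = (z * ly * z⁻¹ * ly⁻¹) * (ly * z) := by group
        _ = ly * z := by rw [h3, one_mul]
    exact L_cent_false Q hQab q hsq hQ y hy ly hly hly1 (h2 ly (L_le Q hQab y hly) h4)
  by_cases h1 : ∀ u ∈ Q, y * u = u * y → z * u = u * z
  · have h3 : y * lz * y⁻¹ * lz⁻¹ = 1 :=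
      hint _ ((mem_L Q hQab y _).2 ⟨lz, L_le Q hQab z hlz, rfl⟩)
        (Subgroup.mul_mem _ (L_conj Q hQab hD z y lz hlz) (Subgroup.inv_mem _ hlz))
    have h4 : y * lz = lz * y := by
      calc y * lz = (y * lz * y⁻¹ * lz⁻¹) * (lz * y) := by group
        _ = lz * y := by rw [h3, one_mul]
    exact L_cent_false Q hQab q hsq hQ z hz lz hlz hlz1 (h1 lz (L_le Q hQab z hlz) h4)
  push Not at h1 h2
  obtain ⟨u', hu', hzu', hyu'⟩ := h2
  obtain ⟨u, hu, hyu, hzu⟩ := h1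
  have ha_eq : y * z * u * (y * z)⁻¹ * u⁻¹ = y * (z * u * z⁻¹ * u⁻¹) * y⁻¹ := by
    have h0 : y * u * y⁻¹ * u⁻¹ = 1 := by rw [hyu]; group
    calc y * z * u * (y * z)⁻¹ * u⁻¹
        = y * (z * u * z⁻¹ * u⁻¹) * y⁻¹ * (y * u * y⁻¹ * u⁻¹) := by group
      _ = _ := by rw [h0, mul_one]
  have hb_eq : y * z * u' * (y * z)⁻¹ * u'⁻¹ = y * u' * y⁻¹ * u'⁻¹ := by
    have h0 : z * u' * z⁻¹ * u'⁻¹ = 1 := by rw [hzu']; group
    calc y * z * u' * (y * z)⁻¹ * u'⁻¹
        = y * (z * u' * z⁻¹ * u'⁻¹) * y⁻¹ * (y * u' * y⁻¹ * u'⁻¹) := by group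
      _ = _ := by rw [h0]; group
  have haL : y * z * u * (y * z)⁻¹ * u⁻¹ ∈ L Q hQab (y * z) :=
    (mem_L Q hQab (y * z) _).2 ⟨u, hu, rfl⟩
  have hbL : y * z * u' * (y * z)⁻¹ * u'⁻¹ ∈ L Q hQab (y * z) :=
    (mem_L Q hQab (y * z) _).2 ⟨u', hu', rfl⟩
  have ha1 : y * z * u * (y * z)⁻¹ * u⁻¹ ≠ 1 := by
    rw [ha_eq]
    intro h
    apply hzu
    have h' : z * u * z⁻¹ * u⁻¹ = 1 := by
      calc z * u * z⁻¹ * u⁻¹ = y⁻¹ * (y * (z * u * z⁻¹ * u⁻¹) * y⁻¹) * y := by group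
        _ = 1 := by rw [h]; group
    calc z * u = (z * u * z⁻¹ * u⁻¹) * (u * z) := by group
      _ = u * z := by rw [h', one_mul]
  have haz : y * z * u * (y * z)⁻¹ * u⁻¹ ∈ L Q hQab z := by
    rw [ha_eq]
    exact L_conj Q hQab hD z y _ ((mem_L Q hQab z _).2 ⟨u, hu, rfl⟩)
  have hb1 : y * z * u' * (y * z)⁻¹ * u'⁻¹ ≠ 1 := by
    rw [hb_eq]
    intro h
    apply hyu'
    calc y * u' = (y * u' * y⁻¹ * u'⁻¹) * (u' * y) := by group
      _ = u' * y := by rw [h, one_mul]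
  have hby : y * z * u' * (y * z)⁻¹ * u'⁻¹ ∈ L Q hQab y := by
    rw [hb_eq]
    exact (mem_L Q hQab y _).2 ⟨u', hu', rfl⟩
  have hcard : Nat.card (L Q hQab (y * z)) = q := by
    rcases card_L Q hQab q hsq hQ (y * z) with h | h
    · exfalso
      apply ha1
      have h' := Subgroup.card_eq_one.1 h
      rw [h'] at haL
      exact Subgroup.mem_bot.1 haL
    · exact h
  have hle : L Q hQab (y * z) ≤ L Q hQab z := le_of_prime_card_of_mem hq hcard haL ha1 haz
  exact hb1 (hint _ hby (hle hbL))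

include hQab in
omit hQn in
theorem comm_le [Finite G] (q : ℕ) [hqf : Fact q.Prime] (hQ : IsPGroup q Q)
    (hall : ∀ g : G, (∃ k : ℕ, g ^ (q ^ k) = 1) → g ∈ Q)
    (hD : commutator G ≤ Q) (A : Subgroup G) [A.Normal]
    (hA : ∀ y : G, (orderOf y).Coprime q → ∀ u ∈ Q, y * u * y⁻¹ * u⁻¹ ∈ A) :
    commutator G ≤ A := by
  have hq : q.Prime := hqf.out
  have hdec : ∀ g : G, ∃ a b : G, g = a * b ∧ a ∈ Q ∧ (orderOf b).Coprime q := by
    intro g
    obtain ⟨i, j, a, h1, h2, h3⟩ := Cfsg.Agent.S4127.exists_decomp q hq g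
    exact ⟨g ^ i, g ^ j, h1, hall _ ⟨a, h2⟩, ((Nat.Prime.coprime_iff_not_dvd hq).2 h3).symm⟩
  have hi : ∀ u ∈ Q, ∀ g : G, (QuotientGroup.mk' A) g * (QuotientGroup.mk' A) u
      = (QuotientGroup.mk' A) u * (QuotientGroup.mk' A) g := by
    intro u hu g
    obtain ⟨a, b, rfl, haQ, hb⟩ := hdec g
    have h1 : (QuotientGroup.mk' A) b * (QuotientGroup.mk' A) u
        = (QuotientGroup.mk' A) u * (QuotientGroup.mk' A) b := by
      have h' : (QuotientGroup.mk' A) (b * u * b⁻¹ * u⁻¹) = 1 :=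
        (QuotientGroup.eq_one_iff _).2 (hA b hb u hu)
      rw [map_mul, map_mul, map_mul, map_inv, map_inv] at h'
      calc (QuotientGroup.mk' A) b * (QuotientGroup.mk' A) u
          = ((QuotientGroup.mk' A) b * (QuotientGroup.mk' A) u * ((QuotientGroup.mk' A) b)⁻¹
              * ((QuotientGroup.mk' A) u)⁻¹) * ((QuotientGroup.mk' A) u * (QuotientGroup.mk' A) b) := by
            group
        _ = (QuotientGroup.mk' A) u * (QuotientGroup.mk' A) b := by rw [h', one_mul]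
    have h2 : (QuotientGroup.mk' A) a * (QuotientGroup.mk' A) u
        = (QuotientGroup.mk' A) u * (QuotientGroup.mk' A) a := by
      rw [← map_mul, ← map_mul, hQab a haQ u hu]
    rw [map_mul, mul_assoc, h1, ← mul_assoc, h2, mul_assoc]
  have hii : ∀ b : G, (orderOf b).Coprime q → ∀ h : G,
      (QuotientGroup.mk' A) b * (QuotientGroup.mk' A) h
        = (QuotientGroup.mk' A) h * (QuotientGroup.mk' A) b := by
    intro b hb h
    have hcQ : b * h * b⁻¹ * h⁻¹ ∈ Q :=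
      hD (Subgroup.commutator_mem_commutator (Subgroup.mem_top b) (Subgroup.mem_top h))
    have hecomm : (QuotientGroup.mk' A) b * (QuotientGroup.mk' A) (b * h * b⁻¹ * h⁻¹)
        = (QuotientGroup.mk' A) (b * h * b⁻¹ * h⁻¹) * (QuotientGroup.mk' A) b := hi _ hcQ b
    have h1 : (QuotientGroup.mk' A) b * (QuotientGroup.mk' A) h * ((QuotientGroup.mk' A) b)⁻¹
        = (QuotientGroup.mk' A) (b * h * b⁻¹ * h⁻¹) * (QuotientGroup.mk' A) h := by
      simp only [map_mul, map_inv]; group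
    have h2 := conj_pow_eq ((QuotientGroup.mk' A) b) ((QuotientGroup.mk' A) h) _ hecomm h1
      (orderOf b)
    rw [← map_pow, pow_orderOf_eq_one, map_one] at h2
    have h3 : ((QuotientGroup.mk' A) (b * h * b⁻¹ * h⁻¹)) ^ orderOf b = 1 := by
      have h' : ((QuotientGroup.mk' A) (b * h * b⁻¹ * h⁻¹)) ^ orderOf b * (QuotientGroup.mk' A) h
          = (QuotientGroup.mk' A) h := by rw [← h2]; group
      exact mul_eq_right.1 h'
    obtain ⟨n, hn⟩ := hQ ⟨_, hcQ⟩
    have h4 : ((QuotientGroup.mk' A) (b * h * b⁻¹ * h⁻¹)) ^ q ^ n = 1 := by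
      rw [← map_pow]
      have h' : (b * h * b⁻¹ * h⁻¹) ^ q ^ n = 1 := by simpa using congrArg Subtype.val hn
      rw [h', map_one]
    have h5 : ((QuotientGroup.mk' A) (b * h * b⁻¹ * h⁻¹)) ^ (orderOf b).gcd (q ^ n) = 1 :=
      pow_gcd_eq_one.2 ⟨h3, h4⟩
    have h6 : (orderOf b).gcd (q ^ n) = 1 := Nat.Coprime.pow_right n hb
    rw [h6, pow_one] at h5
    calc (QuotientGroup.mk' A) b * (QuotientGroup.mk' A) h
        = ((QuotientGroup.mk' A) b * (QuotientGroup.mk' A) h * ((QuotientGroup.mk' A) b)⁻¹)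
            * (QuotientGroup.mk' A) b := by group
      _ = (QuotientGroup.mk' A) (b * h * b⁻¹ * h⁻¹) * (QuotientGroup.mk' A) h
            * (QuotientGroup.mk' A) b := by rw [h1]
      _ = (QuotientGroup.mk' A) h * (QuotientGroup.mk' A) b := by rw [h5, one_mul]
  have hiii : ∀ g h : G, (QuotientGroup.mk' A) g * (QuotientGroup.mk' A) h
      = (QuotientGroup.mk' A) h * (QuotientGroup.mk' A) g := by
    intro g h
    obtain ⟨a, b, rfl, haQ, hb⟩ := hdec g
    have h1 := hii b hb h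
    have h2 : (QuotientGroup.mk' A) a * (QuotientGroup.mk' A) h
        = (QuotientGroup.mk' A) h * (QuotientGroup.mk' A) a := (hi a haQ h).symm
    rw [map_mul, mul_assoc, h1, ← mul_assoc, h2, mul_assoc]
  rw [commutator_eq_closure, Subgroup.closure_le]
  intro x hx
  obtain ⟨g, h, rfl⟩ := mem_commutatorSet_iff.1 hx
  rw [SetLike.mem_coe, ← QuotientGroup.eq_one_iff, commutatorElement_def]
  show (QuotientGroup.mk' A) (g * h * g⁻¹ * h⁻¹) = 1
  rw [map_mul, map_mul, map_mul, map_inv, map_inv, hiii g h]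
  group

end main

/-- PIECE G of S4130: an abelian normal Sylow `q`-subgroup containing `G'`, with squarefree
class sizes, forces `|G'|` to divide `q`. -/
theorem commutator_card_dvd_of_abelian {G : Type*} [Group G] [Finite G] (q : ℕ) [Fact q.Prime]
    (hsq : ∀ x : G, Squarefree (Subgroup.centralizer ({x} : Set G)).index)
    (Q : Subgroup G) [Q.Normal] (hQ : IsPGroup q Q) (hQab : ∀ a ∈ Q, ∀ b ∈ Q, a * b = b * a)
    (hall : ∀ g : G, (∃ k : ℕ, g ^ (q ^ k) = 1) → g ∈ Q)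
    (hD : commutator G ≤ Q) :
    Nat.card (commutator G) ∣ q := by
  by_cases hex : ∃ y : G, (orderOf y).Coprime q ∧ Nat.card (L Q hQab y) = q
  · obtain ⟨y0, hy0, hc0⟩ := hex
    have : (L Q hQab y0).Normal := ⟨fun x hx g => L_conj Q hQab hD y0 g x hx⟩
    have hle : commutator G ≤ L Q hQab y0 := comm_le Q hQab q hQ hall hD (L Q hQab y0) (by
      intro y hy u hu
      have hmem : y * u * y⁻¹ * u⁻¹ ∈ L Q hQab y := (mem_L Q hQab y _).2 ⟨u, hu, rfl⟩
      rcases card_L Q hQab q hsq hQ y with h | h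
      · rw [Subgroup.card_eq_one.1 h] at hmem
        rw [Subgroup.mem_bot.1 hmem]
        exact Subgroup.one_mem _
      · rw [L_eq_of_coprime Q hQab q hsq hQ hD y0 y hy0 hy hc0 h]
        exact hmem)
    have h' := Subgroup.card_dvd_of_le hle
    rwa [hc0] at h'
  · push Not at hex
    have hle : commutator G ≤ (⊥ : Subgroup G) := comm_le Q hQab q hQ hall hD ⊥ (by
      intro y hy u hu
      have hmem : y * u * y⁻¹ * u⁻¹ ∈ L Q hQab y := (mem_L Q hQab y _).2 ⟨u, hu, rfl⟩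
      rcases card_L Q hQab q hsq hQ y with h | h
      · rw [Subgroup.card_eq_one.1 h] at hmem
        exact hmem
      · exact absurd h (hex y hy))
    have h' : commutator G = ⊥ := le_bot_iff.1 hle
    rw [h', Subgroup.card_bot]
    exact one_dvd q

end Cfsg.Agent.Lib.Helper16.SqfG
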