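import Mathlib
import Cfsg.Agent.Lib.Helper18.LSDefs
import Cfsg.Agent.Lib.Helper18.WRDefs

/-!
# Project WR (S2347, architect helper18): piece SPAN (proved by helper16)

The operators of an abstract Weyl system (trace zero off the identity, `|V| = (dim E)²`) form a
basis of `End E`.
-/

set_option autoImplicit false

namespace Cfsg.Agent.Lib.Helper18.WR

open Matrix

universe u

variable {F : Type u} [Field F] {n : ℕ}

-- piece SPAN
theorem weyl_span {E V : Type*} [AddCommGroup E] [Module ℂ E] [FiniteDimensional ℂ E]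
    [AddCommGroup V] [Finite V] (W : V → Module.End ℂ E) (c : V → V → ℂ)
    (hmul : ∀ u v, W u * W v = c u v • W (u + v)) (hinv : ∀ u, W u * W (-u) = 1)
    (htr : ∀ v, v ≠ 0 → LinearMap.trace ℂ E (W v) = 0) (hE : Nontrivial E)
    (hcard : Nat.card V = Module.finrank ℂ E ^ 2) :
    LinearIndependent ℂ W ∧ Submodule.span ℂ (Set.range W) = ⊤ := by
  classical
  have hfin : (Module.finrank ℂ E : ℂ) ≠ 0 := by
    have hpos : 0 < Module.finrank ℂ E := Module.finrank_pos
    exact_mod_cast hpos.ne'
  have hLI : LinearIndependent ℂ W := by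
    rw [linearIndependent_iff']
    intro s g hsum u hu
    have h1 : (∑ i ∈ s, g i • W i) * W (-u) = 0 := by rw [hsum, zero_mul]
    rw [Finset.sum_mul] at h1
    have h2 := congrArg (LinearMap.trace ℂ E) h1
    rw [map_sum, map_zero] at h2
    rw [Finset.sum_eq_single u] at h2
    · rw [smul_mul_assoc, hinv, map_smul, LinearMap.trace_one, smul_eq_mul] at h2
      exact (mul_eq_zero.mp h2).resolve_right hfin
    · intro i _ hiu
      rw [smul_mul_assoc, hmul, map_smul, map_smul, htr, smul_zero, smul_zero]
      intro h0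
      exact hiu (add_neg_eq_zero.mp h0)
    · intro hu'
      exact absurd hu hu'
  refine ⟨hLI, ?_⟩
  have : Fintype V := Fintype.ofFinite V
  apply hLI.span_eq_top_of_card_eq_finrank'
  rw [← Nat.card_eq_fintype_card, hcard, Module.finrank_linearMap, sq]

end Cfsg.Agent.Lib.Helper18.WR
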