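import Mathlib
import Cfsg.Agent.Lib.Helper15.Dickson1

/-!
# Classification of "planar" groups by counting (helper16, Zassenhaus project)

A finite group `H` with a unique involution `z` in which centralizers of non-involutions are
abelian and an element commuting with a conjugate of itself is equal or inverse to it
(`Pl H z`) has an abelian subgroup of index at most two, or has order `24`, `48` or `120` with
explicit centralizer sizes.
-/

set_option autoImplicit false

namespace Cfsg.Agent.Lib.Helper16.Zas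

open Cfsg.Agent.Lib.Helper15

/-- The group-theoretic axioms of a planar group. -/
structure Pl (H : Type*) [Group H] (z : H) : Prop where
  z_ne : z ≠ 1
  z_sq : z * z = 1
  invol : ∀ g : H, g * g = 1 → g = 1 ∨ g = z
  cent_comm : ∀ g x y : H, g * g ≠ 1 → x * g = g * x → y * g = g * y → x * y = y * x
  conj_comm : ∀ g n : H, (n * g * n⁻¹) * g = g * (n * g * n⁻¹) →
    n * g * n⁻¹ = g ∨ n * g * n⁻¹ = g⁻¹

theorem nat_aux1 (c i m : ℕ) (hm : 4 ≤ m) (h : c * m = m * i * (m - 2)) :
    c + 2 * i = m * i := by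
  obtain ⟨k, rfl⟩ : ∃ k, m = k + 2 := ⟨m - 2, by omega⟩
  rw [Nat.add_sub_cancel] at h
  have h2 : c = i * k := by
    apply Nat.eq_of_mul_eq_mul_right (show 0 < k + 2 by omega)
    rw [h]; ring
  rw [h2]; ring

theorem nat_aux2 (c i m : ℕ) (hm : 4 ≤ m) (h : c * (2 * m) = m * i * (m - 2)) :
    2 * c + 2 * i = m * i := by
  obtain ⟨k, rfl⟩ : ∃ k, m = k + 2 := ⟨m - 2, by omega⟩
  rw [Nat.add_sub_cancel] at h
  have h2 : 2 * c = i * k := by
    apply Nat.eq_of_mul_eq_mul_right (show 0 < k + 2 by omega)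
    linarith
  rw [h2]; ring

variable {H : Type*} [Group H]

/-- The class of a non-involution: elements conjugate into its centralizer. -/
def cl (y : H) : Set H := dcls (dcz y)

namespace Pl

variable {z : H}

theorem sq_iff (hyp : Pl H z) (g : H) : g * g = 1 ↔ g = 1 ∨ g = z := by
  constructor
  · exact hyp.invol g
  · rintro (h | h)
    · rw [h, mul_one]
    · rw [h]; exact hyp.z_sq

theorem z_comm (hyp : Pl H z) (g : H) : z * g = g * z := by
  have h1 : (g * z * g⁻¹) * (g * z * g⁻¹) = 1 := by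
    have : (g * z * g⁻¹) * (g * z * g⁻¹) = g * (z * z) * g⁻¹ := by group
    rw [this, hyp.z_sq]; group
  rcases hyp.invol _ h1 with h2 | h2
  · exfalso; apply hyp.z_ne
    have : z = g⁻¹ * (g * z * g⁻¹) * g := by group
    rw [this, h2]; group
  · have : g * z = (g * z * g⁻¹) * g := by group
    rw [this, h2]

theorem z_inv (hyp : Pl H z) : z⁻¹ = z := inv_eq_of_mul_eq_one_right hyp.z_sq

theorem z_mem_dcz (hyp : Pl H z) (y : H) : z ∈ dcz y := hyp.z_comm y

theorem dcz_closed (hyp : Pl H z) {y : H} (hy : y * y ≠ 1) :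
    ∀ a ∈ dcz y, a * a ≠ 1 → ∀ h : H, (h * a = a * h ↔ h ∈ dcz y) := by
  intro a ha haa h
  rw [mem_dcz] at ha ⊢
  constructor
  · intro hh; exact hyp.cent_comm a h y haa hh ha.symm
  · intro hh; exact hyp.cent_comm y h a hy hh ha

theorem dcz_eq (hyp : Pl H z) {y a : H} (hy : y * y ≠ 1) (ha : a ∈ dcz y) (haa : a * a ≠ 1) :
    dcz a = dcz y := by
  ext h
  rw [mem_dcz]
  exact hyp.dcz_closed hy a ha haa h

theorem card_ge (hyp : Pl H z) [Finite H] {y : H} (hy : y * y ≠ 1) :
    2 ∣ Nat.card (dcz y) ∧ 4 ≤ Nat.card (dcz y) := by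
  have h1 := card_sq_ne (dcz y) z hyp.z_ne (hyp.z_mem_dcz y) hyp.sq_iff
  have h2 : 2 ∣ Nat.card (dcz y) := by
    have hz : orderOf z = 2 := orderOf_eq_prime (by rw [pow_two]; exact hyp.z_sq) hyp.z_ne
    have h3 := orderOf_dvd_natCard (⟨z, hyp.z_mem_dcz y⟩ : dcz y)
    rwa [Subgroup.orderOf_mk, hz] at h3
  have h3 : 0 < ({a : H | a ∈ dcz y ∧ a * a ≠ 1} : Set H).ncard := by
    rw [Set.ncard_pos (Set.toFinite _)]
    exact ⟨y, self_mem_dcz y, hy⟩
  refine ⟨h2, ?_⟩
  obtain ⟨k, hk⟩ := h2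
  omega

theorem norm_inv (hyp : Pl H z) {y n : H} (hy : y * y ≠ 1)
    (hn : n ∈ Subgroup.normalizer ((dcz y : Subgroup H) : Set H)) (hnM : n ∉ dcz y) :
    ∀ m ∈ dcz y, n * m * n⁻¹ = m⁻¹ := by
  intro m hm
  by_cases hmm : m * m = 1
  · rcases hyp.invol m hmm with h | h
    · rw [h]; group
    · rw [h, hyp.z_inv, ← hyp.z_comm n, mul_assoc, mul_inv_cancel, mul_one]
  · have h1 : n * m * n⁻¹ ∈ dcz y := dconj_mem_of_normalizer hn hm
    have h2 := hyp.dcz_eq hy hm hmm
    rw [← h2, mem_dcz] at h1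
    rcases hyp.conj_comm m n h1 with h3 | h3
    · exfalso; apply hnM
      rw [← h2, mem_dcz]
      have : n * m = (n * m * n⁻¹) * n := by group
      rw [this, h3]
    · exact h3

theorem norm_sq (hyp : Pl H z) {y n : H} (hy : y * y ≠ 1)
    (hn : n ∈ Subgroup.normalizer ((dcz y : Subgroup H) : Set H)) (hnM : n ∉ dcz y) :
    n * n = z := by
  have h1 := hyp.norm_inv hy hn hnM
  have h2 : n * n ∈ dcz y := by
    rw [mem_dcz]
    have e1 := h1 y (self_mem_dcz y)
    have e2 : n * y = y⁻¹ * n := by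
      have : n * y = (n * y * n⁻¹) * n := by group
      rw [this, e1]
    have e3 : n * y⁻¹ = y * n := by
      have : n * y⁻¹ = (n * y * n⁻¹)⁻¹ * n := by group
      rw [this, e1, inv_inv]
    calc n * n * y = n * (n * y) := by group
      _ = n * (y⁻¹ * n) := by rw [e2]
      _ = (n * y⁻¹) * n := by group
      _ = y * n * n := by rw [e3]
      _ = y * (n * n) := by group
  have h3 := h1 (n * n) h2
  have h4 : (n * n) * (n * n) = 1 := by
    have : n * (n * n) * n⁻¹ = n * n := by group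
    rw [this] at h3
    exact mul_eq_one_iff_eq_inv.mpr h3
  rcases hyp.invol _ h4 with h5 | h5
  · exfalso
    rcases hyp.invol n h5 with h6 | h6
    · apply hnM; rw [h6]; exact Subgroup.one_mem _
    · apply hnM; rw [h6]; exact hyp.z_mem_dcz y
  · exact h5

/-- Two elements of the normalizer outside the centralizer differ by an element of the
centralizer. -/
theorem norm_mul_mem (hyp : Pl H z) {y n n' : H} (hy : y * y ≠ 1)
    (hn : n ∈ Subgroup.normalizer ((dcz y : Subgroup H) : Set H)) (hnM : n ∉ dcz y)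
    (hn' : n' ∈ Subgroup.normalizer ((dcz y : Subgroup H) : Set H)) (hnM' : n' ∉ dcz y) :
    n * n' ∈ dcz y := by
  have e1 := hyp.norm_inv hy hn hnM y (self_mem_dcz y)
  have e2 := hyp.norm_inv hy hn' hnM' y (self_mem_dcz y)
  rw [mem_dcz]
  have e3 : (n * n') * y * (n * n')⁻¹ = y := by
    have : (n * n') * y * (n * n')⁻¹ = n * (n' * y * n'⁻¹) * n⁻¹ := by group
    rw [this, e2]
    have : n * y⁻¹ * n⁻¹ = (n * y * n⁻¹)⁻¹ := by group
    rw [this, e1, inv_inv]
  have : n * n' * y = ((n * n') * y * (n * n')⁻¹) * (n * n') := by group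
  rw [this, e3]

theorem card_normalizer (hyp : Pl H z) [Finite H] {y : H} (hy : y * y ≠ 1) :
    Nat.card (Subgroup.normalizer ((dcz y : Subgroup H) : Set H)) = Nat.card (dcz y) ∨
    Nat.card (Subgroup.normalizer ((dcz y : Subgroup H) : Set H)) = 2 * Nat.card (dcz y) := by
  have hMN : dcz y ≤ Subgroup.normalizer ((dcz y : Subgroup H) : Set H) := Subgroup.le_normalizer
  by_cases hEq : Subgroup.normalizer ((dcz y : Subgroup H) : Set H) ≤ dcz y
  · left; rw [le_antisymm hEq hMN]
  · right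
    obtain ⟨n₀, hn₀N, hn₀M⟩ := SetLike.not_le_iff_exists.mp hEq
    have hidx : ((dcz y).subgroupOf
        (Subgroup.normalizer ((dcz y : Subgroup H) : Set H))).index = 2 := by
      rw [Subgroup.index_eq_two_iff]
      refine ⟨⟨n₀, hn₀N⟩, fun b => ?_⟩
      by_cases hb : (b : H) ∈ dcz y
      · right
        refine ⟨Subgroup.mem_subgroupOf.mpr hb, fun h => hn₀M ?_⟩
        have h1 : (b : H) * n₀ ∈ dcz y := Subgroup.mem_subgroupOf.mp h
        have h2 := (dcz y).mul_mem ((dcz y).inv_mem hb) h1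
        rwa [inv_mul_cancel_left] at h2
      · left
        refine ⟨Subgroup.mem_subgroupOf.mpr (hyp.norm_mul_mem hy b.2 hb hn₀N hn₀M), fun h => hb ?_⟩
        exact Subgroup.mem_subgroupOf.mp h
    have h1 := Subgroup.card_mul_index ((dcz y).subgroupOf
      (Subgroup.normalizer ((dcz y : Subgroup H) : Set H)))
    have hc : Nat.card ((dcz y).subgroupOf
        (Subgroup.normalizer ((dcz y : Subgroup H) : Set H))) = Nat.card (dcz y) :=
      Nat.card_congr (Subgroup.subgroupOfEquivOfLe hMN).toEquiv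
    rw [hidx, hc] at h1
    omega

theorem mem_cl_self {y : H} (hy : y * y ≠ 1) : y ∈ cl y :=
  ⟨hy, 1, by simp⟩

theorem cl_subset (hyp : Pl H z) {y y' w : H} (hy : y * y ≠ 1) (hy' : y' * y' ≠ 1)
    (hw : w ∈ cl y) (hw' : w ∈ cl y') : cl y' ⊆ cl y := by
  intro v hv
  obtain ⟨hvv, c, hc⟩ := hv
  apply dcls_conj c
  apply dcls_subset_of_meet (dcz y) (dcz y') (hyp.dcz_closed hy) (hyp.dcz_closed hy') hw hw' _ hc
  intro h
  apply hvv
  have : v * v = c * ((c⁻¹ * v * c) * (c⁻¹ * v * c)) * c⁻¹ := by group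
  rw [this, h]; group

theorem cl_eq (hyp : Pl H z) {y y' w : H} (hy : y * y ≠ 1) (hy' : y' * y' ≠ 1)
    (hw : w ∈ cl y) (hw' : w ∈ cl y') : cl y = cl y' :=
  Set.Subset.antisymm (hyp.cl_subset hy' hy hw' hw) (hyp.cl_subset hy hy' hw hw')

theorem dcz_conj (c y : H) :
    dcz (c⁻¹ * y * c) = (dcz y).map (MulAut.conj c⁻¹).toMonoidHom := by
  ext h
  simp only [Subgroup.mem_map, mem_dcz, MulEquiv.coe_toMonoidHom, MulAut.conj_apply, inv_inv]
  constructor
  · intro hh
    refine ⟨c * h * c⁻¹, ?_, by group⟩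
    calc c * h * c⁻¹ * y = c * (h * (c⁻¹ * y * c)) * c⁻¹ := by group
      _ = c * ((c⁻¹ * y * c) * h) * c⁻¹ := by rw [hh]
      _ = y * (c * h * c⁻¹) := by group
  · rintro ⟨m, hm, rfl⟩
    calc c⁻¹ * m * c * (c⁻¹ * y * c) = c⁻¹ * (m * y) * c := by group
      _ = c⁻¹ * (y * m) * c := by rw [hm]
      _ = c⁻¹ * y * c * (c⁻¹ * m * c) := by group

theorem card_dcz_conj [Finite H] (c y : H) :
    Nat.card (dcz (c⁻¹ * y * c)) = Nat.card (dcz y) := by
  rw [dcz_conj]
  exact Subgroup.card_map_of_injective (MulAut.conj c⁻¹).injective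

theorem card_norm_conj [Finite H] (c y : H) :
    Nat.card (Subgroup.normalizer ((dcz (c⁻¹ * y * c) : Subgroup H) : Set H)) =
      Nat.card (Subgroup.normalizer ((dcz y : Subgroup H) : Set H)) := by
  rw [dcz_conj, ← Subgroup.map_equiv_normalizer_eq]
  exact Subgroup.card_map_of_injective (MulAut.conj c⁻¹).injective

/-- Size data are constant on classes. -/
theorem cl_data (hyp : Pl H z) [Finite H] {y w : H} (hy : y * y ≠ 1) (hw : w ∈ cl y) :
    cl w = cl y ∧ Nat.card (dcz w) = Nat.card (dcz y) ∧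
      Nat.card (Subgroup.normalizer ((dcz w : Subgroup H) : Set H)) =
        Nat.card (Subgroup.normalizer ((dcz y : Subgroup H) : Set H)) := by
  have hww : w * w ≠ 1 := hw.1
  refine ⟨hyp.cl_eq hww hy (mem_cl_self hww) hw, ?_, ?_⟩
  · obtain ⟨-, c, hc⟩ := hw
    have hcc : (c⁻¹ * w * c) * (c⁻¹ * w * c) ≠ 1 := by
      intro h
      apply hww
      have : w * w = c * ((c⁻¹ * w * c) * (c⁻¹ * w * c)) * c⁻¹ := by group
      rw [this, h]; group
    rw [← card_dcz_conj c w, hyp.dcz_eq hy hc hcc]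
  · obtain ⟨-, c, hc⟩ := hw
    have hcc : (c⁻¹ * w * c) * (c⁻¹ * w * c) ≠ 1 := by
      intro h
      apply hww
      have : w * w = c * ((c⁻¹ * w * c) * (c⁻¹ * w * c)) * c⁻¹ := by group
      rw [this, h]; group
    rw [← card_norm_conj c w, hyp.dcz_eq hy hc hcc]

/-- The numerical data of a class. -/
theorem class_data (hyp : Pl H z) [Finite H] {y : H} (hy : y * y ≠ 1) :
    ∃ x : ℕ, x * Nat.card (dcz y) = Nat.card H ∧
      ((Nat.card (Subgroup.normalizer ((dcz y : Subgroup H) : Set H)) = Nat.card (dcz y) ∧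
          (cl y).ncard + 2 * x = Nat.card H) ∨
        (Nat.card (Subgroup.normalizer ((dcz y : Subgroup H) : Set H)) = 2 * Nat.card (dcz y) ∧
          2 * (cl y).ncard + 2 * x = Nat.card H ∧ 2 ≤ x)) := by
  have h1 := card_dcls (dcz y) z hyp.z_ne (hyp.z_mem_dcz y) hyp.sq_iff (hyp.dcz_closed hy)
  obtain ⟨-, h4⟩ := hyp.card_ge hy
  have hx := Subgroup.card_mul_index (dcz y)
  refine ⟨(dcz y).index, by rw [mul_comm]; exact hx, ?_⟩
  rcases hyp.card_normalizer hy with h2 | h2
  · left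
    refine ⟨h2, ?_⟩
    rw [h2, ← hx] at h1
    show (dcls (dcz y)).ncard + 2 * (dcz y).index = Nat.card H
    rw [← hx]
    exact nat_aux1 _ _ _ h4 h1
  · right
    have hN := Subgroup.card_mul_index (Subgroup.normalizer ((dcz y : Subgroup H) : Set H))
    rw [h2] at hN
    have hpos : 0 < Nat.card (dcz y) := Nat.card_pos
    have hidx : (dcz y).index =
        2 * (Subgroup.normalizer ((dcz y : Subgroup H) : Set H)).index := by
      apply Nat.eq_of_mul_eq_mul_left hpos
      rw [hx, ← hN]; ring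
    have hipos : 0 < (Subgroup.normalizer ((dcz y : Subgroup H) : Set H)).index :=
      Nat.pos_of_ne_zero (Subgroup.index_ne_zero_of_finite)
    refine ⟨h2, ?_, by omega⟩
    rw [h2, ← hx] at h1
    show 2 * (dcls (dcz y)).ncard + 2 * (dcz y).index = Nat.card H
    rw [← hx]
    exact nat_aux2 _ _ _ h4 h1

end Pl

end Cfsg.Agent.Lib.Helper16.Zas
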