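import Mathlib
import Cfsg.Agent.Lib.Helper16.ZClass

/-!
# The classification theorem for planar groups (helper16, Zassenhaus project)
-/

set_option autoImplicit false

namespace Cfsg.Agent.Lib.Helper16.Zas

open Cfsg.Agent.Lib.Helper15

/-- Numerical class data. -/
def CD (N m ν n x : ℕ) : Prop :=
  x * m = N ∧ 2 ∣ m ∧ 4 ≤ m ∧
    ((ν = m ∧ n + 2 * x = N) ∨ (ν = 2 * m ∧ 2 * n + 2 * x = N ∧ 2 ≤ x))

theorem CD.four {N m ν n x : ℕ} (h : CD N m ν n x) : 4 * x ≤ N := by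
  obtain ⟨h1, -, h4, -⟩ := h
  have := Nat.mul_le_mul_left x h4
  omega

theorem CD.ge {N m ν n x k : ℕ} (h : CD N m ν n x) (hk : k ≤ m) : k * x ≤ N := by
  obtain ⟨h1, -, -, -⟩ := h
  have := Nat.mul_le_mul_left x hk
  rw [h1] at this
  rw [mul_comm]; exact this

theorem CD.mono {N m ν n x m' ν' n' x' : ℕ} (h : CD N m ν n x) (h' : CD N m' ν' n' x')
    (hle : m ≤ m') : x' ≤ x := by
  obtain ⟨h1, -, h4, -⟩ := h
  obtain ⟨h1', -, -, -⟩ := h'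
  have h2 : x' * m ≤ x * m := by
    have := Nat.mul_le_mul_left x' hle
    rw [h1'] at this
    rw [h1]; exact this
  exact Nat.le_of_mul_le_mul_right h2 (by omega)

theorem CD.cases {N m ν n x : ℕ} (h : CD N m ν n x) : m = 4 ∨ m = 6 ∨ m = 8 ∨ m = 10 ∨ 12 ≤ m := by
  obtain ⟨-, ⟨k, rfl⟩, h4, -⟩ := h
  omega

theorem num1 {N m ν n x : ℕ} (h : CD N m ν n x) (hs : n + 2 = N) : N ≤ 2 * m := by
  have h4 := h.four
  obtain ⟨h1, -, -, h | h⟩ := h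
  · obtain ⟨-, h2⟩ := h
    have : x = 1 := by omega
    subst this
    omega
  · omega

theorem num2 {N m₁ ν₁ n₁ x₁ m₂ ν₂ n₂ x₂ : ℕ} (h₁ : CD N m₁ ν₁ n₁ x₁) (h₂ : CD N m₂ ν₂ n₂ x₂)
    (hle : m₁ ≤ m₂) (hs : n₁ + n₂ + 2 = N) :
    N ≤ 2 * m₁ ∨ N ≤ 2 * m₂ ∨ (N = 24 ∧ m₁ = 4 ∧ m₂ = 6 ∧ ν₁ = 8 ∧ n₁ = 6) := by
  have f1 := h₁.four
  have f2 := h₂.four
  have hx := h₁.mono h₂ hle
  have c1 := h₁.cases
  have c2 := h₂.cases
  have g1 : ∀ k, k ≤ m₁ → k * x₁ ≤ N := fun k hk => h₁.ge hk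
  have g2 : ∀ k, k ≤ m₂ → k * x₂ ≤ N := fun k hk => h₂.ge hk
  obtain ⟨a1, -, b1, e1⟩ := h₁
  obtain ⟨a2, -, b2, e2⟩ := h₂
  rcases e1 with ⟨u1, v1⟩ | ⟨u1, v1, w1⟩ <;> rcases e2 with ⟨u2, v2⟩ | ⟨u2, v2, w2⟩
  · omega
  · rcases c1 with c | c
    · subst c
      right; left
      have : x₂ = 2 := by omega
      subst this; omega
    · have := g1 6 (by omega)
      omega
  · rcases c2 with c | c | c
    · have : m₁ = 4 := by omega
      subst c; subst this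
      left
      have : x₁ = 2 := by omega
      subst this; omega
    · subst c
      have : m₁ = 4 ∨ m₁ = 6 := by omega
      rcases this with c' | c'
      · subst c'
        right; right
        omega
      · subst c'; omega
    · have := g2 8 (by omega)
      omega
  · omega

theorem num3 {N m₁ ν₁ n₁ x₁ m₂ ν₂ n₂ x₂ m₃ ν₃ n₃ x₃ : ℕ} (h₁ : CD N m₁ ν₁ n₁ x₁)
    (h₂ : CD N m₂ ν₂ n₂ x₂) (h₃ : CD N m₃ ν₃ n₃ x₃)
    (hle : m₁ ≤ m₂) (hle' : m₂ ≤ m₃) (hs : n₁ + n₂ + n₃ + 2 = N) :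
    N ≤ 2 * m₃ ∨ (m₁ = 4 ∧ m₂ = 6 ∧ ν₁ = 8 ∧ ν₂ = 12 ∧ ν₃ = 2 * m₃ ∧
      ((m₃ = 6 ∧ N = 24 ∧ n₁ = 6) ∨ (m₃ = 8 ∧ N = 48 ∧ n₁ = 12 ∧ n₂ = 16 ∧ n₃ = 18) ∨
        (m₃ = 10 ∧ N = 120 ∧ n₁ = 30 ∧ n₂ = 40 ∧ n₃ = 48))) := by
  have f1 := h₁.four
  have f2 := h₂.four
  have f3 := h₃.four
  have c1 := h₁.cases
  have c2 := h₂.cases
  have c3 := h₃.cases
  have g1 : ∀ k, k ≤ m₁ → k * x₁ ≤ N := fun k hk => h₁.ge hk
  have g2 : ∀ k, k ≤ m₂ → k * x₂ ≤ N := fun k hk => h₂.ge hk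
  have g3 : ∀ k, k ≤ m₃ → k * x₃ ≤ N := fun k hk => h₃.ge hk
  obtain ⟨a1, -, b1, e1⟩ := h₁
  obtain ⟨a2, -, b2, e2⟩ := h₂
  obtain ⟨a3, -, b3, e3⟩ := h₃
  rcases e1 with ⟨u1, v1⟩ | ⟨u1, v1, w1⟩
  · exfalso; rcases e2 with ⟨u2, v2⟩ | ⟨u2, v2, w2⟩ <;> rcases e3 with ⟨u3, v3⟩ | ⟨u3, v3, w3⟩ <;>
      omega
  rcases e2 with ⟨u2, v2⟩ | ⟨u2, v2, w2⟩
  · exfalso; rcases e3 with ⟨u3, v3⟩ | ⟨u3, v3, w3⟩ <;> omega
  rcases e3 with ⟨u3, v3⟩ | ⟨u3, v3, w3⟩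
  · exfalso; omega
  -- all e = 2
  rcases c1 with c | c
  swap
  · exfalso
    have := g1 6 (by omega)
    have := g2 6 (by omega)
    have := g3 6 (by omega)
    omega
  subst c
  rcases c2 with c | c | c
  · subst c
    left
    have : x₃ = 2 := by omega
    subst this; omega
  · subst c
    rcases c3 with c | c | c | c | c
    · omega
    · subst c; right
      refine ⟨rfl, rfl, by omega, by omega, u3, Or.inl ⟨rfl, by omega, by omega⟩⟩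
    · subst c; right
      refine ⟨rfl, rfl, by omega, by omega, u3, Or.inr (Or.inl ⟨rfl, by omega, by omega, by omega,
        by omega⟩)⟩
    · subst c; right
      refine ⟨rfl, rfl, by omega, by omega, u3, Or.inr (Or.inr ⟨rfl, by omega, by omega, by omega,
        by omega⟩)⟩
    · exfalso
      have := g3 12 c
      omega
  · exfalso
    have := g2 8 (by omega)
    have := g3 8 (by omega)
    omega

theorem num4 {N m₁ ν₁ n₁ x₁ m₂ ν₂ n₂ x₂ m₃ ν₃ n₃ x₃ m₄ ν₄ n₄ x₄ : ℕ} (h₁ : CD N m₁ ν₁ n₁ x₁)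
    (h₂ : CD N m₂ ν₂ n₂ x₂) (h₃ : CD N m₃ ν₃ n₃ x₃) (h₄ : CD N m₄ ν₄ n₄ x₄)
    (hs : n₁ + n₂ + n₃ + n₄ + 2 ≤ N) : False := by
  have f1 := h₁.four
  have f2 := h₂.four
  have f3 := h₃.four
  have f4 := h₄.four
  obtain ⟨-, -, -, e1⟩ := h₁
  obtain ⟨-, -, -, e2⟩ := h₂
  obtain ⟨-, -, -, e3⟩ := h₃
  obtain ⟨-, -, -, e4⟩ := h₄
  have k1 : N ≤ 4 * n₁ := by rcases e1 with ⟨-, v⟩ | ⟨-, v, -⟩ <;> omega
  have k2 : N ≤ 4 * n₂ := by rcases e2 with ⟨-, v⟩ | ⟨-, v, -⟩ <;> omega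
  have k3 : N ≤ 4 * n₃ := by rcases e3 with ⟨-, v⟩ | ⟨-, v, -⟩ <;> omega
  have k4 : N ≤ 4 * n₄ := by rcases e4 with ⟨-, v⟩ | ⟨-, v, -⟩ <;> omega
  omega

variable {H : Type*} [Group H]

/-- Size-class statement: `c` non-involutions have centralizer of order `m`, and the
normalizers of these centralizers have order `e * m`. -/
def SC (H : Type*) [Group H] (m c e : ℕ) : Prop :=
  ({y : H | y * y ≠ 1 ∧ Nat.card (dcz y) = m} : Set H).ncard = c ∧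
  ∀ y : H, y * y ≠ 1 → Nat.card (dcz y) = m →
    Nat.card (Subgroup.normalizer ((dcz y : Subgroup H) : Set H)) = e * m

namespace Pl

variable {z : H}

theorem cd (hyp : Pl H z) [Finite H] {y : H} (hy : y * y ≠ 1) :
    ∃ x, CD (Nat.card H) (Nat.card (dcz y))
      (Nat.card (Subgroup.normalizer ((dcz y : Subgroup H) : Set H))) (cl y).ncard x := by
  obtain ⟨x, h1, h2⟩ := hyp.class_data hy
  obtain ⟨h3, h4⟩ := hyp.card_ge hy
  exact ⟨x, h1, h3, h4, h2⟩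

theorem cl_disjoint (hyp : Pl H z) {y y' : H} (hy : y * y ≠ 1) (hy' : y' * y' ≠ 1)
    (hnot : y' ∉ cl y) : Disjoint (cl y) (cl y') := by
  rw [Set.disjoint_left]
  intro w hw hw'
  apply hnot
  rw [hyp.cl_eq hy hy' hw hw']
  exact mem_cl_self hy'

theorem sc_of (hyp : Pl H z) [Finite H] {y₁ : H} (hy₁ : y₁ * y₁ ≠ 1) (U : Set H)
    (hcover : ∀ y : H, y * y ≠ 1 → y ∈ cl y₁ ∨ y ∈ U)
    (hU : ∀ y ∈ U, Nat.card (dcz y) ≠ Nat.card (dcz y₁)) {m c e : ℕ}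
    (hm : Nat.card (dcz y₁) = m) (hc : (cl y₁).ncard = c)
    (he : Nat.card (Subgroup.normalizer ((dcz y₁ : Subgroup H) : Set H)) = e * m) :
    SC H m c e := by
  have hset : ({y : H | y * y ≠ 1 ∧ Nat.card (dcz y) = m} : Set H) = cl y₁ := by
    ext y
    constructor
    · rintro ⟨h1, h2⟩
      rcases hcover y h1 with h | h
      · exact h
      · exact absurd (h2.trans hm.symm) (hU y h)
    · intro h
      exact ⟨h.1, (hyp.cl_data hy₁ h).2.1.trans hm⟩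
  refine ⟨by rw [hset, hc], ?_⟩
  intro y h1 h2
  have h3 : y ∈ cl y₁ := by rw [← hset]; exact ⟨h1, h2⟩
  rw [(hyp.cl_data hy₁ h3).2.2, he]

/-- **Classification of planar groups.** -/
theorem classify (hyp : Pl H z) [Finite H] :
    (∀ g : H, g * g = 1) ∨ (∃ y : H, y * y ≠ 1 ∧ Nat.card H ≤ 2 * Nat.card (dcz y)) ∨
    (Nat.card H = 24 ∧
      (∀ y : H, y * y ≠ 1 → Nat.card (dcz y) = 4 ∨ Nat.card (dcz y) = 6) ∧ SC H 4 6 2) ∨
    (Nat.card H = 48 ∧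
      (∀ y : H, y * y ≠ 1 → Nat.card (dcz y) = 4 ∨ Nat.card (dcz y) = 6 ∨ Nat.card (dcz y) = 8) ∧
      SC H 4 12 2 ∧ SC H 6 16 2 ∧ SC H 8 18 2) ∨
    (Nat.card H = 120 ∧
      (∀ y : H, y * y ≠ 1 → Nat.card (dcz y) = 4 ∨ Nat.card (dcz y) = 6 ∨ Nat.card (dcz y) = 10) ∧
      SC H 4 30 2 ∧ SC H 6 40 2 ∧ SC H 10 48 2) := by
  classical
  set S : Set H := {g | g * g ≠ 1} with hS
  have hScard : S.ncard + 2 = Nat.card H := by
    have h := card_sq_ne (⊤ : Subgroup H) z hyp.z_ne (Subgroup.mem_top z) hyp.sq_iff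
    rw [Subgroup.card_top] at h
    have e : ({a : H | a ∈ (⊤ : Subgroup H) ∧ a * a ≠ 1} : Set H) = S := by
      ext a; simp [hS]
    rw [e] at h; exact h
  by_cases hne : S.Nonempty
  swap
  · left; intro g; by_contra hg; exact hne ⟨g, hg⟩
  right
  have hclS : ∀ y : H, cl y ⊆ S := fun y w hw => hw.1
  obtain ⟨y₁, hy₁, hmin₁⟩ := Set.exists_min_image S (fun y => Nat.card (dcz y)) (Set.toFinite S) hne
  obtain ⟨x₁, hcd₁⟩ := hyp.cd hy₁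
  by_cases h1 : S ⊆ cl y₁
  · left
    have hSeq : S = cl y₁ := Set.Subset.antisymm h1 (hclS y₁)
    exact ⟨y₁, hy₁, num1 hcd₁ (by rw [← hSeq]; exact hScard)⟩
  obtain ⟨y₂, hy₂, hmin₂⟩ := Set.exists_min_image (S \ cl y₁) (fun y => Nat.card (dcz y))
    (Set.toFinite _) (Set.nonempty_of_not_subset h1)
  obtain ⟨x₂, hcd₂⟩ := hyp.cd hy₂.1
  have hd12 : Disjoint (cl y₁) (cl y₂) := hyp.cl_disjoint hy₁ hy₂.1 hy₂.2
  have hle12 : Nat.card (dcz y₁) ≤ Nat.card (dcz y₂) := hmin₁ y₂ hy₂.1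
  by_cases h2 : S ⊆ cl y₁ ∪ cl y₂
  · have hSeq : S = cl y₁ ∪ cl y₂ :=
      Set.Subset.antisymm h2 (Set.union_subset (hclS y₁) (hclS y₂))
    have hcount : (cl y₁).ncard + (cl y₂).ncard + 2 = Nat.card H := by
      rw [← Set.ncard_union_eq hd12, ← hSeq]; exact hScard
    rcases num2 hcd₁ hcd₂ hle12 hcount with h | h | ⟨hN, hm₁, hm₂, hν₁, hn₁⟩
    · left; exact ⟨y₁, hy₁, h⟩
    · left; exact ⟨y₂, hy₂.1, h⟩
    · right; left
      refine ⟨hN, ?_, ?_⟩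
      · intro y hy
        rcases h2 hy with h | h
        · left; rw [(hyp.cl_data hy₁ h).2.1, hm₁]
        · right; rw [(hyp.cl_data hy₂.1 h).2.1, hm₂]
      · apply hyp.sc_of hy₁ (cl y₂) (fun y hy => h2 hy) _ hm₁ hn₁ (by rw [hν₁])
        intro y hy
        rw [(hyp.cl_data hy₂.1 hy).2.1, hm₁, hm₂]; norm_num
  obtain ⟨y₃, hy₃, hmin₃⟩ := Set.exists_min_image (S \ (cl y₁ ∪ cl y₂))
    (fun y => Nat.card (dcz y)) (Set.toFinite _) (Set.nonempty_of_not_subset h2)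
  obtain ⟨x₃, hcd₃⟩ := hyp.cd hy₃.1
  have hy₃1 : y₃ ∉ cl y₁ := fun h => hy₃.2 (Or.inl h)
  have hy₃2 : y₃ ∉ cl y₂ := fun h => hy₃.2 (Or.inr h)
  have hd13 : Disjoint (cl y₁) (cl y₃) := hyp.cl_disjoint hy₁ hy₃.1 hy₃1
  have hd23 : Disjoint (cl y₂) (cl y₃) := hyp.cl_disjoint hy₂.1 hy₃.1 hy₃2
  have hle23 : Nat.card (dcz y₂) ≤ Nat.card (dcz y₃) := hmin₂ y₃ ⟨hy₃.1, hy₃1⟩
  have hd123 : Disjoint (cl y₁ ∪ cl y₂) (cl y₃) := Set.disjoint_union_left.mpr ⟨hd13, hd23⟩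
  by_cases h3 : S ⊆ cl y₁ ∪ cl y₂ ∪ cl y₃
  · have hSeq : S = cl y₁ ∪ cl y₂ ∪ cl y₃ :=
      Set.Subset.antisymm h3
        (Set.union_subset (Set.union_subset (hclS y₁) (hclS y₂)) (hclS y₃))
    have hcount : (cl y₁).ncard + (cl y₂).ncard + (cl y₃).ncard + 2 = Nat.card H := by
      rw [← Set.ncard_union_eq hd12, ← Set.ncard_union_eq hd123, ← hSeq]; exact hScard
    have hsz : ∀ y : H, y * y ≠ 1 → Nat.card (dcz y) = Nat.card (dcz y₁) ∨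
        Nat.card (dcz y) = Nat.card (dcz y₂) ∨ Nat.card (dcz y) = Nat.card (dcz y₃) := by
      intro y hy
      rcases h3 hy with (h | h) | h
      · left; exact (hyp.cl_data hy₁ h).2.1
      · right; left; exact (hyp.cl_data hy₂.1 h).2.1
      · right; right; exact (hyp.cl_data hy₃.1 h).2.1
    have cov1 : ∀ y : H, y * y ≠ 1 → y ∈ cl y₁ ∨ y ∈ cl y₂ ∪ cl y₃ := by
      intro y hy
      rcases h3 hy with (h | h) | h
      · exact Or.inl h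
      · exact Or.inr (Or.inl h)
      · exact Or.inr (Or.inr h)
    have cov2 : ∀ y : H, y * y ≠ 1 → y ∈ cl y₂ ∨ y ∈ cl y₁ ∪ cl y₃ := by
      intro y hy
      rcases h3 hy with (h | h) | h
      · exact Or.inr (Or.inl h)
      · exact Or.inl h
      · exact Or.inr (Or.inr h)
    have cov3 : ∀ y : H, y * y ≠ 1 → y ∈ cl y₃ ∨ y ∈ cl y₁ ∪ cl y₂ := by
      intro y hy
      rcases h3 hy with (h | h) | h
      · exact Or.inr (Or.inl h)
      · exact Or.inr (Or.inr h)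
      · exact Or.inl h
    rcases num3 hcd₁ hcd₂ hcd₃ hle12 hle23 hcount with h | ⟨hm₁, hm₂, hν₁, hν₂, hν₃, h⟩
    · left; exact ⟨y₃, hy₃.1, h⟩
    · right
      have sc1 : ∀ c : ℕ, (cl y₁).ncard = c → Nat.card (dcz y₃) ≠ 4 → SC H 4 c 2 := by
        intro c hc h4
        apply hyp.sc_of hy₁ (cl y₂ ∪ cl y₃) cov1 _ hm₁ hc (by rw [hν₁])
        rintro y (hy | hy)
        · rw [(hyp.cl_data hy₂.1 hy).2.1, hm₁, hm₂]; norm_num
        · rw [(hyp.cl_data hy₃.1 hy).2.1, hm₁]; exact h4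
      rcases h with ⟨hm₃, hN, hn₁⟩ | ⟨hm₃, hN, hn₁, hn₂, hn₃⟩ | ⟨hm₃, hN, hn₁, hn₂, hn₃⟩
      · left
        refine ⟨hN, ?_, sc1 6 hn₁ (by rw [hm₃]; norm_num)⟩
        intro y hy
        rcases hsz y hy with h | h | h
        · left; rw [h, hm₁]
        · right; rw [h, hm₂]
        · right; rw [h, hm₃]
      · right; left
        refine ⟨hN, ?_, sc1 12 hn₁ (by rw [hm₃]; norm_num), ?_, ?_⟩
        · intro y hy
          rcases hsz y hy with h | h | h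
          · left; rw [h, hm₁]
          · right; left; rw [h, hm₂]
          · right; right; rw [h, hm₃]
        · apply hyp.sc_of hy₂.1 (cl y₁ ∪ cl y₃) cov2 _ hm₂ hn₂ (by rw [hν₂])
          rintro y (hy | hy)
          · rw [(hyp.cl_data hy₁ hy).2.1, hm₁, hm₂]; norm_num
          · rw [(hyp.cl_data hy₃.1 hy).2.1, hm₃, hm₂]; norm_num
        · apply hyp.sc_of hy₃.1 (cl y₁ ∪ cl y₂) cov3 _ hm₃ hn₃ (by rw [hν₃, hm₃])
          rintro y (hy | hy)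
          · rw [(hyp.cl_data hy₁ hy).2.1, hm₁, hm₃]; norm_num
          · rw [(hyp.cl_data hy₂.1 hy).2.1, hm₂, hm₃]; norm_num
      · right; right
        refine ⟨hN, ?_, sc1 30 hn₁ (by rw [hm₃]; norm_num), ?_, ?_⟩
        · intro y hy
          rcases hsz y hy with h | h | h
          · left; rw [h, hm₁]
          · right; left; rw [h, hm₂]
          · right; right; rw [h, hm₃]
        · apply hyp.sc_of hy₂.1 (cl y₁ ∪ cl y₃) cov2 _ hm₂ hn₂ (by rw [hν₂])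
          rintro y (hy | hy)
          · rw [(hyp.cl_data hy₁ hy).2.1, hm₁, hm₂]; norm_num
          · rw [(hyp.cl_data hy₃.1 hy).2.1, hm₃, hm₂]; norm_num
        · apply hyp.sc_of hy₃.1 (cl y₁ ∪ cl y₂) cov3 _ hm₃ hn₃ (by rw [hν₃, hm₃])
          rintro y (hy | hy)
          · rw [(hyp.cl_data hy₁ hy).2.1, hm₁, hm₃]; norm_num
          · rw [(hyp.cl_data hy₂.1 hy).2.1, hm₂, hm₃]; norm_num
  · exfalso
    obtain ⟨y₄, hy₄S, hy₄⟩ := Set.not_subset.mp h3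
    have hy₄' : y₄ * y₄ ≠ 1 := hy₄S
    obtain ⟨x₄, hcd₄⟩ := hyp.cd hy₄'
    have hd14 : Disjoint (cl y₁) (cl y₄) :=
      hyp.cl_disjoint hy₁ hy₄' (fun h => hy₄ (Or.inl (Or.inl h)))
    have hd24 : Disjoint (cl y₂) (cl y₄) :=
      hyp.cl_disjoint hy₂.1 hy₄' (fun h => hy₄ (Or.inl (Or.inr h)))
    have hd34 : Disjoint (cl y₃) (cl y₄) :=
      hyp.cl_disjoint hy₃.1 hy₄' (fun h => hy₄ (Or.inr h))
    have hd1234 : Disjoint (cl y₁ ∪ cl y₂ ∪ cl y₃) (cl y₄) :=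
      Set.disjoint_union_left.mpr ⟨Set.disjoint_union_left.mpr ⟨hd14, hd24⟩, hd34⟩
    have hsub : cl y₁ ∪ cl y₂ ∪ cl y₃ ∪ cl y₄ ⊆ S :=
      Set.union_subset (Set.union_subset (Set.union_subset (hclS y₁) (hclS y₂)) (hclS y₃))
        (hclS y₄)
    have hle := Set.ncard_le_ncard hsub (Set.toFinite S)
    rw [Set.ncard_union_eq hd1234, Set.ncard_union_eq hd123, Set.ncard_union_eq hd12] at hle
    exact num4 hcd₁ hcd₂ hcd₃ hcd₄ (by omega)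

end Pl

end Cfsg.Agent.Lib.Helper16.Zas
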