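import Mathlib
import Cfsg.Agent.Lib.Helper16.ZClassify

/-!
# Structure of planar groups of order 24 and 120: Sylow 2-subgroups and frames
(helper16, Zassenhaus project)
-/

set_option autoImplicit false

namespace Cfsg.Agent.Lib.Helper16.Zas

open Cfsg.Agent.Lib.Helper15

variable {H : Type*} [Group H] {z : H}

/-- A quaternion frame for an element `a` of order three. -/
structure Frame (z a x j : H) : Prop where
  xx : x * x = z
  jj : j * j = z
  jx : j * x = z * (x * j)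
  ax : a * x * a⁻¹ = j
  aj : a * j * a⁻¹ = x * j

/-- Common structure of the types `T` and `I`. -/
structure TI (H : Type*) [Group H] : Prop where
  sz : ∀ y : H, y * y ≠ 1 →
    Nat.card (dcz y) = 4 ∨ Nat.card (dcz y) = 6 ∨ Nat.card (dcz y) = 10
  nm : ∀ y : H, y * y ≠ 1 → Nat.card (dcz y) = 4 →
    Nat.card (Subgroup.normalizer ((dcz y : Subgroup H) : Set H)) = 8
  syl : ∀ P : Sylow 2 H, Nat.card P = 8

theorem pow4_eq (x : H) : x ^ 4 = (x * x) * (x * x) := by simp [pow_succ, mul_assoc]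

theorem zpow4_eq (x : H) : x ^ (4 : ℤ) = (x * x) * (x * x) := by
  rw [show (4 : ℤ) = ((4 : ℕ) : ℤ) from rfl, zpow_natCast, pow4_eq]

theorem zpow3_eq (x : H) : x ^ (3 : ℤ) = x * x * x := by
  rw [show (3 : ℤ) = ((3 : ℕ) : ℤ) from rfl, zpow_natCast]; simp [pow_succ]

theorem sylow_card8 [Finite H] {r : ℕ} (hN : Nat.card H = 8 * r) (hr : ¬ 2 ∣ r)
    (P : Sylow 2 H) : Nat.card P = 8 := by
  obtain ⟨k, hk⟩ := IsPGroup.iff_card.mp P.isPGroup'
  have h1 := Subgroup.card_mul_index (P : Subgroup H)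
  have h2 := Sylow.not_dvd_index P
  rw [hN, hk] at h1
  have h3 : 2 ^ k ∣ 8 := by
    have hc : (2 ^ k).Coprime r :=
      Nat.Coprime.pow_left k ((Nat.Prime.coprime_iff_not_dvd Nat.prime_two).mpr hr)
    exact hc.dvd_of_dvd_mul_right (Dvd.intro _ h1)
  have h4 : 8 ∣ 2 ^ k := by
    have hc : (2 ^ 3).Coprime (P : Subgroup H).index :=
      Nat.Coprime.pow_left 3 ((Nat.Prime.coprime_iff_not_dvd Nat.prime_two).mpr h2)
    exact hc.dvd_of_dvd_mul_right (Dvd.intro r h1.symm)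
  rw [hk]; exact Nat.dvd_antisymm h3 h4

theorem mem_dcz4 (hyp : Pl H z) [Finite H] {x m : H} (hxx : x * x = z)
    (hμ : Nat.card (dcz x) = 4) (hm : m ∈ dcz x) : m = 1 ∨ m = z ∨ m = x ∨ m = x⁻¹ := by
  have hx2 : ¬ x ^ 2 ^ 1 = 1 := by
    rw [pow_one, pow_two, hxx]; exact hyp.z_ne
  have hx4 : x ^ 2 ^ (1 + 1) = 1 := by
    norm_num
    rw [pow4_eq, hxx, hyp.z_sq]
  have ho : orderOf x = 4 := orderOf_eq_prime_pow hx2 hx4
  have hle : Subgroup.zpowers x ≤ dcz x := Subgroup.zpowers_le.mpr (self_mem_dcz x)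
  have heq : Subgroup.zpowers x = dcz x :=
    Subgroup.eq_of_le_of_card_ge hle (by rw [Nat.card_zpowers, ho, hμ])
  rw [← heq] at hm
  obtain ⟨k, rfl⟩ := Subgroup.mem_zpowers_iff.mp hm
  have h4 : x ^ (4 : ℤ) = 1 := by
    rw [zpow4_eq, hxx, hyp.z_sq]
  have hk : x ^ k = x ^ (k % 4) := by
    conv_lhs => rw [← Int.emod_add_mul_ediv k 4]
    rw [zpow_add, zpow_mul, h4, one_zpow, mul_one]
  have hcases : k % 4 = 0 ∨ k % 4 = 1 ∨ k % 4 = 2 ∨ k % 4 = 3 := by omega
  rcases hcases with h | h | h | h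
  · left; rw [hk, h, zpow_zero]
  · right; right; left; rw [hk, h, zpow_one]
  · right; left; rw [hk, h, ← hxx, zpow_two]
  · right; right; right
    rw [hk, h]
    have : x ^ (3 : ℤ) * x = 1 := by
      rw [zpow3_eq, mul_assoc, hxx, hyp.z_sq]
    exact eq_inv_of_mul_eq_one_left this

namespace TI

theorem sq_of_mem (ti : TI H) (hyp : Pl H z) [Finite H] (P : Sylow 2 H) {w : H} (hw : w ∈ P)
    (hw1 : w ≠ 1) (hwz : w ≠ z) : w * w = z ∧ Nat.card (dcz w) = 4 := by
  have hww : w * w ≠ 1 := fun h => (hyp.invol w h).elim hw1 hwz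
  have h8 : w ^ 8 = 1 := by
    have h := orderOf_dvd_natCard (⟨w, hw⟩ : (P : Subgroup H))
    rw [Subgroup.orderOf_mk, ti.syl P] at h
    exact orderOf_dvd_iff_pow_eq_one.mp h
  have hμ : w ^ Nat.card (dcz w) = 1 := by
    have h := orderOf_dvd_natCard (⟨w, self_mem_dcz w⟩ : dcz w)
    rw [Subgroup.orderOf_mk] at h
    exact orderOf_dvd_iff_pow_eq_one.mp h
  have h4 : Nat.card (dcz w) = 4 := by
    rcases ti.sz w hww with h | h | h
    · exact h
    · exfalso; rw [h] at hμ; apply hww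
      have e : w ^ 8 = w ^ 6 * (w * w) := by simp [pow_succ, mul_assoc]
      rw [h8, hμ, one_mul] at e
      exact e.symm
    · exfalso; rw [h] at hμ; apply hww
      have e : w ^ 10 = w ^ 8 * (w * w) := by simp [pow_succ, mul_assoc]
      rw [hμ, h8, one_mul] at e
      exact e.symm
  refine ⟨?_, h4⟩
  rw [h4] at hμ
  have h5 : (w * w) * (w * w) = 1 := by rw [← hμ, pow4_eq]
  rcases hyp.invol _ h5 with h | h
  · exact absurd h hww
  · exact h

theorem z_mem (ti : TI H) (hyp : Pl H z) [Finite H] (P : Sylow 2 H) : z ∈ P := by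
  have h2 : 2 ∣ Nat.card (P : Subgroup H) := by rw [ti.syl P]; norm_num
  obtain ⟨g, hg⟩ := exists_prime_orderOf_dvd_card' 2 h2
  have hg' : orderOf (g : H) = 2 := by rw [Subgroup.orderOf_coe]; exact hg
  have hg2 : (g : H) * g = 1 := by
    have h := pow_orderOf_eq_one (g : H)
    rw [hg', pow_two] at h
    exact h
  have hg1 : (g : H) ≠ 1 := by
    intro h
    rw [h, orderOf_one] at hg'
    exact absurd hg' (by norm_num)
  rcases hyp.invol _ hg2 with h | h
  · exact absurd h hg1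
  · rw [← h]; exact g.2

theorem ne_of_sq {x : H} (hyp : Pl H z) (hxx : x * x = z) : x ≠ 1 ∧ x ≠ z ∧ x * x ≠ 1 := by
  refine ⟨?_, ?_, ?_⟩
  · rintro rfl; rw [mul_one] at hxx; exact hyp.z_ne hxx.symm
  · rintro rfl; rw [hyp.z_sq] at hxx; exact hyp.z_ne hxx.symm
  · rw [hxx]; exact hyp.z_ne

theorem sylow_eq_norm (ti : TI H) (hyp : Pl H z) [Finite H] (P : Sylow 2 H) {x : H}
    (hx : x ∈ P) (hxx : x * x = z) :
    (P : Subgroup H) = Subgroup.normalizer ((dcz x : Subgroup H) : Set H) := by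
  obtain ⟨hx1, hxz, hxx1⟩ := ne_of_sq hyp hxx
  obtain ⟨-, hμ⟩ := ti.sq_of_mem hyp P hx hx1 hxz
  have hle : dcz x ≤ (P : Subgroup H) := by
    intro m hm
    rcases mem_dcz4 hyp hxx hμ hm with h | h | h | h
    · rw [h]; exact Subgroup.one_mem _
    · rw [h]; exact ti.z_mem hyp P
    · rw [h]; exact hx
    · rw [h]; exact Subgroup.inv_mem _ hx
  have hidx : ((dcz x).subgroupOf (P : Subgroup H)).index = 2 := by
    have h1 := Subgroup.card_mul_index ((dcz x).subgroupOf (P : Subgroup H))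
    have hc : Nat.card ((dcz x).subgroupOf (P : Subgroup H)) = Nat.card (dcz x) :=
      Nat.card_congr (Subgroup.subgroupOfEquivOfLe hle).toEquiv
    rw [hc, hμ, ti.syl P] at h1
    omega
  have hn := Subgroup.normal_of_index_eq_two hidx
  have hPN : (P : Subgroup H) ≤ Subgroup.normalizer ((dcz x : Subgroup H) : Set H) := by
    intro p hp
    apply dmem_normalizer
    intro m hm
    have hm' : (⟨m, hle hm⟩ : (P : Subgroup H)) ∈ (dcz x).subgroupOf (P : Subgroup H) :=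
      Subgroup.mem_subgroupOf.mpr hm
    have h1 := hn.conj_mem _ hm' (⟨p, hp⟩ : (P : Subgroup H))
    exact Subgroup.mem_subgroupOf.mp h1
  exact Subgroup.eq_of_le_of_card_ge hPN (by rw [ti.nm x hxx1 hμ, ti.syl P])

theorem conj_ne (hyp : Pl H z) [Finite H] {w b : H} (hw4 : Nat.card (dcz w) = 4)
    (hb1 : b ≠ 1) (hb3 : b ^ 3 = 1) : b * w * b⁻¹ ≠ w ∧ b * w * b⁻¹ ≠ w⁻¹ := by
  have key : b ∉ dcz w := by
    intro h
    have h1 := orderOf_dvd_natCard (⟨b, h⟩ : dcz w)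
    rw [Subgroup.orderOf_mk, hw4] at h1
    have h2 := orderOf_dvd_of_pow_eq_one hb3
    have h3 : orderOf b ∣ Nat.gcd 4 3 := Nat.dvd_gcd h1 h2
    have h4 : orderOf b = 1 := by simpa using h3
    exact hb1 (orderOf_eq_one_iff.mp h4)
  constructor
  · intro h
    apply key
    rw [mem_dcz]
    have : b * w = (b * w * b⁻¹) * b := by group
    rw [this, h]
  · intro h
    apply key
    have h1 : (b * b) * w * (b * b)⁻¹ = w := by
      have : (b * b) * w * (b * b)⁻¹ = b * (b * w * b⁻¹) * b⁻¹ := by group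
      rw [this, h]
      have : b * w⁻¹ * b⁻¹ = (b * w * b⁻¹)⁻¹ := by group
      rw [this, h, inv_inv]
    have h2 : b * b ∈ dcz w := by
      rw [mem_dcz]
      have : b * b * w = ((b * b) * w * (b * b)⁻¹) * (b * b) := by group
      rw [this, h1]
    have h3 : b = (b * b) * (b * b) := by
      have : (b * b) * (b * b) = b ^ 3 * b := by simp [pow_succ, mul_assoc]
      rw [this, hb3, one_mul]
    rw [h3]
    exact (dcz w).mul_mem h2 h2

/-- An element of order three normalizing a Sylow `2`-subgroup has a frame in it. -/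
theorem frame (ti : TI H) (hyp : Pl H z) [Finite H] (P : Sylow 2 H) {a : H}
    (ha : a ∈ Subgroup.normalizer ((P : Subgroup H) : Set H)) (ha1 : a ≠ 1) (ha3 : a ^ 3 = 1) :
    ∃ x j : H, x ∈ P ∧ j ∈ P ∧ Frame z a x j := by
  have hcard : ({1, z} : Set H).ncard < (((P : Subgroup H) : Set H)).ncard := by
    have h1 : (((P : Subgroup H) : Set H)).ncard = 8 := by
      rw [← Nat.card_coe_set_eq]; exact ti.syl P
    rw [h1, Set.ncard_pair hyp.z_ne.symm]; norm_num
  obtain ⟨x, hxP, hxn⟩ := Set.exists_mem_notMem_of_ncard_lt_ncard hcard (Set.toFinite _)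
  have hxP' : x ∈ P := hxP
  have hx1 : x ≠ 1 := fun h => hxn (by rw [h]; simp)
  have hxz : x ≠ z := fun h => hxn (by rw [h]; simp)
  obtain ⟨hxx, hμ⟩ := ti.sq_of_mem hyp P hxP' hx1 hxz
  have hxx1 : x * x ≠ 1 := by rw [hxx]; exact hyp.z_ne
  have hPN := ti.sylow_eq_norm hyp P hxP' hxx
  have hb1 : a * a ≠ 1 := by
    intro h
    apply ha1
    have : a ^ 3 = (a * a) * a := by simp [pow_succ, mul_assoc]
    rw [this, h, one_mul] at ha3
    exact ha3
  have hb3 : (a * a) ^ 3 = 1 := by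
    have : (a * a) ^ 3 = a ^ 3 * a ^ 3 := by simp [pow_succ, mul_assoc]
    rw [this, ha3, one_mul]
  have conjP : ∀ w : H, w ∈ P → a * w * a⁻¹ ∈ P := fun w hw =>
    (Subgroup.mem_normalizer_iff.mp ha w).mp hw
  have hjP : a * x * a⁻¹ ∈ P := conjP x hxP'
  have hkP : a * (a * x * a⁻¹) * a⁻¹ ∈ P := conjP _ hjP
  -- j ∉ dcz x
  have hjM : a * x * a⁻¹ ∉ dcz x := by
    intro h
    rw [mem_dcz] at h
    rcases hyp.conj_comm x a h with h1 | h1
    · exact (conj_ne hyp hμ ha1 ha3).1 h1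
    · exact (conj_ne hyp hμ ha1 ha3).2 h1
  have hkeq : a * (a * x * a⁻¹) * a⁻¹ = (a * a) * x * (a * a)⁻¹ := by group
  have hkM : a * (a * x * a⁻¹) * a⁻¹ ∉ dcz x := by
    intro h
    rw [hkeq, mem_dcz] at h
    rcases hyp.conj_comm x (a * a) h with h1 | h1
    · exact (conj_ne hyp hμ hb1 hb3).1 h1
    · exact (conj_ne hyp hμ hb1 hb3).2 h1
  have hjN : a * x * a⁻¹ ∈ Subgroup.normalizer ((dcz x : Subgroup H) : Set H) := by
    rw [← hPN]; exact hjP
  have hkN : a * (a * x * a⁻¹) * a⁻¹ ∈ Subgroup.normalizer ((dcz x : Subgroup H) : Set H) := by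
    rw [← hPN]; exact hkP
  set j := a * x * a⁻¹ with hj
  set k := a * j * a⁻¹ with hk
  have hjj : j * j = z := hyp.norm_sq hxx1 hjN hjM
  have hinv : j * x * j⁻¹ = x⁻¹ := hyp.norm_inv hxx1 hjN hjM x (self_mem_dcz x)
  have hj4 : Nat.card (dcz j) = 4 := by
    obtain ⟨hj1, hjz, -⟩ := ne_of_sq hyp hjj
    exact (ti.sq_of_mem hyp P hjP hj1 hjz).2
  have hjiN : j⁻¹ ∈ Subgroup.normalizer ((dcz x : Subgroup H) : Set H) :=
    Subgroup.inv_mem _ hjN
  have hjiM : j⁻¹ ∉ dcz x := fun h => hjM (by simpa using (dcz x).inv_mem h)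
  have hmem := hyp.norm_mul_mem hxx1 hjiN hjiM hkN hkM
  have zc := hyp.z_comm
  -- basic relations
  have r1 : j * x = z * (x * j) := by
    have h1 : j * x = (j * x * j⁻¹) * j := by group
    have h2 : x⁻¹ = z * x := by
      symm
      apply eq_inv_of_mul_eq_one_left
      rw [mul_assoc, hxx, hyp.z_sq]
    rw [h1, hinv, h2, mul_assoc]
  have r2 : j * x⁻¹ = x * j := by
    have h1 : j * x⁻¹ = (j * x * j⁻¹)⁻¹ * j := by group
    rw [h1, hinv, inv_inv]
  rcases mem_dcz4 hyp hxx hμ hmem with h | h | h | h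
  · exfalso
    have h1 : k = j := by
      have : k = j * (j⁻¹ * k) := by group
      rw [this, h, mul_one]
    exact (conj_ne hyp hj4 ha1 ha3).1 h1
  · exfalso
    have h1 : k = j⁻¹ := by
      have e : k = j * (j⁻¹ * k) := by group
      rw [e, h]
      apply eq_inv_of_mul_eq_one_left
      rw [mul_assoc, zc j, ← mul_assoc, hjj, hyp.z_sq]
    exact (conj_ne hyp hj4 ha1 ha3).2 h1
  · -- k = j * x : frame (x⁻¹, j⁻¹)
    have h1 : k = j * x := by
      have e : k = j * (j⁻¹ * k) := by group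
      rw [e, h]
    refine ⟨x⁻¹, j⁻¹, Subgroup.inv_mem _ hxP', Subgroup.inv_mem _ hjP, ?_, ?_, ?_, ?_, ?_⟩
    · rw [← mul_inv_rev, hxx, hyp.z_inv]
    · rw [← mul_inv_rev, hjj, hyp.z_inv]
    · have e1 : j⁻¹ * x⁻¹ = (x * j)⁻¹ := by group
      have e2 : x⁻¹ * j⁻¹ = (j * x)⁻¹ := by group
      have e3 : (z * (x * j))⁻¹ = z * (x * j)⁻¹ := by
        rw [mul_inv_rev, hyp.z_inv, zc]
      rw [e2, r1, e3, ← mul_assoc, hyp.z_sq, one_mul]
      exact e1
    · rw [hj]; group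
    · have e1 : a * j⁻¹ * a⁻¹ = (a * j * a⁻¹)⁻¹ := by group
      rw [e1, ← hk, h1]; group
  · -- k = j * x⁻¹ = x * j : frame (x, j)
    have h1 : k = x * j := by
      have e : k = j * (j⁻¹ * k) := by group
      rw [e, h, r2]
    exact ⟨x, j, hxP', hjP, hxx, hjj, r1, rfl, h1⟩

end TI

end Cfsg.Agent.Lib.Helper16.Zas
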