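import Mathlib
import Cfsg.Agent.Lib.Helper16.ZTypes

/-!
# Kinds of traces (helper16, Zassenhaus project)
-/

set_option autoImplicit false

namespace Cfsg.Agent.Lib.Helper16.Zas

/-- The possible traces `ρ g + ρ g⁻¹` of elements of order `4`, `3`, `6`, `5`, `10`. -/
def TKind {R : Type*} [Ring R] (t : R) : Prop :=
  t = 0 ∨ t = -1 ∨ t = 1 ∨ (IsUnit (5 : R) ∧ t * t + t - 1 = 0) ∨
    (IsUnit (5 : R) ∧ t * t - t - 1 = 0)

end Cfsg.Agent.Lib.Helper16.Zas
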