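import Mathlib
import Cfsg.Agent.Lib.Helper16.ZFpf

/-!
# Planar subgroups of a fixed-point-free ring representation (helper16, Zassenhaus project)

`PlanarOn ρ X`: for `g, k ∈ X` the "trace" `ρ g + ρ g⁻¹` commutes with `ρ k`.
* `planar_pair`: two elements of order three (and the central involution) generate a planar
  subgroup.
* `PlanarOn.cent_comm`, `PlanarOn.conj_comm`: the two group-theoretic consequences.
-/

set_option autoImplicit false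

namespace Cfsg.Agent.Lib.Helper16.Zas

variable {G : Type*} [Group G] {R : Type*} [Ring R]

/-- Planarity of a subgroup with respect to a ring representation. -/
def PlanarOn (ρ : G →* R) (X : Subgroup G) : Prop :=
  ∀ g ∈ X, ∀ k ∈ X, (ρ g + ρ g⁻¹) * ρ k = ρ k * (ρ g + ρ g⁻¹)

theorem PlanarOn.mono {ρ : G →* R} {X Y : Subgroup G} (hXY : X ≤ Y) (h : PlanarOn ρ Y) :
    PlanarOn ρ X :=
  fun g hg k hk => h g (hXY hg) k (hXY hk)

section gamma

/-- `p` commutes with `U` and `V`. -/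
def Cen (U V p : R) : Prop := p * U = U * p ∧ p * V = V * p

variable {U V : R}

theorem Cen.add {p q : R} (hp : Cen U V p) (hq : Cen U V q) : Cen U V (p + q) :=
  ⟨by rw [add_mul, mul_add, hp.1, hq.1], by rw [add_mul, mul_add, hp.2, hq.2]⟩

theorem Cen.neg {p : R} (hp : Cen U V p) : Cen U V (-p) :=
  ⟨by rw [neg_mul, mul_neg, hp.1], by rw [neg_mul, mul_neg, hp.2]⟩

theorem Cen.sub {p q : R} (hp : Cen U V p) (hq : Cen U V q) : Cen U V (p - q) := by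
  rw [sub_eq_add_neg]; exact hp.add hq.neg

theorem Cen.mul {p q : R} (hp : Cen U V p) (hq : Cen U V q) : Cen U V (p * q) :=
  ⟨by rw [mul_assoc, hq.1, ← mul_assoc, hp.1, mul_assoc],
   by rw [mul_assoc, hq.2, ← mul_assoc, hp.2, mul_assoc]⟩

theorem Cen.one : Cen U V (1 : R) := ⟨by simp, by simp⟩

theorem Cen.zero : Cen U V (0 : R) := ⟨by simp, by simp⟩

theorem cen_c (hU : U * U + U + 1 = 0) (hV : V * V + V + 1 = 0) :
    Cen U V (U * V + 1 + U + V + V * U) :=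
  ⟨by linear_combination (norm := noncomm_ring) V * hU - hU * V,
   by linear_combination (norm := noncomm_ring) U * hV - hV * U⟩

/-- The pair relation: `x` and `y` have the same coordinates w.r.t. `1, U, V, UV` and
`1, U⁻¹, V⁻¹, V⁻¹U⁻¹`. -/
def Gam (U V x y : R) : Prop :=
  ∃ p₁ p₂ p₃ p₄ : R, Cen U V p₁ ∧ Cen U V p₂ ∧ Cen U V p₃ ∧ Cen U V p₄ ∧
    x = p₁ + p₂ * U + p₃ * V + p₄ * (U * V) ∧
    y = p₁ + p₂ * (-1 - U) + p₃ * (-1 - V) + p₄ * ((-1 - V) * (-1 - U))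

theorem gam_one : Gam U V 1 1 :=
  ⟨1, 0, 0, 0, Cen.one, Cen.zero, Cen.zero, Cen.zero, by simp, by simp⟩

theorem gam_neg {x y : R} (h : Gam U V x y) : Gam U V (-x) (-y) := by
  obtain ⟨p₁, p₂, p₃, p₄, c1, c2, c3, c4, rfl, rfl⟩ := h
  exact ⟨-p₁, -p₂, -p₃, -p₄, c1.neg, c2.neg, c3.neg, c4.neg, by noncomm_ring, by noncomm_ring⟩

theorem gam_U (hU : U * U + U + 1 = 0) (hV : V * V + V + 1 = 0) {x y : R}
    (h : Gam U V x y) : Gam U V (x * U) ((-1 - U) * y) := by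
  obtain ⟨p₁, p₂, p₃, p₄, c1, c2, c3, c4, rfl, rfl⟩ := h
  have hc := cen_c hU hV
  refine ⟨-p₂ + p₃ * ((U * V + 1 + U + V + V * U) - 1) + p₄,
    p₁ - p₂ - p₃ + p₄ * (U * V + 1 + U + V + V * U), -p₃ + p₄, -p₃,
    (c2.neg.add (c3.mul (hc.sub Cen.one))).add c4, ((c1.sub c2).sub c3).add (c4.mul hc),
    c3.neg.add c4, c3.neg, ?_, ?_⟩
  · linear_combination (norm := noncomm_ring) p₂ * hU - p₄ * (1 + V) * hU
  · linear_combination (norm := noncomm_ring) c1.1 + c2.1 * (-1 - U) + c3.1 * (-1 - V) +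
      c4.1 * ((-1 - V) * (-1 - U)) + p₂ * hU + p₄ * V * hU

theorem gam_V (hV : V * V + V + 1 = 0) {x y : R}
    (h : Gam U V x y) : Gam U V (x * V) ((-1 - V) * y) := by
  obtain ⟨p₁, p₂, p₃, p₄, c1, c2, c3, c4, rfl, rfl⟩ := h
  refine ⟨-p₃, -p₄, p₁ - p₃, p₂ - p₄, c3.neg, c4.neg, c1.sub c3, c2.sub c4, ?_, ?_⟩
  · linear_combination (norm := noncomm_ring) p₃ * hV + p₄ * U * hV
  · linear_combination (norm := noncomm_ring) c1.2 + c2.2 * (-1 - U) + c3.2 * (-1 - V) +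
      c4.2 * ((-1 - V) * (-1 - U)) + p₃ * hV + p₄ * hV * (-1 - U)

theorem gam_cen (hU : U * U + U + 1 = 0) (hV : V * V + V + 1 = 0) {x y : R}
    (h : Gam U V x y) : Cen U V (x + y) := by
  obtain ⟨p₁, p₂, p₃, p₄, c1, c2, c3, c4, rfl, rfl⟩ := h
  have hc := cen_c hU hV
  have h1 : p₁ + p₂ * U + p₃ * V + p₄ * (U * V) +
      (p₁ + p₂ * (-1 - U) + p₃ * (-1 - V) + p₄ * ((-1 - V) * (-1 - U))) =
      p₁ + p₁ - p₂ - p₃ + p₄ * (U * V + 1 + U + V + V * U) := by noncomm_ring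
  rw [h1]
  exact (((c1.add c1).sub c2).sub c3).add (c4.mul hc)

end gamma

/-- Two elements of order three and the central involution generate a planar subgroup. -/
theorem planar_pair (ρ : G →* R) (u v z : G) (hu : ρ u * ρ u + ρ u + 1 = 0)
    (hv : ρ v * ρ v + ρ v + 1 = 0) (hu3 : u⁻¹ = u * u) (hv3 : v⁻¹ = v * v)
    (hz : ρ z = -1) (hzz : z⁻¹ = z) : PlanarOn ρ (Subgroup.closure {u, v, z}) := by
  have hui : ρ u⁻¹ = -1 - ρ u := by
    rw [hu3, map_mul]; linear_combination (norm := noncomm_ring) hu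
  have hvi : ρ v⁻¹ = -1 - ρ v := by
    rw [hv3, map_mul]; linear_combination (norm := noncomm_ring) hv
  have key : ∀ g ∈ Subgroup.closure ({u, v, z} : Set G), Gam (ρ u) (ρ v) (ρ g) (ρ g⁻¹) := by
    intro g hg
    induction hg using Subgroup.closure_induction_right with
    | one => rw [inv_one, map_one]; exact gam_one
    | mul_right x hx y hy ih =>
      rw [mul_inv_rev, map_mul, map_mul]
      rcases hy with rfl | rfl | rfl
      · rw [hui]; exact gam_U hu hv ih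
      · rw [hvi]; exact gam_V hv ih
      · rw [hzz, hz]
        have h1 := gam_neg ih
        have e1 : ρ x * -1 = -ρ x := by noncomm_ring
        have e2 : -1 * ρ x⁻¹ = -ρ x⁻¹ := by noncomm_ring
        rw [e1, e2]; exact h1
    | mul_inv_cancel x hx y hy ih =>
      rw [mul_inv_rev, inv_inv, map_mul, map_mul]
      rcases hy with rfl | rfl | rfl
      · have h1 := gam_U hu hv (gam_U hu hv ih)
        have e1 : ρ x * ρ y⁻¹ = ρ x * ρ y * ρ y := by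
          rw [hu3, map_mul, mul_assoc]
        have e2 : ρ y * ρ x⁻¹ = (-1 - ρ y) * ((-1 - ρ y) * ρ x⁻¹) := by
          linear_combination (norm := noncomm_ring) (-1 : R) * hu * ρ x⁻¹
        rw [e1, e2]; exact h1
      · have h1 := gam_V hv (gam_V hv ih)
        have e1 : ρ x * ρ y⁻¹ = ρ x * ρ y * ρ y := by
          rw [hv3, map_mul, mul_assoc]
        have e2 : ρ y * ρ x⁻¹ = (-1 - ρ y) * ((-1 - ρ y) * ρ x⁻¹) := by
          linear_combination (norm := noncomm_ring) (-1 : R) * hv * ρ x⁻¹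
        rw [e1, e2]; exact h1
      · rw [hzz, hz]
        have h1 := gam_neg ih
        have e1 : ρ x * -1 = -ρ x := by noncomm_ring
        have e2 : -1 * ρ x⁻¹ = -ρ x⁻¹ := by noncomm_ring
        rw [e1, e2]; exact h1
  intro g hg k hk
  have hcen := gam_cen hu hv (key g hg)
  induction hk using Subgroup.closure_induction with
  | mem y hy =>
    rcases hy with rfl | rfl | rfl
    · exact hcen.1
    · exact hcen.2
    · rw [hz]; noncomm_ring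
  | one => rw [map_one, mul_one, one_mul]
  | mul a b _ _ iha ihb =>
    rw [map_mul, ← mul_assoc, iha, mul_assoc, ihb, mul_assoc]
  | inv a _ iha =>
    have h1 : ρ a⁻¹ * ρ a = 1 := by rw [← map_mul, inv_mul_cancel, map_one]
    have h2 : ρ a * ρ a⁻¹ = 1 := by rw [← map_mul, mul_inv_cancel, map_one]
    linear_combination (norm := noncomm_ring) ρ a⁻¹ * (ρ g + ρ g⁻¹) * h2 - ρ a⁻¹ * iha * ρ a⁻¹ -
      h1 * (ρ g + ρ g⁻¹) * ρ a⁻¹

section consequences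

variable {ρ : G →* R}

/-- Commuting group elements with the same trace are equal or inverse. -/
theorem Fpf.trace_eq (h : Fpf ρ) {g k : G} (hc : g * k = k * g)
    (ht : ρ g + ρ g⁻¹ = ρ k + ρ k⁻¹) : k = g ∨ k = g⁻¹ := by
  by_cases h1 : g * k = 1
  · right; exact eq_inv_of_mul_eq_one_right h1
  · left
    have h2 := h.unit _ h1
    have hcR : ρ g * ρ k = ρ k * ρ g := by rw [← map_mul, hc, map_mul]
    have hxx : ρ g * ρ g⁻¹ = 1 := by rw [← map_mul, mul_inv_cancel, map_one]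
    have hyy : ρ k * ρ k⁻¹ = 1 := by rw [← map_mul, mul_inv_cancel, map_one]
    have h3 : (ρ (g * k) - 1) * (ρ g - ρ k) = 0 := by
      rw [map_mul]
      linear_combination (norm := noncomm_ring) (ρ g * ρ k) * ht - hcR * ρ g⁻¹ - ρ k * hxx +
        ρ g * hyy
    have h4 := h2.mul_right_eq_zero.mp h3
    exact (h.inj (sub_eq_zero.mp h4)).symm

theorem PlanarOn.conj_comm (h : Fpf ρ) {X : Subgroup G} (hX : PlanarOn ρ X) {g n : G}
    (hg : g ∈ X) (hn : n ∈ X) (hc : (n * g * n⁻¹) * g = g * (n * g * n⁻¹)) :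
    n * g * n⁻¹ = g ∨ n * g * n⁻¹ = g⁻¹ := by
  apply h.trace_eq hc.symm
  have h1 := hX g hg n hn
  have h2 : (n * g * n⁻¹)⁻¹ = n * g⁻¹ * n⁻¹ := by group
  have h3 : ρ n * ρ n⁻¹ = 1 := by rw [← map_mul, mul_inv_cancel, map_one]
  rw [h2, map_mul, map_mul, map_mul, map_mul]
  linear_combination (norm := noncomm_ring) -(ρ g + ρ g⁻¹) * h3 + h1 * ρ n⁻¹

theorem commute_aux {t a ab Y Yb : R} (h1 : Commute t a) (h2 : Commute t ab) (h3 : Commute t Y)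
    (h4 : Commute t Yb) :
    Commute t ((Y + Yb) * a + ((a * Y + Yb * ab) - (a + ab) * (Y + Yb))) :=
  ((h3.add_right h4).mul_right h1).add_right
    (((h1.mul_right h3).add_right (h4.mul_right h2)).sub_right
      ((h1.add_right h2).mul_right (h3.add_right h4)))

theorem PlanarOn.cent_comm (h : Fpf ρ) {X : Subgroup G} (hX : PlanarOn ρ X) {g x y : G}
    (hg : g ∈ X) (hx : x ∈ X) (hy : y ∈ X) (hgg : g * g ≠ 1) (hxg : x * g = g * x)
    (hyg : y * g = g * y) : x * y = y * x := by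
  have hgi : g⁻¹ ∈ X := X.inv_mem hg
  have hxi : x⁻¹ ∈ X := X.inv_mem hx
  have hyi : y⁻¹ ∈ X := X.inv_mem hy
  -- commutation in the ring
  have cax : ρ g * ρ x = ρ x * ρ g := by rw [← map_mul, ← hxg, map_mul]
  have cay : ρ g * ρ y = ρ y * ρ g := by rw [← map_mul, ← hyg, map_mul]
  have hxg' : x⁻¹ * g = g * x⁻¹ := by
    have : x⁻¹ * g = x⁻¹ * (g * x) * x⁻¹ := by group
    rw [this, ← hxg]; group
  have hyg' : y⁻¹ * g = g * y⁻¹ := by
    have : y⁻¹ * g = y⁻¹ * (g * y) * y⁻¹ := by group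
    rw [this, ← hyg]; group
  have hxgi : x * g⁻¹ = g⁻¹ * x := by
    have : x * g⁻¹ = g⁻¹ * (g * x) * g⁻¹ := by group
    rw [this, ← hxg]; group
  have hygi : y * g⁻¹ = g⁻¹ * y := by
    have : y * g⁻¹ = g⁻¹ * (g * y) * g⁻¹ := by group
    rw [this, ← hyg]; group
  have hxgi' : x⁻¹ * g⁻¹ = g⁻¹ * x⁻¹ := by
    have : x⁻¹ * g⁻¹ = (g * x)⁻¹ := by group
    rw [this, ← hxg]; group
  have hygi' : y⁻¹ * g⁻¹ = g⁻¹ * y⁻¹ := by
    have : y⁻¹ * g⁻¹ = (g * y)⁻¹ := by group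
    rw [this, ← hyg]; group
  have caxi : ρ g * ρ x⁻¹ = ρ x⁻¹ * ρ g := by rw [← map_mul, ← hxg', map_mul]
  have cayi : ρ g * ρ y⁻¹ = ρ y⁻¹ * ρ g := by rw [← map_mul, ← hyg', map_mul]
  have caix : ρ g⁻¹ * ρ x = ρ x * ρ g⁻¹ := by rw [← map_mul, ← hxgi, map_mul]
  have caiy : ρ g⁻¹ * ρ y = ρ y * ρ g⁻¹ := by rw [← map_mul, ← hygi, map_mul]
  have caixi : ρ g⁻¹ * ρ x⁻¹ = ρ x⁻¹ * ρ g⁻¹ := by rw [← map_mul, ← hxgi', map_mul]
  have caiyi : ρ g⁻¹ * ρ y⁻¹ = ρ y⁻¹ * ρ g⁻¹ := by rw [← map_mul, ← hygi', map_mul]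
  have haa : ρ g * ρ g⁻¹ = 1 := by rw [← map_mul, mul_inv_cancel, map_one]
  have haa' : ρ g⁻¹ * ρ g = 1 := by rw [← map_mul, inv_mul_cancel, map_one]
  -- the unit δ
  have hδ : IsUnit (ρ g - ρ g⁻¹) := by
    have h1 := (Fpf.isUnit_map ρ g⁻¹).mul (h.unit (g * g) hgg)
    have h2 : ρ g⁻¹ * (ρ (g * g) - 1) = ρ g - ρ g⁻¹ := by
      rw [map_mul]; linear_combination (norm := noncomm_ring) haa' * ρ g
    rwa [h2] at h1
  -- traces
  have hgx : g * x ∈ X := X.mul_mem hg hx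
  have hgy : g * y ∈ X := X.mul_mem hg hy
  have e1 : (g * x)⁻¹ = x⁻¹ * g⁻¹ := by group
  have e2 : (g * y)⁻¹ = y⁻¹ * g⁻¹ := by group
  have Ex : (ρ g - ρ g⁻¹) * ρ x = (ρ x + ρ x⁻¹) * ρ g +
      ((ρ g * ρ x + ρ x⁻¹ * ρ g⁻¹) - (ρ g + ρ g⁻¹) * (ρ x + ρ x⁻¹)) := by
    linear_combination (norm := noncomm_ring) cax + caxi + caixi
  have Ey : (ρ g - ρ g⁻¹) * ρ y = (ρ y + ρ y⁻¹) * ρ g +
      ((ρ g * ρ y + ρ y⁻¹ * ρ g⁻¹) - (ρ g + ρ g⁻¹) * (ρ y + ρ y⁻¹)) := by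
    linear_combination (norm := noncomm_ring) cay + cayi + caiyi
  -- commutation of the two right-hand sides
  have T : ∀ w ∈ X, Commute (ρ w + ρ w⁻¹) ((ρ y + ρ y⁻¹) * ρ g +
      ((ρ g * ρ y + ρ y⁻¹ * ρ g⁻¹) - (ρ g + ρ g⁻¹) * (ρ y + ρ y⁻¹))) := by
    intro w hw
    exact commute_aux (hX w hw g hg) (hX w hw g⁻¹ hgi) (hX w hw y hy) (hX w hw y⁻¹ hyi)
  have Tgx := T (g * x) hgx
  rw [e1, map_mul, map_mul] at Tgx
  have ca : Commute (ρ g) ((ρ y + ρ y⁻¹) * ρ g +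
      ((ρ g * ρ y + ρ y⁻¹ * ρ g⁻¹) - (ρ g + ρ g⁻¹) * (ρ y + ρ y⁻¹))) :=
    commute_aux (Commute.refl _) (show ρ g * ρ g⁻¹ = ρ g⁻¹ * ρ g by rw [haa, haa']) cay cayi
  have cP : Commute ((ρ x + ρ x⁻¹) * ρ g +
      ((ρ g * ρ x + ρ x⁻¹ * ρ g⁻¹) - (ρ g + ρ g⁻¹) * (ρ x + ρ x⁻¹)))
      ((ρ y + ρ y⁻¹) * ρ g +
      ((ρ g * ρ y + ρ y⁻¹ * ρ g⁻¹) - (ρ g + ρ g⁻¹) * (ρ y + ρ y⁻¹))) :=
    ((T x hx).mul_left ca).add_left (Tgx.sub_left ((T g hg).mul_left (T x hx)))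
  rw [← Ex, ← Ey] at cP
  have cP' : (ρ g - ρ g⁻¹) * ρ x * ((ρ g - ρ g⁻¹) * ρ y) =
      (ρ g - ρ g⁻¹) * ρ y * ((ρ g - ρ g⁻¹) * ρ x) := cP
  have h5 : (ρ g - ρ g⁻¹) * ((ρ g - ρ g⁻¹) * (ρ x * ρ y - ρ y * ρ x)) = 0 := by
    linear_combination (norm := noncomm_ring) cP' + (ρ g - ρ g⁻¹) * (cax - caix) * ρ y -
      (ρ g - ρ g⁻¹) * (cay - caiy) * ρ x
  have h6 := hδ.mul_right_eq_zero.mp (hδ.mul_right_eq_zero.mp h5)
  apply h.inj
  rw [map_mul, map_mul]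
  exact sub_eq_zero.mp h6

end consequences

end Cfsg.Agent.Lib.Helper16.Zas
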