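import Mathlib
import Cfsg.Agent.Lib.Helper16.ZPlanar

/-!
# Quaternion coordinates: definition (helper16, Zassenhaus project)
-/

set_option autoImplicit false

namespace Cfsg.Agent.Lib.Helper16.Zas

/-- The element with coordinates `α, β, γ, δ` with respect to `1, I, J, I * J`. -/
def q4 {R : Type*} [Ring R] (I J α β γ δ : R) : R := α + β * I + γ * J + δ * (I * J)

end Cfsg.Agent.Lib.Helper16.Zas
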