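import Mathlib
import Cfsg.Agent.Lib.Helper16.ZQDef
import Cfsg.Agent.Lib.Helper16.ZKind
import Cfsg.Agent.Lib.Helper73.Gold
import Cfsg.Agent.Lib.Helper73.Quat4
import Cfsg.Agent.Lib.Helper71.TKind
import Cfsg.Agent.Lib.Helper76.FrameCard
import Cfsg.Agent.Lib.Helper76.TypeCComm
import Cfsg.Agent.Lib.Helper76.FrameTI
import Cfsg.Agent.Lib.Helper78.NotTypeO
import Cfsg.Agent.Lib.Helper71.ZR

/-!
# Lemmas of the Zassenhaus project proved by other seats (helpers 71, 73, 76, 78),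
re-exported under the names used in the files of helper16.
-/

set_option autoImplicit false

namespace Cfsg.Agent.Lib.Helper16.Zas

open Cfsg.Agent.Lib.Helper15

section
variable {R : Type*} [Ring R] {I J h : R}

theorem q4_uniq (hI : I * I = -1) (hJ : J * J = -1) (hJI : J * I = -(I * J)) (h2 : 2 * h = 1)
    {α β γ δ : R} (cα : Cen I J α) (cβ : Cen I J β) (cγ : Cen I J γ) (cδ : Cen I J δ)
    (h0 : q4 I J α β γ δ = 0) : α = 0 ∧ β = 0 ∧ γ = 0 ∧ δ = 0 :=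
  Cfsg.Agent.Lib.Helper73.Quat4.q4_uniq hI hJ hJI h2 cα cβ cγ cδ h0

theorem q4_exists (hI : I * I = -1) (hJ : J * J = -1) (hJI : J * I = -(I * J)) (h2 : 2 * h = 1)
    (X : R) : ∃ α β γ δ : R, Cen I J α ∧ Cen I J β ∧ Cen I J γ ∧ Cen I J δ ∧
      X = q4 I J α β γ δ :=
  Cfsg.Agent.Lib.Helper73.Quat4.q4_exists hI hJ hJI h2 X

theorem q4_mul (hI : I * I = -1) (hJ : J * J = -1) (hJI : J * I = -(I * J))
    (α β γ δ : R) {α' β' γ' δ' : R} (cα : Cen I J α') (cβ : Cen I J β') (cγ : Cen I J γ')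
    (cδ : Cen I J δ') :
    q4 I J α β γ δ * q4 I J α' β' γ' δ' =
      q4 I J (α * α' - β * β' - γ * γ' - δ * δ') (α * β' + β * α' + γ * δ' - δ * γ')
        (α * γ' - β * δ' + γ * α' + δ * β') (α * δ' + β * γ' - γ * β' + δ * α') :=
  Cfsg.Agent.Lib.Helper73.Quat4.q4_mul hI hJ hJI α β γ δ cα cβ cγ cδ
end

theorem gold_nc {R : Type*} [Ring R] (h2 : IsUnit (2 : R)) (h3 : IsUnit (3 : R))
    (t₁ t₂ t₃ : R) (c12 : t₁ * t₂ = t₂ * t₁) (c13 : t₁ * t₃ = t₃ * t₁)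
    (c23 : t₂ * t₃ = t₃ * t₂) (hs : t₁ + t₂ + t₃ = -2)
    (he : t₁ * t₂ + t₂ * t₃ + t₃ * t₁ = 0)
    (k₁ : TKind t₁) (k₂ : TKind t₂) (k₃ : TKind t₃) :
    t₁ = -1 ∨ t₂ = -1 ∨ t₃ = -1 :=
  Cfsg.Agent.Lib.Helper73.Gold.gold_nc h2 h3 t₁ t₂ t₃ c12 c13 c23 hs he k₁ k₂ k₃

theorem tkind_of_order {G : Type*} [Group G] {R : Type*} [Ring R] {ρ : G →* R} (h : Fpf ρ)
    {z g : G} (hz : z ≠ 1) (hzz : z * z = 1) (hgg : g * g ≠ 1)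
    (hg : g ^ 4 = 1 ∨ g ^ 6 = 1 ∨ g ^ 10 = 1) : TKind (ρ g + ρ g⁻¹) :=
  Cfsg.Agent.Lib.Helper71.Zas.tkind_of_order h hz hzz hgg hg

theorem frame_card {G : Type*} [Group G] {z a x j : G} (hz : z ≠ 1) (hzz : z * z = 1)
    (hzc : ∀ g : G, z * g = g * z) (ha : a ≠ 1) (ha3 : a ^ 3 = 1) (f : Frame z a x j) :
    Nat.card (Subgroup.closure ({x, j} : Set G)) = 8 ∧
    Nat.card (Subgroup.closure ({x, j, a} : Set G)) = 24 :=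
  Cfsg.Agent.Lib.Helper76.FC.frame_card hz hzz hzc ha ha3 f

theorem not_typeO {H : Type*} [Group H] [Finite H] {z : H} (hyp : Pl H z) (S : Set H)
    (hS : ∀ s ∈ S, s ^ 3 = 1) (hgen : Subgroup.closure (S ∪ {z}) = ⊤)
    (hcard : Nat.card H = 48)
    (hsz : ∀ y : H, y * y ≠ 1 →
      Nat.card (dcz y) = 4 ∨ Nat.card (dcz y) = 6 ∨ Nat.card (dcz y) = 8)
    (h8 : SC H 8 18 2) : False :=
  Cfsg.Agent.Lib.Helper78.NTO.not_typeO hyp S hS hgen hcard hsz h8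

theorem typeC_comm {H : Type*} [Group H] [Finite H] {z : H} (hyp : Pl H z) {y : H}
    (hy : y * y ≠ 1) (hc : Nat.card H ≤ 2 * Nat.card (dcz y)) {s t : H} (hs : s ^ 3 = 1)
    (ht : t ^ 3 = 1) : s * t = t * s :=
  Cfsg.Agent.Lib.Helper76.TC.typeC_comm hyp hy hc hs ht

theorem frame_T {H : Type*} [Group H] [Finite H] {z : H} (ti : TI H) (hyp : Pl H z) {a : H}
    (ha1 : a ≠ 1) (ha3 : a ^ 3 = 1)
    (hc : {y : H | y * y ≠ 1 ∧ Nat.card (dcz y) = 4}.ncard = 6) :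
    ∃ x j : H, Frame z a x j ∧ ∀ w : H, w * w = z → w ∈ Subgroup.closure ({x, j} : Set H) :=
  Cfsg.Agent.Lib.Helper76.FTI.frame_T ti hyp ha1 ha3 hc

theorem frame_I {H : Type*} [Group H] [Finite H] {z : H} (ti : TI H) (hyp : Pl H z) {a : H}
    (ha1 : a ≠ 1) (ha3 : a ^ 3 = 1)
    (hc : {y : H | y * y ≠ 1 ∧ Nat.card (dcz y) = 4}.ncard = 30) :
    ∃ x j x' j' : H, Frame z a x j ∧ Frame z a x' j' ∧
      x' ∉ Subgroup.closure ({x, j} : Set H) :=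
  Cfsg.Agent.Lib.Helper76.FTI.frame_I ti hyp ha1 ha3 hc

section
variable {R : Type*} [Ring R] {I J h p₂ p₃ q₂ q₃ : R}

theorem zr_B (hI : I * I = -1) (hJ : J * J = -1) (hJI : J * I = -(I * J)) (h2 : 2 * h = 1)
    (hnt : (1 : R) ≠ 0) (cp2 : Cen I J p₂) (cp3 : Cen I J p₃) (cq2 : Cen I J q₂)
    (cq3 : Cen I J q₃) (hp : p₂ + p₃ = h) (hq : q₂ + q₃ = h)
    (hpp : h * h + p₂ * p₂ + p₃ * p₃ = 1) (hqq : h * h + q₂ * q₂ + q₃ * q₃ = 1)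
    (hB : q4 I J 0 h p₂ p₃ * q4 I J 0 q₃ h q₂ + q4 I J 0 q₃ h q₂ * q4 I J 0 h p₂ p₃ = -1) :
    False :=
  Cfsg.Agent.Lib.Helper71.ZR.zr_B hI hJ hJI h2 hnt cp2 cp3 cq2 cq3 hp hq hpp hqq hB

theorem zr_C (hI : I * I = -1) (hJ : J * J = -1) (hJI : J * I = -(I * J)) (h2 : 2 * h = 1)
    (hnt : (1 : R) ≠ 0) (cp2 : Cen I J p₂) (cp3 : Cen I J p₃) (cq2 : Cen I J q₂)
    (cq3 : Cen I J q₃) (hp : p₂ + p₃ = h) (hq : q₂ + q₃ = h)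
    (hpp : h * h + p₂ * p₂ + p₃ * p₃ = 1) (hqq : h * h + q₂ * q₂ + q₃ * q₃ = 1)
    (hC : q4 I J 0 h p₂ p₃ * q4 I J 0 q₂ q₃ h + q4 I J 0 q₂ q₃ h * q4 I J 0 h p₂ p₃ = -1) :
    False :=
  Cfsg.Agent.Lib.Helper71.ZR.zr_C hI hJ hJI h2 hnt cp2 cp3 cq2 cq3 hp hq hpp hqq hC

theorem zr_A (hI : I * I = -1) (hJ : J * J = -1) (hJI : J * I = -(I * J)) (h2 : 2 * h = 1)
    (hnt : (1 : R) ≠ 0) (cp2 : Cen I J p₂) (cp3 : Cen I J p₃) (cq2 : Cen I J q₂)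
    (cq3 : Cen I J q₃) (hp : p₂ + p₃ = h) (hq : q₂ + q₃ = h)
    (hpp : h * h + p₂ * p₂ + p₃ * p₃ = 1) (hqq : h * h + q₂ * q₂ + q₃ * q₃ = 1)
    (hA : q4 I J 0 h p₂ p₃ * q4 I J 0 h q₂ q₃ + q4 I J 0 h q₂ q₃ * q4 I J 0 h p₂ p₃ = -1) :
    (I - q4 I J 0 h p₂ p₃) * (I - q4 I J 0 h q₂ q₃) *
        ((I - q4 I J 0 h p₂ p₃) * (I - q4 I J 0 h q₂ q₃)) +
      (I - q4 I J 0 h p₂ p₃) * (I - q4 I J 0 h q₂ q₃) + 1 = 0 ∧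
    (I - q4 I J 0 h p₂ p₃) * (I - q4 I J 0 h q₂ q₃) * q4 I J (-h) (-h) (-h) (-h) =
      q4 I J (-h) (-h) (-h) (-h) * ((I - q4 I J 0 h p₂ p₃) * (I - q4 I J 0 h q₂ q₃)) ∧
    (I - q4 I J 0 h p₂ p₃) * (I - q4 I J 0 h q₂ q₃) ≠ q4 I J (-h) (-h) (-h) (-h) ∧
    (I - q4 I J 0 h p₂ p₃) * (I - q4 I J 0 h q₂ q₃) ≠ -1 - q4 I J (-h) (-h) (-h) (-h) :=
  Cfsg.Agent.Lib.Helper71.ZR.zr_A hI hJ hJI h2 hnt cp2 cp3 cq2 cq3 hp hq hpp hqq hA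
end

end Cfsg.Agent.Lib.Helper16.Zas
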