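import Mathlib
import Cfsg.Agent.Lib.Helper16.ZDeps

/-!
# Quaternion coordinates for frames (helper16, Zassenhaus project)
-/

set_option autoImplicit false

namespace Cfsg.Agent.Lib.Helper16.Zas

variable {R : Type*} [Ring R]

/-- Ring-level frame. -/
structure RFrame (I J u : R) : Prop where
  II : I * I = -1
  JJ : J * J = -1
  JI : J * I = -(I * J)
  uu : u * u + u + 1 = 0
  uI : u * I = J * u
  uJ : u * J = I * J * u
  tw : u * I * (u * I) - u * I + 1 = 0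

theorem half_comm {h : R} (h2 : 2 * h = 1) (r : R) : h * r = r * h := by
  have e1 : h * 2 = 1 := by
    have : (2 : R) * h = h * 2 := by noncomm_ring
    rw [← this]; exact h2
  have e2 : (2 : R) * (h * r - r * h) = 0 := by
    linear_combination (norm := noncomm_ring) h2 * r - r * h2
  have e3 : h * r - r * h = 0 := by
    have : h * ((2 : R) * (h * r - r * h)) = h * r - r * h := by
      rw [← mul_assoc, e1, one_mul]
    rw [← this, e2, mul_zero]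
  exact sub_eq_zero.mp e3

theorem cen_of_central {I J c : R} (hc : ∀ r : R, c * r = r * c) : Cen I J c :=
  ⟨hc I, hc J⟩

namespace RFrame
variable {I J u h : R}

theorem two_u (f : RFrame I J u) : 2 * u = -(1 + I + J + I * J) := by
  have E1 := f.tw
  have E2 := f.uI
  have E3 := f.uu
  have E4 := f.II
  have E5 := f.JJ
  have E6 := f.JI
  linear_combination (norm := noncomm_ring)
    (E1 - E2 * (u * I) - J * E3 * I + J * E2 + E5 * u + E6) * (1 + I) + u * E4 - I * E6 + E4 * J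

theorem u_eq (f : RFrame I J u) (h2 : 2 * h = 1) : u = q4 I J (-h) (-h) (-h) (-h) := by
  have e1 : h * 2 = 1 := (half_comm h2 2).trans h2
  have e2 := f.two_u
  unfold q4
  linear_combination (norm := noncomm_ring) h * e2 - e1 * u

theorem u_comm (f : RFrame I J u) (h2 : 2 * h = 1) {p : R} (c : Cen I J p) : u * p = p * u := by
  have hh := half_comm h2 p
  rw [f.u_eq h2]
  unfold q4
  linear_combination (norm := noncomm_ring) -hh - hh * I + h * c.1 - hh * J + h * c.2 -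
    hh * (I * J) + h * (c.1 * J + I * c.2)

theorem uK (f : RFrame I J u) : u * (I * J) = I * u := by
  linear_combination (norm := noncomm_ring) f.uI * J + J * f.uJ + f.JI * J * u - I * f.JJ * u

theorem u_inv (f : RFrame I J u) : u * (-1 - u) = 1 := by
  linear_combination (norm := noncomm_ring) (-1 : R) * f.uu

theorem cancel_u (f : RFrame I J u) {X : R} (hX : X * u = 0) : X = 0 := by
  have : X = X * u * (-1 - u) := by rw [mul_assoc, f.u_inv, mul_one]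
  rw [this, hX, zero_mul]

end RFrame

/-- Coordinates of a second frame of the same element with respect to the first. -/
theorem frame_coords {I J u I' J' h h₃ : R} (f : RFrame I J u) (f' : RFrame I' J' u)
    (h2 : 2 * h = 1) (h3 : 3 * h₃ = 1) :
    ∃ p₁ p₂ p₃ : R, Cen I J p₁ ∧ Cen I J p₂ ∧ Cen I J p₃ ∧ p₁ * p₂ = p₂ * p₁ ∧
      p₁ * p₃ = p₃ * p₁ ∧ p₂ * p₃ = p₃ * p₂ ∧ p₁ + p₂ + p₃ = 1 ∧
      p₁ * p₁ + p₂ * p₂ + p₃ * p₃ = 1 ∧ I' = q4 I J 0 p₁ p₂ p₃ ∧ J' = q4 I J 0 p₃ p₁ p₂ ∧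
      I' * J' = q4 I J 0 p₂ p₃ p₁ := by
  obtain ⟨p₀, p₁, p₂, p₃, c0, c1, c2, c3, hI'⟩ := q4_exists f.II f.JJ f.JI h2 I'
  have u0 := f.u_comm h2 c0
  have u1 := f.u_comm h2 c1
  have u2 := f.u_comm h2 c2
  have u3 := f.u_comm h2 c3
  have hJ' : J' = q4 I J p₀ p₃ p₁ p₂ := by
    have e : (J' - q4 I J p₀ p₃ p₁ p₂) * u = 0 := by
      rw [sub_mul, ← f'.uI, hI']
      unfold q4
      linear_combination (norm := noncomm_ring) u0 + u1 * I + p₁ * f.uI + u2 * J + p₂ * f.uJ +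
        u3 * (I * J) + p₃ * f.uK
    exact sub_eq_zero.mp (f.cancel_u e)
  have hK' : I' * J' = q4 I J p₀ p₂ p₃ p₁ := by
    have e : (I' * J' - q4 I J p₀ p₂ p₃ p₁) * u = 0 := by
      rw [sub_mul, ← f'.uJ, hJ']
      unfold q4
      linear_combination (norm := noncomm_ring) u0 + u3 * I + p₃ * f.uI + u1 * J + p₁ * f.uJ +
        u2 * (I * J) + p₂ * f.uK
    exact sub_eq_zero.mp (f.cancel_u e)
  have e0 : q4 I J (p₀ + p₀ + p₀) (p₁ + p₃ + p₂ - 1) (p₂ + p₁ + p₃ - 1) (p₃ + p₂ + p₁ - 1) = 0 := by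
    have e1 := f.two_u
    have e2 := f'.two_u
    have a1 : I' + J' + I' * J' = I + J + I * J := by
      linear_combination (norm := noncomm_ring) e2 - e1
    rw [hK', hJ', hI'] at a1
    unfold q4 at a1 ⊢
    linear_combination (norm := noncomm_ring) a1
  obtain ⟨z0, z1, -, -⟩ := q4_uniq f.II f.JJ f.JI h2 ((c0.add c0).add c0)
    (((c1.add c3).add c2).sub Cen.one) (((c2.add c1).add c3).sub Cen.one)
    (((c3.add c2).add c1).sub Cen.one) e0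
  have hp0 : p₀ = 0 := by
    have e3 : h₃ * 3 = 1 := by
      have : (3 : R) * h₃ = h₃ * 3 := by noncomm_ring
      rw [← this]; exact h3
    have : p₀ = h₃ * 3 * p₀ := by rw [e3, one_mul]
    rw [this]
    linear_combination (norm := noncomm_ring) h₃ * z0
  subst hp0
  have hsum : p₁ + p₂ + p₃ = 1 := by linear_combination (norm := noncomm_ring) z1
  have hsq := f'.II
  rw [hI', q4_mul f.II f.JJ f.JI 0 p₁ p₂ p₃ Cen.zero c1 c2 c3] at hsq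
  have e4 : q4 I J (0 * 0 - p₁ * p₁ - p₂ * p₂ - p₃ * p₃ + 1) (0 * p₁ + p₁ * 0 + p₂ * p₃ - p₃ * p₂)
      (0 * p₂ - p₁ * p₃ + p₂ * 0 + p₃ * p₁) (0 * p₃ + p₁ * p₂ - p₂ * p₁ + p₃ * 0) = 0 := by
    unfold q4 at hsq ⊢
    linear_combination (norm := noncomm_ring) hsq
  obtain ⟨y0, y1, y2, y3⟩ := q4_uniq f.II f.JJ f.JI h2
    (((((Cen.zero.mul Cen.zero).sub (c1.mul c1)).sub (c2.mul c2)).sub (c3.mul c3)).add Cen.one)
    ((((Cen.zero.mul c1).add (c1.mul Cen.zero)).add (c2.mul c3)).sub (c3.mul c2))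
    ((((Cen.zero.mul c2).sub (c1.mul c3)).add (c2.mul Cen.zero)).add (c3.mul c1))
    ((((Cen.zero.mul c3).add (c1.mul c2)).sub (c2.mul c1)).add (c3.mul Cen.zero)) e4
  refine ⟨p₁, p₂, p₃, c1, c2, c3, ?_, ?_, ?_, hsum, ?_, hI', hJ', hK'⟩
  · linear_combination (norm := noncomm_ring) y3
  · linear_combination (norm := noncomm_ring) (-1 : R) * y2
  · linear_combination (norm := noncomm_ring) y1
  · linear_combination (norm := noncomm_ring) (-1 : R) * y0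

section planar5

variable {I J p₁ p₂ p₃ : R}

/-- Elements commuting with `I`, `J` and the coordinates `p₁, p₂, p₃`. -/
def Z5 (I J p₁ p₂ p₃ q : R) : Prop :=
  Cen I J q ∧ q * p₁ = p₁ * q ∧ q * p₂ = p₂ * q ∧ q * p₃ = p₃ * q

theorem Z5.add {q r : R} (hq : Z5 I J p₁ p₂ p₃ q) (hr : Z5 I J p₁ p₂ p₃ r) :
    Z5 I J p₁ p₂ p₃ (q + r) :=
  ⟨hq.1.add hr.1, by rw [add_mul, mul_add, hq.2.1, hr.2.1],
    by rw [add_mul, mul_add, hq.2.2.1, hr.2.2.1], by rw [add_mul, mul_add, hq.2.2.2, hr.2.2.2]⟩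

theorem Z5.neg {q : R} (hq : Z5 I J p₁ p₂ p₃ q) : Z5 I J p₁ p₂ p₃ (-q) :=
  ⟨hq.1.neg, by rw [neg_mul, mul_neg, hq.2.1], by rw [neg_mul, mul_neg, hq.2.2.1],
    by rw [neg_mul, mul_neg, hq.2.2.2]⟩

theorem Z5.sub {q r : R} (hq : Z5 I J p₁ p₂ p₃ q) (hr : Z5 I J p₁ p₂ p₃ r) :
    Z5 I J p₁ p₂ p₃ (q - r) := by
  rw [sub_eq_add_neg]; exact hq.add hr.neg

theorem Z5.mul {q r : R} (hq : Z5 I J p₁ p₂ p₃ q) (hr : Z5 I J p₁ p₂ p₃ r) :
    Z5 I J p₁ p₂ p₃ (q * r) :=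
  ⟨hq.1.mul hr.1, by rw [mul_assoc, hr.2.1, ← mul_assoc, hq.2.1, mul_assoc],
    by rw [mul_assoc, hr.2.2.1, ← mul_assoc, hq.2.2.1, mul_assoc],
    by rw [mul_assoc, hr.2.2.2, ← mul_assoc, hq.2.2.2, mul_assoc]⟩

/-- Coordinates allowed for generators. -/
def Cs (I J p₁ p₂ p₃ s : R) : Prop :=
  Z5 I J p₁ p₂ p₃ s ∧ ∀ q : R, Z5 I J p₁ p₂ p₃ q → q * s = s * q

theorem Cs.neg {s : R} (hs : Cs I J p₁ p₂ p₃ s) : Cs I J p₁ p₂ p₃ (-s) :=
  ⟨hs.1.neg, fun q hq => by rw [mul_neg, neg_mul, hs.2 q hq]⟩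

theorem cs_central {c : R} (hc : ∀ r : R, c * r = r * c) : Cs I J p₁ p₂ p₃ c :=
  ⟨⟨⟨hc I, hc J⟩, hc p₁, hc p₂, hc p₃⟩, fun q _ => (hc q).symm⟩

theorem cs_zero : Cs I J p₁ p₂ p₃ (0 : R) := cs_central (fun r => by simp)

theorem cs_one : Cs I J p₁ p₂ p₃ (1 : R) := cs_central (fun r => by simp)

/-- The pair relation for the five-generator group. -/
def Gam5 (I J p₁ p₂ p₃ X X' : R) : Prop :=
  ∃ α β γ δ : R, Z5 I J p₁ p₂ p₃ α ∧ Z5 I J p₁ p₂ p₃ β ∧ Z5 I J p₁ p₂ p₃ γ ∧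
    Z5 I J p₁ p₂ p₃ δ ∧ X = q4 I J α β γ δ ∧ X' = q4 I J α (-β) (-γ) (-δ)

theorem gam5_one : Gam5 I J p₁ p₂ p₃ 1 1 :=
  ⟨1, 0, 0, 0, cs_one.1, cs_zero.1, cs_zero.1, cs_zero.1, by simp [q4], by simp [q4]⟩

theorem gam5_mul (hI : I * I = -1) (hJ : J * J = -1) (hJI : J * I = -(I * J)) {X X' s₀ s₁ s₂ s₃ : R}
    (hX : Gam5 I J p₁ p₂ p₃ X X') (c0 : Cs I J p₁ p₂ p₃ s₀) (c1 : Cs I J p₁ p₂ p₃ s₁)
    (c2 : Cs I J p₁ p₂ p₃ s₂) (c3 : Cs I J p₁ p₂ p₃ s₃) :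
    Gam5 I J p₁ p₂ p₃ (X * q4 I J s₀ s₁ s₂ s₃) (q4 I J s₀ (-s₁) (-s₂) (-s₃) * X') := by
  obtain ⟨α, β, γ, δ, zα, zβ, zγ, zδ, rfl, rfl⟩ := hX
  refine ⟨α * s₀ - β * s₁ - γ * s₂ - δ * s₃, α * s₁ + β * s₀ + γ * s₃ - δ * s₂,
    α * s₂ - β * s₃ + γ * s₀ + δ * s₁, α * s₃ + β * s₂ - γ * s₁ + δ * s₀, ?_, ?_, ?_, ?_, ?_, ?_⟩
  · exact (((zα.mul c0.1).sub (zβ.mul c1.1)).sub (zγ.mul c2.1)).sub (zδ.mul c3.1)
  · exact (((zα.mul c1.1).add (zβ.mul c0.1)).add (zγ.mul c3.1)).sub (zδ.mul c2.1)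
  · exact (((zα.mul c2.1).sub (zβ.mul c3.1)).add (zγ.mul c0.1)).add (zδ.mul c1.1)
  · exact (((zα.mul c3.1).add (zβ.mul c2.1)).sub (zγ.mul c1.1)).add (zδ.mul c0.1)
  · exact q4_mul hI hJ hJI α β γ δ c0.1.1 c1.1.1 c2.1.1 c3.1.1
  · rw [q4_mul hI hJ hJI s₀ (-s₁) (-s₂) (-s₃) zα.1 zβ.1.neg zγ.1.neg zδ.1.neg]
    have a0 := c0.2 α zα
    have a1 := c1.2 α zα
    have a2 := c2.2 α zα
    have a3 := c3.2 α zα
    have b0 := c0.2 β zβ
    have b1 := c1.2 β zβ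
    have b2 := c2.2 β zβ
    have b3 := c3.2 β zβ
    have g0 := c0.2 γ zγ
    have g1 := c1.2 γ zγ
    have g2 := c2.2 γ zγ
    have g3 := c3.2 γ zγ
    have d0 := c0.2 δ zδ
    have d1 := c1.2 δ zδ
    have d2 := c2.2 δ zδ
    have d3 := c3.2 δ zδ
    have e0 : s₀ * α - -s₁ * -β - -s₂ * -γ - -s₃ * -δ = α * s₀ - β * s₁ - γ * s₂ - δ * s₃ := by
      linear_combination (norm := noncomm_ring) -a0 + b1 + g2 + d3
    have e1 : s₀ * -β + -s₁ * α + -s₂ * -δ - -s₃ * -γ = -(α * s₁ + β * s₀ + γ * s₃ - δ * s₂) := by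
      linear_combination (norm := noncomm_ring) b0 + a1 - d2 + g3
    have e2 : s₀ * -γ - -s₁ * -δ + -s₂ * α + -s₃ * -β = -(α * s₂ - β * s₃ + γ * s₀ + δ * s₁) := by
      linear_combination (norm := noncomm_ring) g0 + d1 + a2 - b3
    have e3 : s₀ * -δ + -s₁ * -γ - -s₂ * -β + -s₃ * α = -(α * s₃ + β * s₂ - γ * s₁ + δ * s₀) := by
      linear_combination (norm := noncomm_ring) d0 - g1 + b2 + a3
    rw [e0, e1, e2, e3]

theorem z5_comm_q4 {t s₀ s₁ s₂ s₃ : R} (ct : Cen I J t) (e0 : t * s₀ = s₀ * t)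
    (e1 : t * s₁ = s₁ * t) (e2 : t * s₂ = s₂ * t) (e3 : t * s₃ = s₃ * t) :
    t * q4 I J s₀ s₁ s₂ s₃ = q4 I J s₀ s₁ s₂ s₃ * t := by
  unfold q4
  linear_combination (norm := noncomm_ring) e0 + e1 * I + s₁ * ct.1 + e2 * J + s₂ * ct.2 +
    e3 * (I * J) + s₃ * (ct.1 * J + I * ct.2)

end planar5

/-- Two frames of the same element generate a planar subgroup. -/
theorem planar5 {G : Type*} [Group G] (ρ : G →* R) {x j x' j' a : G} {p₁ p₂ p₃ h : R}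
    (hI : ρ x * ρ x = -1) (hJ : ρ j * ρ j = -1) (hJI : ρ j * ρ x = -(ρ x * ρ j))
    (h2 : 2 * h = 1) (c1 : Cen (ρ x) (ρ j) p₁) (c2 : Cen (ρ x) (ρ j) p₂)
    (c3 : Cen (ρ x) (ρ j) p₃) (c12 : p₁ * p₂ = p₂ * p₁) (c13 : p₁ * p₃ = p₃ * p₁)
    (c23 : p₂ * p₃ = p₃ * p₂) (hx' : ρ x' = q4 (ρ x) (ρ j) 0 p₁ p₂ p₃)
    (hj' : ρ j' = q4 (ρ x) (ρ j) 0 p₃ p₁ p₂) (ha : ρ a = q4 (ρ x) (ρ j) (-h) (-h) (-h) (-h))
    (hxi : ρ x⁻¹ = -ρ x) (hji : ρ j⁻¹ = -ρ j) (hx'i : ρ x'⁻¹ = -ρ x') (hj'i : ρ j'⁻¹ = -ρ j')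
    (hai : ρ a⁻¹ = -1 - ρ a) :
    PlanarOn ρ (Subgroup.closure {x, j, x', j', a}) := by
  have hh := half_comm h2
  have s0 : Cs (ρ x) (ρ j) p₁ p₂ p₃ (0 : R) := cs_zero
  have s1 : Cs (ρ x) (ρ j) p₁ p₂ p₃ (1 : R) := cs_one
  have sh : Cs (ρ x) (ρ j) p₁ p₂ p₃ h := cs_central hh
  have sp1 : Cs (ρ x) (ρ j) p₁ p₂ p₃ p₁ := ⟨⟨c1, rfl, c12, c13⟩, fun q hq => hq.2.1⟩
  have sp2 : Cs (ρ x) (ρ j) p₁ p₂ p₃ p₂ := ⟨⟨c2, c12.symm, rfl, c23⟩, fun q hq => hq.2.2.1⟩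
  have sp3 : Cs (ρ x) (ρ j) p₁ p₂ p₃ p₃ := ⟨⟨c3, c13.symm, c23.symm, rfl⟩, fun q hq => hq.2.2.2⟩
  -- generators and inverses in coordinates
  have gx : ρ x = q4 (ρ x) (ρ j) 0 1 0 0 := by simp [q4]
  have gxi : ρ x⁻¹ = q4 (ρ x) (ρ j) 0 (-1) (-0) (-0) := by rw [hxi]; simp [q4]
  have gj : ρ j = q4 (ρ x) (ρ j) 0 0 1 0 := by simp [q4]
  have gji : ρ j⁻¹ = q4 (ρ x) (ρ j) 0 (-0) (-1) (-0) := by rw [hji]; simp [q4]
  have gx'i : ρ x'⁻¹ = q4 (ρ x) (ρ j) 0 (-p₁) (-p₂) (-p₃) := by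
    rw [hx'i, hx']; unfold q4; noncomm_ring
  have gj'i : ρ j'⁻¹ = q4 (ρ x) (ρ j) 0 (-p₃) (-p₁) (-p₂) := by
    rw [hj'i, hj']; unfold q4; noncomm_ring
  have gai : ρ a⁻¹ = q4 (ρ x) (ρ j) (-h) (- -h) (- -h) (- -h) := by
    rw [hai, ha]; unfold q4
    linear_combination (norm := noncomm_ring) h2
  have key : ∀ g ∈ Subgroup.closure ({x, j, x', j', a} : Set G),
      Gam5 (ρ x) (ρ j) p₁ p₂ p₃ (ρ g) (ρ g⁻¹) := by
    intro g hg
    induction hg using Subgroup.closure_induction_right with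
    | one => rw [inv_one, map_one]; exact gam5_one
    | mul_right w hw y hy ih =>
      rw [mul_inv_rev, map_mul, map_mul]
      rcases hy with rfl | rfl | rfl | rfl | rfl
      · have := gam5_mul hI hJ hJI ih s0 s1 s0 s0
        rw [← gx, ← gxi] at this; exact this
      · have := gam5_mul hI hJ hJI ih s0 s0 s1 s0
        rw [← gj, ← gji] at this; exact this
      · have := gam5_mul hI hJ hJI ih s0 sp1 sp2 sp3
        rw [← hx', ← gx'i] at this; exact this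
      · have := gam5_mul hI hJ hJI ih s0 sp3 sp1 sp2
        rw [← hj', ← gj'i] at this; exact this
      · have := gam5_mul hI hJ hJI ih sh.neg sh.neg sh.neg sh.neg
        rw [← ha, ← gai] at this; exact this
    | mul_inv_cancel w hw y hy ih =>
      rw [mul_inv_rev, inv_inv, map_mul, map_mul]
      rcases hy with rfl | rfl | rfl | rfl | rfl
      · have := gam5_mul hI hJ hJI ih s0 s1.neg s0.neg s0.neg
        rw [← gxi] at this
        have e : q4 (ρ y) (ρ j) 0 (- -1) (- -0) (- -0) = ρ y := by simp [q4]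
        rw [e] at this; exact this
      · have := gam5_mul hI hJ hJI ih s0 s0.neg s1.neg s0.neg
        rw [← gji] at this
        have e : q4 (ρ x) (ρ y) 0 (- -0) (- -1) (- -0) = ρ y := by simp [q4]
        rw [e] at this; exact this
      · have := gam5_mul hI hJ hJI ih s0 sp1.neg sp2.neg sp3.neg
        rw [← gx'i, neg_neg, neg_neg, neg_neg, ← hx'] at this; exact this
      · have := gam5_mul hI hJ hJI ih s0 sp3.neg sp1.neg sp2.neg
        rw [← gj'i, neg_neg, neg_neg, neg_neg, ← hj'] at this; exact this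
      · have := gam5_mul hI hJ hJI ih sh.neg sh.neg.neg sh.neg.neg sh.neg.neg
        rw [← gai, neg_neg, ← ha] at this; exact this
  intro g hg k hk
  obtain ⟨α, β, γ, δ, zα, -, -, -, e1, e2⟩ := key g hg
  have ht : ρ g + ρ g⁻¹ = α + α := by rw [e1, e2]; unfold q4; noncomm_ring
  rw [ht]
  have zt : Z5 (ρ x) (ρ j) p₁ p₂ p₃ (α + α) := zα.add zα
  have t0 : (α + α) * (0 : R) = 0 * (α + α) := by simp
  have th : (α + α) * (-h) = (-h) * (α + α) := by rw [mul_neg, neg_mul, hh]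
  induction hk using Subgroup.closure_induction with
  | mem y hy =>
    rcases hy with rfl | rfl | rfl | rfl | rfl
    · exact zt.1.1
    · exact zt.1.2
    · rw [hx']; exact z5_comm_q4 zt.1 t0 zt.2.1 zt.2.2.1 zt.2.2.2
    · rw [hj']; exact z5_comm_q4 zt.1 t0 zt.2.2.2 zt.2.1 zt.2.2.1
    · rw [ha]; exact z5_comm_q4 zt.1 th th th th
  | one => rw [map_one, mul_one, one_mul]
  | mul a b _ _ iha ihb =>
    rw [map_mul, ← mul_assoc, iha, mul_assoc, ihb, mul_assoc]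
  | inv a _ iha =>
    have h1 : ρ a⁻¹ * ρ a = 1 := by rw [← map_mul, inv_mul_cancel, map_one]
    have h2 : ρ a * ρ a⁻¹ = 1 := by rw [← map_mul, mul_inv_cancel, map_one]
    linear_combination (norm := noncomm_ring) ρ a⁻¹ * (α + α) * h2 - ρ a⁻¹ * iha * ρ a⁻¹ -
      h1 * (α + α) * ρ a⁻¹

end Cfsg.Agent.Lib.Helper16.Zas
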