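import Mathlib
import Cfsg.Agent.Lib.Helper16.ZQuat

/-!
# Frames in planar subgroups (helper16, Zassenhaus project)
-/

set_option autoImplicit false

namespace Cfsg.Agent.Lib.Helper16.Zas

open Cfsg.Agent.Lib.Helper15

variable {G : Type*} [Group G] {R : Type*} [Ring R] {ρ : G →* R}

theorem pl_of_planar (h : Fpf ρ) {X : Subgroup G} (hX : PlanarOn ρ X) {z : G} (hz : z ≠ 1)
    (hzz : z * z = 1) (hzX : z ∈ X) : Pl X (⟨z, hzX⟩ : X) where
  z_ne := fun e => hz (congrArg Subtype.val e)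
  z_sq := Subtype.ext hzz
  invol := fun g hg => by
    by_cases h1 : g = 1
    · left; exact h1
    · right
      apply Subtype.ext
      exact h.invol_unique hz hzz (fun e => h1 (Subtype.ext e)) (congrArg Subtype.val hg)
  cent_comm := fun g x y hgg hxg hyg =>
    Subtype.ext (hX.cent_comm h g.2 x.2 y.2 (fun e => hgg (Subtype.ext e))
      (congrArg Subtype.val hxg) (congrArg Subtype.val hyg))
  conj_comm := fun g n hc => by
    rcases hX.conj_comm h g.2 n.2 (congrArg Subtype.val hc) with e | e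
    · left; exact Subtype.ext e
    · right; exact Subtype.ext e

namespace Frame

variable {z a x j : G}

theorem kk (f : Frame z a x j) (hzz : z * z = 1) (zc : ∀ g : G, z * g = g * z) :
    (x * j) * (x * j) = z := by
  have e1 : x * j * (x * j) = x * (j * x) * j := by group
  have e2 : x * (z * (x * j)) * j = (x * z) * (x * (j * j)) := by group
  have e3 : z * x * (z * x) = z * (x * z) * x := by group
  have e4 : z * (z * x) * x = (z * z) * (x * x) := by group
  rw [e1, f.jx, e2, f.jj, ← zc x, e3, ← zc x, e4, hzz, one_mul, f.xx]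

theorem jk (f : Frame z a x j) (hzz : z * z = 1) (zc : ∀ g : G, z * g = g * z) :
    j * (x * j) = x := by
  have e1 : j * (x * j) = (j * x) * j := by group
  have e2 : z * (x * j) * j = z * (x * (j * j)) := by group
  have e3 : z * (z * x) = (z * z) * x := by group
  rw [e1, f.jx, e2, f.jj, ← zc x, e3, hzz, one_mul]

theorem rot (f : Frame z a x j) (hzz : z * z = 1) (zc : ∀ g : G, z * g = g * z) :
    Frame z a j (x * j) := by
  refine ⟨f.jj, f.kk hzz zc, ?_, f.aj, ?_⟩
  · have e1 : x * j * j = x * (j * j) := by group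
    rw [e1, f.jj, f.jk hzz zc, zc x]
  · have e1 : a * (x * j) * a⁻¹ = (a * x * a⁻¹) * (a * j * a⁻¹) := by group
    rw [e1, f.ax, f.aj]

theorem conj_mem (f : Frame z a x j) {w : G}
    (hw : w ∈ Subgroup.closure ({x, j} : Set G)) :
    a * w * a⁻¹ ∈ Subgroup.closure ({x, j} : Set G) := by
  induction hw using Subgroup.closure_induction with
  | mem y hy =>
    rcases hy with rfl | rfl
    · rw [f.ax]; exact Subgroup.subset_closure (by simp)
    · rw [f.aj]
      exact Subgroup.mul_mem _ (Subgroup.subset_closure (by simp)) (Subgroup.subset_closure (by simp))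
  | one => simp
  | mul u v _ _ hu hv =>
    have e : a * (u * v) * a⁻¹ = (a * u * a⁻¹) * (a * v * a⁻¹) := by group
    rw [e]; exact Subgroup.mul_mem _ hu hv
  | inv u _ hu =>
    have e : a * u⁻¹ * a⁻¹ = (a * u * a⁻¹)⁻¹ := by group
    rw [e]; exact Subgroup.inv_mem _ hu

theorem conj_mem' (f : Frame z a x j) (hzz : z * z = 1) (zc : ∀ g : G, z * g = g * z) {w : G}
    (hw : w ∈ Subgroup.closure ({x, j} : Set G)) :
    a⁻¹ * w * a ∈ Subgroup.closure ({x, j} : Set G) := by
  have hx : x ∈ Subgroup.closure ({x, j} : Set G) := Subgroup.subset_closure (by simp)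
  have hj : j ∈ Subgroup.closure ({x, j} : Set G) := Subgroup.subset_closure (by simp)
  induction hw using Subgroup.closure_induction with
  | mem y hy =>
    rcases hy with rfl | rfl
    · have e : a⁻¹ * y * a = y * j := by
        have e1 := (f.rot hzz zc).aj
        rw [f.jk hzz zc] at e1
        calc a⁻¹ * y * a = a⁻¹ * (a * (y * j) * a⁻¹) * a := by rw [e1]
          _ = y * j := by group
      rw [e]; exact Subgroup.mul_mem _ hx hj
    · have e : a⁻¹ * y * a = x := by
        calc a⁻¹ * y * a = a⁻¹ * (a * x * a⁻¹) * a := by rw [f.ax]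
          _ = x := by group
      rw [e]; exact hx
  | one => simp
  | mul u v _ _ hu hv =>
    have e : a⁻¹ * (u * v) * a = (a⁻¹ * u * a) * (a⁻¹ * v * a) := by group
    rw [e]; exact Subgroup.mul_mem _ hu hv
  | inv u _ hu =>
    have e : a⁻¹ * u⁻¹ * a = (a⁻¹ * u * a)⁻¹ := by group
    rw [e]; exact Subgroup.inv_mem _ hu

end Frame

/-- Classification of a planar subgroup generated by elements of order three: frames. -/
theorem planar_frames [Finite G] (h : Fpf ρ) {X : Subgroup G} (hX : PlanarOn ρ X) {z a c : G}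
    (hz : z ≠ 1) (hzz : z * z = 1) (hzX : z ∈ X) (haX : a ∈ X) (hcX : c ∈ X)
    (ha3 : a ^ 3 = 1) (hc3 : c ^ 3 = 1) (hac : a * c ≠ c * a)
    (hgen : X ≤ Subgroup.closure ({s : G | s ∈ X ∧ s ^ 3 = 1} ∪ {z})) :
    (Nat.card X = 24 ∧ ∃ x j : G, x ∈ X ∧ j ∈ X ∧ Frame z a x j ∧
      ∀ w ∈ X, w * w = z → w ∈ Subgroup.closure ({x, j} : Set G)) ∨
    (Nat.card X = 120 ∧ (∃ x j x' j' : G, x ∈ X ∧ j ∈ X ∧ x' ∈ X ∧ j' ∈ X ∧ Frame z a x j ∧
      Frame z a x' j' ∧ x' ∉ Subgroup.closure ({x, j} : Set G)) ∧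
      ∀ g ∈ X, g * g ≠ 1 → g ^ 4 = 1 ∨ g ^ 6 = 1 ∨ g ^ 10 = 1) := by
  have hyp : Pl X (⟨z, hzX⟩ : X) := pl_of_planar h hX hz hzz hzX
  have ha1 : (⟨a, haX⟩ : X) ≠ 1 := by
    intro e
    have : a = 1 := congrArg Subtype.val e
    apply hac; rw [this]; simp
  have ha3' : (⟨a, haX⟩ : X) ^ 3 = 1 := Subtype.ext (by simpa using ha3)
  have hc3' : (⟨c, hcX⟩ : X) ^ 3 = 1 := Subtype.ext (by simpa using hc3)
  have tr : ∀ x j : X, Frame (⟨z, hzX⟩ : X) ⟨a, haX⟩ x j → Frame z a x.1 j.1 := by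
    intro x j f
    exact ⟨congrArg Subtype.val f.xx, congrArg Subtype.val f.jj, congrArg Subtype.val f.jx,
      congrArg Subtype.val f.ax, congrArg Subtype.val f.aj⟩
  have cl : ∀ (S : Set X) (w : X),
      w ∈ Subgroup.closure S ↔ w.1 ∈ Subgroup.closure (X.subtype '' S) := by
    intro S w
    rw [← MonoidHom.map_closure]
    exact (Subgroup.mem_map_iff_mem X.subtype_injective).symm
  rcases hyp.classify with h1 | ⟨y, hy, hc⟩ | ⟨hcard, hsz, h4⟩ | ⟨hcard, hsz, h4, h6, h8⟩ |
    ⟨hcard, hsz, h4, h6, h10⟩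
  · exfalso
    apply ha1
    have e := h1 ⟨a, haX⟩
    have e3 : (⟨a, haX⟩ : X) ^ 3 = ⟨a, haX⟩ * ⟨a, haX⟩ * ⟨a, haX⟩ := by simp [pow_succ]
    rw [e3, e, one_mul] at ha3'
    exact ha3'
  · exfalso
    have := typeC_comm hyp hy hc ha3' hc3'
    exact hac (congrArg Subtype.val this)
  · left
    refine ⟨hcard, ?_⟩
    have ti : TI X := ⟨fun y hy => (hsz y hy).imp id Or.inl,
      fun y hy h4' => by rw [h4.2 y hy h4'],
      fun P => sylow_card8 (r := 3) (by rw [hcard]) (by norm_num) P⟩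
    obtain ⟨x, j, f, hw⟩ := frame_T ti hyp ha1 ha3' h4.1
    refine ⟨x.1, j.1, x.2, j.2, tr x j f, ?_⟩
    intro w hwX hww
    have := hw ⟨w, hwX⟩ (Subtype.ext hww)
    rw [cl] at this
    simpa [Set.image_pair] using this
  · exfalso
    apply not_typeO hyp {s : X | s ^ 3 = 1} (fun s hs => hs) ?_ hcard hsz h8
    rw [eq_top_iff]
    intro g _
    rw [cl]
    apply Subgroup.closure_mono ?_ (hgen g.2)
    rintro s (⟨hsX, hs3⟩ | rfl)
    · exact ⟨⟨s, hsX⟩, Or.inl (Subtype.ext (by simpa using hs3)), rfl⟩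
    · exact ⟨⟨s, hzX⟩, Or.inr rfl, rfl⟩
  · right
    refine ⟨hcard, ?_, ?_⟩
    · have ti : TI X := ⟨hsz, fun y hy h4' => by rw [h4.2 y hy h4'],
        fun P => sylow_card8 (r := 15) (by rw [hcard]) (by norm_num) P⟩
      obtain ⟨x, j, x', j', f, f', hne⟩ := frame_I ti hyp ha1 ha3' h4.1
      refine ⟨x.1, j.1, x'.1, j'.1, x.2, j.2, x'.2, j'.2, tr x j f, tr x' j' f', ?_⟩
      intro hmem
      apply hne
      rw [cl]
      simpa [Set.image_pair] using hmem
    · intro g hg hgg
      have hgg' : (⟨g, hg⟩ : X) * ⟨g, hg⟩ ≠ 1 := fun e => hgg (congrArg Subtype.val e)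
      have hpow : (⟨g, hg⟩ : X) ^ Nat.card (dcz (⟨g, hg⟩ : X)) = 1 := by
        have h := orderOf_dvd_natCard (⟨⟨g, hg⟩, self_mem_dcz _⟩ : dcz (⟨g, hg⟩ : X))
        rw [Subgroup.orderOf_mk] at h
        exact orderOf_dvd_iff_pow_eq_one.mp h
      rcases hsz _ hgg' with e | e | e <;> rw [e] at hpow
      · left; simpa using congrArg Subtype.val hpow
      · right; left; simpa using congrArg Subtype.val hpow
      · right; right; simpa using congrArg Subtype.val hpow

end Cfsg.Agent.Lib.Helper16.Zas
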