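import Mathlib
import Cfsg.Agent.Lib.Helper16.ZFrames

/-!
# At most two blocks of frames (helper16, Zassenhaus project)
-/

set_option autoImplicit false

namespace Cfsg.Agent.Lib.Helper16.Zas

open Cfsg.Agent.Lib.Helper15

variable {G : Type*} [Group G] {R : Type*} [Ring R] {ρ : G →* R}

theorem Frame.a_ne {z a x j : G} (f : Frame z a x j) (hz : z ≠ 1) (hzz : z * z = 1) :
    a * x * z ≠ 1 := by
  intro e
  -- then a commutes with x, so j = x
  have e1 : a = (x * z)⁻¹ := by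
    rw [mul_assoc] at e
    exact eq_inv_of_mul_eq_one_left e
  have e2 : a * x * a⁻¹ = x := by
    rw [e1]
    have zx : z = x * x := f.xx.symm
    rw [zx]; group
  have e3 : j = x := by rw [← f.ax, e2]
  have e4 := f.jx
  rw [e3, f.xx, hzz] at e4
  exact hz e4

theorem rframe_of_frame (h : Fpf ρ) {z a x j : G} (hz : z ≠ 1) (hzz : z * z = 1)
    (ha : a ≠ 1) (ha3 : a ^ 3 = 1) (f : Frame z a x j) : RFrame (ρ x) (ρ j) (ρ a) := by
  have hzr := h.neg_one hz hzz
  have E4 : ρ x * ρ x = -1 := by rw [← map_mul, f.xx, hzr]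
  have E5 : ρ j * ρ j = -1 := by rw [← map_mul, f.jj, hzr]
  have E6 : ρ j * ρ x = -(ρ x * ρ j) := by
    rw [← map_mul, f.jx, map_mul, hzr, map_mul]; noncomm_ring
  have E3 : ρ a * ρ a + ρ a + 1 = 0 := h.order3 ha ha3
  have E2 : ρ a * ρ x = ρ j * ρ a := by
    rw [← map_mul, ← map_mul]; congr 1; rw [← f.ax]; group
  have E7 : ρ a * ρ j = ρ x * ρ j * ρ a := by
    rw [← map_mul, ← map_mul, ← map_mul]; congr 1; rw [← f.aj]; group
  have EK : ρ a * (ρ x * ρ j) = ρ x * ρ a := by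
    linear_combination (norm := noncomm_ring) E2 * ρ j + ρ j * E7 + E6 * ρ j * ρ a -
      ρ x * E5 * ρ a
  have cube : ρ a * ρ x * (ρ a * ρ x) * (ρ a * ρ x) + 1 = 0 := by
    linear_combination (norm := noncomm_ring) E2 * (ρ a * ρ x) * (ρ a * ρ x) +
      ρ j * ρ a * E2 * (ρ a * ρ x) + ρ j * ρ a * ρ j * ρ a * E2 +
      ρ j * E7 * (ρ a * ρ j) * ρ a + ρ j * ρ x * ρ j * ρ a * E7 * ρ a +
      ρ j * ρ x * ρ j * EK * ρ a * ρ a + ρ j * ρ x * ρ j * ρ x * (ρ a - 1) * E3 + E4 -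
      ρ x * E5 * ρ x + E6 * ρ j * ρ x
  have hu : IsUnit (ρ a * ρ x + 1) := by
    have h1 := h.unit (a * x * z) (f.a_ne hz hzz)
    rw [map_mul, map_mul, hzr] at h1
    have h2 : ρ a * ρ x * -1 - 1 = -(ρ a * ρ x + 1) := by noncomm_ring
    rw [h2] at h1
    exact (IsUnit.neg_iff _).mp h1
  have tw : (ρ a * ρ x + 1) * (ρ a * ρ x * (ρ a * ρ x) - ρ a * ρ x + 1) = 0 := by
    linear_combination (norm := noncomm_ring) cube
  exact ⟨E4, E5, E6, E3, E2, E7, hu.mul_right_eq_zero.mp tw⟩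

theorem rho_inv_sq (h : Fpf ρ) {z x : G} (hz : z ≠ 1) (hzz : z * z = 1) (hxx : x * x = z) :
    ρ x⁻¹ = -ρ x := by
  have E4 : ρ x * ρ x = -1 := by rw [← map_mul, hxx, h.neg_one hz hzz]
  have e : ρ x⁻¹ * ρ x = 1 := by rw [← map_mul, inv_mul_cancel, map_one]
  linear_combination (norm := noncomm_ring) ρ x⁻¹ * E4 - e * ρ x

theorem anti_I {I J a b c : R} (hI : I * I = -1) (hJI : J * I = -(I * J)) (ca : Cen I J a)
    (cb : Cen I J b) (cc : Cen I J c) :
    I * q4 I J 0 a b c + q4 I J 0 a b c * I = -(a + a) := by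
  unfold q4
  linear_combination (norm := noncomm_ring) -ca.1 * I - cb.1 * J - cc.1 * (I * J) +
    (a + a) * hI + b * hJI + c * I * hJI

/-- Generators of a frame from the conjugate `x * a * x⁻¹`. -/
theorem frame_gen {z a x j : G} (f : Frame z a x j) (hzz : z * z = 1)
    (zc : ∀ g : G, z * g = g * z) {N : Subgroup G} (haN : a ∈ N) (hzN : z ∈ N)
    (hcN : x * a * x⁻¹ ∈ N) : x ∈ N ∧ j ∈ N := by
  have e : x * j = x * a * x⁻¹ * a⁻¹ * z := by
    have e1 : a * x⁻¹ * a⁻¹ = j⁻¹ := by rw [← f.ax]; group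
    have e2 : j⁻¹ * z = j := by rw [← f.jj]; group
    calc x * j = x * (j⁻¹ * z) := by rw [e2]
      _ = x * (a * x⁻¹ * a⁻¹ * z) := by rw [e1]
      _ = x * a * x⁻¹ * a⁻¹ * z := by group
  have hk : x * j ∈ N := by
    rw [e]; exact N.mul_mem (N.mul_mem hcN (N.inv_mem haN)) hzN
  have hx : x ∈ N := by
    have e1 := (f.rot hzz zc).aj
    rw [f.jk hzz zc] at e1
    rw [← e1]; exact N.mul_mem (N.mul_mem haN hk) (N.inv_mem haN)
  refine ⟨hx, ?_⟩
  rw [← f.ax]; exact N.mul_mem (N.mul_mem haN hx) (N.inv_mem haN)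

theorem inv_cube {a : G} (ha3 : a ^ 3 = 1) : a⁻¹ = a * a := by
  apply inv_eq_of_mul_eq_one_right
  rw [← ha3]; simp [pow_succ, mul_assoc]

/-- Two frames in different blocks generate a group of order `120`. -/
theorem two_frames [Finite G] (h : Fpf ρ) {z a x j x' j' : G} (hz : z ≠ 1) (hzz : z * z = 1)
    (ha : a ≠ 1) (ha3 : a ^ 3 = 1) (f : Frame z a x j) (f' : Frame z a x' j')
    (hne : x' ∉ Subgroup.closure ({x, j} : Set G)) :
    Nat.card (Subgroup.closure ({x, j, x', j', a} : Set G)) = 120 ∧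
    ∀ g ∈ Subgroup.closure ({x, j, x', j', a} : Set G), g * g ≠ 1 →
      g ^ 4 = 1 ∨ g ^ 6 = 1 ∨ g ^ 10 = 1 := by
  have zc : ∀ g : G, z * g = g * z := fun g => (h.invol_central hz hzz g).symm
  have rf := rframe_of_frame h hz hzz ha ha3 f
  have rf' := rframe_of_frame h hz hzz ha ha3 f'
  obtain ⟨u2, hu2⟩ := h.two_unit hz hzz
  obtain ⟨u3, hu3⟩ := h.three_unit ha ha3
  have h2 : (2 : R) * ((u2⁻¹ : Rˣ) : R) = 1 := by rw [← hu2]; exact u2.mul_inv
  have h3 : (3 : R) * ((u3⁻¹ : Rˣ) : R) = 1 := by rw [← hu3]; exact u3.mul_inv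
  obtain ⟨p₁, p₂, p₃, c1, c2, c3, c12, c13, c23, -, -, hI', hJ', -⟩ := frame_coords rf rf' h2 h3
  set L := Subgroup.closure ({x, j, x', j', a} : Set G) with hL
  have hxL : x ∈ L := Subgroup.subset_closure (by simp)
  have hjL : j ∈ L := Subgroup.subset_closure (by simp)
  have hx'L : x' ∈ L := Subgroup.subset_closure (by simp)
  have hj'L : j' ∈ L := Subgroup.subset_closure (by simp)
  have haL : a ∈ L := Subgroup.subset_closure (by simp)
  have hzL : z ∈ L := by rw [← f.xx]; exact L.mul_mem hxL hxL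
  have hai : ρ a⁻¹ = -1 - ρ a := by
    rw [inv_cube ha3, map_mul]
    linear_combination (norm := noncomm_ring) rf.uu
  have hpl : PlanarOn ρ L :=
    planar5 ρ rf.II rf.JJ rf.JI h2 c1 c2 c3 c12 c13 c23 hI' hJ' (rf.u_eq h2)
      (rho_inv_sq h hz hzz f.xx) (rho_inv_sq h hz hzz f.jj) (rho_inv_sq h hz hzz f'.xx)
      (rho_inv_sq h hz hzz f'.jj) hai
  have hcL : x * a * x⁻¹ ∈ L := L.mul_mem (L.mul_mem hxL haL) (L.inv_mem hxL)
  have hc'L : x' * a * x'⁻¹ ∈ L := L.mul_mem (L.mul_mem hx'L haL) (L.inv_mem hx'L)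
  have hc3 : (x * a * x⁻¹) ^ 3 = 1 := by rw [conj_pow, ha3]; group
  have hc'3 : (x' * a * x'⁻¹) ^ 3 = 1 := by rw [conj_pow, ha3]; group
  have hac : a * (x * a * x⁻¹) ≠ (x * a * x⁻¹) * a := by
    intro hc
    have hc' : ρ a * ρ x * ρ a * ρ x = ρ x * ρ a * ρ x * ρ a := by
      have := congrArg ρ hc
      simp only [map_mul, rho_inv_sq h hz hzz f.xx] at this
      linear_combination (norm := noncomm_ring) (-1 : R) * this
    have e1 : ρ a * ρ x = ρ x * ρ a := by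
      linear_combination (norm := noncomm_ring) hc' - rf.tw + rf.II - ρ x * ρ a * rf.II -
        ρ x * rf.tw * ρ x + ρ x * ρ a * ρ x * ρ a * rf.II
    have e2 : (ρ x - ρ j) * ρ a = 0 := by
      linear_combination (norm := noncomm_ring) rf.uI - e1
    have e3 : ρ x = ρ j := sub_eq_zero.mp (rf.cancel_u e2)
    have e4 : (2 : R) = 0 := by
      have := rf.JI
      rw [← e3, rf.II, neg_neg] at this
      have h11 : (1 : R) + 1 = 0 := by
        nth_rewrite 1 [← this]; exact neg_add_cancel 1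
      rw [← one_add_one_eq_two]; exact h11
    rw [e4, zero_mul] at h2
    exact h.nt h2.symm
  have hgen : L ≤ Subgroup.closure ({s : G | s ∈ L ∧ s ^ 3 = 1} ∪ {z}) := by
    set N := Subgroup.closure ({s : G | s ∈ L ∧ s ^ 3 = 1} ∪ {z}) with hN
    have haN : a ∈ N := Subgroup.subset_closure (Or.inl ⟨haL, ha3⟩)
    have hzN : z ∈ N := Subgroup.subset_closure (Or.inr rfl)
    have hcN : x * a * x⁻¹ ∈ N := Subgroup.subset_closure (Or.inl ⟨hcL, hc3⟩)
    have hc'N : x' * a * x'⁻¹ ∈ N := Subgroup.subset_closure (Or.inl ⟨hc'L, hc'3⟩)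
    obtain ⟨hxN, hjN⟩ := frame_gen f hzz zc haN hzN hcN
    obtain ⟨hx'N, hj'N⟩ := frame_gen f' hzz zc haN hzN hc'N
    rw [hL, Subgroup.closure_le]
    rintro s (rfl | rfl | rfl | rfl | rfl)
    · exact hxN
    · exact hjN
    · exact hx'N
    · exact hj'N
    · exact haN
  rcases planar_frames h hpl hz hzz hzL haL hcL ha3 hc3 hac hgen with
    ⟨-, x₀, j₀, -, -, f₀, hw⟩ | ⟨hcard, -, hord⟩
  · exfalso
    apply hne
    have hle : Subgroup.closure ({x, j} : Set G) ≤ Subgroup.closure ({x₀, j₀} : Set G) := by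
      rw [Subgroup.closure_le]
      rintro s (rfl | rfl)
      · exact hw _ hxL f.xx
      · exact hw _ hjL f.jj
    have heq : Subgroup.closure ({x, j} : Set G) = Subgroup.closure ({x₀, j₀} : Set G) :=
      Subgroup.eq_of_le_of_card_ge hle
        (by rw [(frame_card hz hzz zc ha ha3 f).1, (frame_card hz hzz zc ha ha3 f₀).1])
    rw [heq]
    exact hw _ hx'L f'.xx
  · exact ⟨hcard, hord⟩

/-- For two frames in different blocks, one of the products has order three. -/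
theorem g1 [Finite G] (h : Fpf ρ) {z a x j x' j' : G} (hz : z ≠ 1) (hzz : z * z = 1)
    (ha : a ≠ 1) (ha3 : a ^ 3 = 1) (f : Frame z a x j) (f' : Frame z a x' j')
    (hne : x' ∉ Subgroup.closure ({x, j} : Set G)) :
    ρ x * ρ x' + ρ x' * ρ x = -1 ∨ ρ x * ρ j' + ρ j' * ρ x = -1 ∨
      ρ x * ρ (x' * j') + ρ (x' * j') * ρ x = -1 := by
  have zc : ∀ g : G, z * g = g * z := fun g => (h.invol_central hz hzz g).symm
  have rf := rframe_of_frame h hz hzz ha ha3 f
  have rf' := rframe_of_frame h hz hzz ha ha3 f'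
  obtain ⟨u2, hu2⟩ := h.two_unit hz hzz
  obtain ⟨u3, hu3⟩ := h.three_unit ha ha3
  have h2 : (2 : R) * ((u2⁻¹ : Rˣ) : R) = 1 := by rw [← hu2]; exact u2.mul_inv
  have h3 : (3 : R) * ((u3⁻¹ : Rˣ) : R) = 1 := by rw [← hu3]; exact u3.mul_inv
  obtain ⟨p₁, p₂, p₃, c1, c2, c3, c12, c13, c23, hs, hq, hI', hJ', hK'⟩ :=
    frame_coords rf rf' h2 h3
  obtain ⟨-, hord⟩ := two_frames h hz hzz ha ha3 f f' hne
  set L := Subgroup.closure ({x, j, x', j', a} : Set G) with hL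
  set B := Subgroup.closure ({x, j} : Set G) with hB
  have hxL : x ∈ L := Subgroup.subset_closure (by simp)
  have hx'L : x' ∈ L := Subgroup.subset_closure (by simp)
  have hj'L : j' ∈ L := Subgroup.subset_closure (by simp)
  have hxB : x ∈ B := Subgroup.subset_closure (by simp)
  have hzB : z ∈ B := by rw [← f.xx]; exact B.mul_mem hxB hxB
  -- an element `y` with `x * y` an involution or trivial lies in the block
  have key : ∀ y : G, (x * y) * (x * y) = 1 → y ∈ B := by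
    intro y hy
    by_cases h1 : x * y = 1
    · have : y = x⁻¹ := eq_inv_of_mul_eq_one_right h1
      rw [this]; exact B.inv_mem hxB
    · have h2' := h.invol_unique hz hzz h1 hy
      have : y = x⁻¹ * z := by rw [← h2']; group
      rw [this]; exact B.mul_mem (B.inv_mem hxB) hzB
  have n1 : (x * x') * (x * x') ≠ 1 := fun e => hne (key _ e)
  have n2 : (x * j') * (x * j') ≠ 1 := by
    intro e
    apply hne
    have h1 := f.conj_mem' hzz zc (key _ e)
    have h2' : a⁻¹ * j' * a = x' := by rw [← f'.ax]; group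
    rw [h2'] at h1; exact h1
  have n3 : (x * (x' * j')) * (x * (x' * j')) ≠ 1 := by
    intro e
    apply hne
    have h1 := f.conj_mem (key _ e)
    have h2' := (f'.rot hzz zc).aj
    rw [f'.jk hzz zc] at h2'
    rw [h2'] at h1; exact h1
  have k1 := tkind_of_order h hz hzz n1 (hord _ (L.mul_mem hxL hx'L) n1)
  have k2 := tkind_of_order h hz hzz n2 (hord _ (L.mul_mem hxL hj'L) n2)
  have k3 := tkind_of_order h hz hzz n3 (hord _ (L.mul_mem hxL (L.mul_mem hx'L hj'L)) n3)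
  have ix := rho_inv_sq h hz hzz f.xx
  have ix' := rho_inv_sq h hz hzz f'.xx
  have ij' := rho_inv_sq h hz hzz f'.jj
  have ik' := rho_inv_sq h hz hzz (f'.kk hzz zc)
  have t1 : ρ (x * x') + ρ (x * x')⁻¹ = ρ x * ρ x' + ρ x' * ρ x := by
    rw [mul_inv_rev, map_mul, map_mul, ix, ix']; noncomm_ring
  have t2 : ρ (x * j') + ρ (x * j')⁻¹ = ρ x * ρ j' + ρ j' * ρ x := by
    rw [mul_inv_rev, map_mul, map_mul, ix, ij']; noncomm_ring
  have t3 : ρ (x * (x' * j')) + ρ (x * (x' * j'))⁻¹ =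
      ρ x * ρ (x' * j') + ρ (x' * j') * ρ x := by
    rw [mul_inv_rev, map_mul, map_mul ρ _ x⁻¹, ix, ik']; noncomm_ring
  rw [t1] at k1
  rw [t2] at k2
  rw [t3] at k3
  have hK'' : ρ (x' * j') = q4 (ρ x) (ρ j) 0 p₂ p₃ p₁ := by rw [map_mul, hK']
  have a1 : ρ x * ρ x' + ρ x' * ρ x = -(p₁ + p₁) := by
    rw [hI']; exact anti_I rf.II rf.JI c1 c2 c3
  have a2 : ρ x * ρ j' + ρ j' * ρ x = -(p₃ + p₃) := by
    rw [hJ']; exact anti_I rf.II rf.JI c3 c1 c2
  have a3 : ρ x * ρ (x' * j') + ρ (x' * j') * ρ x = -(p₂ + p₂) := by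
    rw [hK'']; exact anti_I rf.II rf.JI c2 c3 c1
  refine gold_nc (h.two_unit hz hzz) (h.three_unit ha ha3) _ _ _ ?_ ?_ ?_ ?_ ?_ k1 k2 k3
  · rw [a1, a2]; linear_combination (norm := noncomm_ring) (4 : R) * c13
  · rw [a1, a3]; linear_combination (norm := noncomm_ring) (4 : R) * c12
  · rw [a2, a3]; linear_combination (norm := noncomm_ring) (-4 : R) * c23
  · rw [a1, a2, a3]; linear_combination (norm := noncomm_ring) (-2 : R) * hs
  · rw [a1, a2, a3]
    linear_combination (norm := noncomm_ring) (2 : R) * (p₁ + p₂ + p₃ + 1) * hs - (2 : R) * hq -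
      (2 : R) * c12 - (2 : R) * c23 + (2 : R) * c13

theorem coords_half {I J u I' J' hh h₃ : R} (rf : RFrame I J u) (rf' : RFrame I' J' u)
    (h2 : 2 * hh = 1) (h3 : 3 * h₃ = 1) (ht : I * I' + I' * I = -1) :
    ∃ r s : R, Cen I J r ∧ Cen I J s ∧ r + s = hh ∧ hh * hh + r * r + s * s = 1 ∧
      I' = q4 I J 0 hh r s ∧ J' = q4 I J 0 s hh r ∧ I' * J' = q4 I J 0 r s hh := by
  obtain ⟨p₁, p₂, p₃, c1, c2, c3, -, -, -, hs, hq, hI', hJ', hK'⟩ := frame_coords rf rf' h2 h3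
  have a1 : I * I' + I' * I = -(p₁ + p₁) := by rw [hI']; exact anti_I rf.II rf.JI c1 c2 c3
  have hp1 : p₁ = hh := by
    have e : p₁ + p₁ = 1 := by
      rw [a1] at ht; linear_combination (norm := noncomm_ring) (-1 : R) * ht
    have e1 : hh * 2 = 1 := (half_comm h2 2).trans h2
    linear_combination (norm := noncomm_ring) hh * e - e1 * p₁
  rw [hp1] at hs hq hI' hJ' hK'
  refine ⟨p₂, p₃, c2, c3, ?_, hq, hI', hJ', hK'⟩
  linear_combination (norm := noncomm_ring) hs - h2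

theorem relabel [Finite G] (h : Fpf ρ) {z a x j x' j' : G} {hh h₃ : R} (h2 : 2 * hh = 1)
    (h3 : 3 * h₃ = 1) (hz : z ≠ 1) (hzz : z * z = 1) (ha : a ≠ 1) (ha3 : a ^ 3 = 1)
    (f : Frame z a x j) (f' : Frame z a x' j')
    (hne : x' ∉ Subgroup.closure ({x, j} : Set G)) :
    ∃ y w : G, Frame z a y w ∧ y ∈ Subgroup.closure ({x', j'} : Set G) ∧
      w ∈ Subgroup.closure ({x', j'} : Set G) ∧ x' ∈ Subgroup.closure ({y, w} : Set G) ∧
      ∃ r s : R, Cen (ρ x) (ρ j) r ∧ Cen (ρ x) (ρ j) s ∧ r + s = hh ∧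
        hh * hh + r * r + s * s = 1 ∧ ρ y = q4 (ρ x) (ρ j) 0 hh r s ∧
        ρ w = q4 (ρ x) (ρ j) 0 s hh r ∧ ρ (y * w) = q4 (ρ x) (ρ j) 0 r s hh := by
  have zc : ∀ g : G, z * g = g * z := fun g => (h.invol_central hz hzz g).symm
  have rf := rframe_of_frame h hz hzz ha ha3 f
  have hx' : x' ∈ Subgroup.closure ({x', j'} : Set G) := Subgroup.subset_closure (by simp)
  have hj' : j' ∈ Subgroup.closure ({x', j'} : Set G) := Subgroup.subset_closure (by simp)
  rcases g1 h hz hzz ha ha3 f f' hne with ht | ht | ht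
  · obtain ⟨r, s, cr, cs, e1, e2, e3, e4, e5⟩ :=
      coords_half rf (rframe_of_frame h hz hzz ha ha3 f') h2 h3 ht
    exact ⟨x', j', f', hx', hj', Subgroup.subset_closure (by simp), r, s, cr, cs, e1, e2, e3, e4,
      by rw [map_mul]; exact e5⟩
  · have f'' := f'.rot hzz zc
    obtain ⟨r, s, cr, cs, e1, e2, e3, e4, e5⟩ :=
      coords_half rf (rframe_of_frame h hz hzz ha ha3 f'') h2 h3 ht
    refine ⟨j', x' * j', f'', hj', Subgroup.mul_mem _ hx' hj', ?_, r, s, cr, cs, e1, e2, e3, e4,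
      by rw [map_mul]; exact e5⟩
    have e : x' = (x' * j') * j'⁻¹ := by group
    rw [e]
    exact Subgroup.mul_mem _ (Subgroup.subset_closure (by simp))
      (Subgroup.inv_mem _ (Subgroup.subset_closure (by simp)))
  · have f'' := (f'.rot hzz zc).rot hzz zc
    rw [f'.jk hzz zc] at f''
    obtain ⟨r, s, cr, cs, e1, e2, e3, e4, e5⟩ :=
      coords_half rf (rframe_of_frame h hz hzz ha ha3 f'') h2 h3 ht
    exact ⟨x' * j', x', f'', Subgroup.mul_mem _ hx' hj', hx', Subgroup.subset_closure (by simp),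
      r, s, cr, cs, e1, e2, e3, e4, by rw [map_mul]; exact e5⟩

/-- There are no three frames of the same element in pairwise different blocks. -/
theorem three_frames [Finite G] (h : Fpf ρ) {z a x j x₂ j₂ x₃ j₃ : G} (hz : z ≠ 1)
    (hzz : z * z = 1) (ha : a ≠ 1) (ha3 : a ^ 3 = 1) (f₁ : Frame z a x j)
    (f₂ : Frame z a x₂ j₂) (f₃ : Frame z a x₃ j₃)
    (h12 : x₂ ∉ Subgroup.closure ({x, j} : Set G))
    (h13 : x₃ ∉ Subgroup.closure ({x, j} : Set G))
    (h23 : x₃ ∉ Subgroup.closure ({x₂, j₂} : Set G)) : False := by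
  have rf := rframe_of_frame h hz hzz ha ha3 f₁
  obtain ⟨u2, hu2⟩ := h.two_unit hz hzz
  obtain ⟨u3, hu3⟩ := h.three_unit ha ha3
  have h2 : (2 : R) * ((u2⁻¹ : Rˣ) : R) = 1 := by rw [← hu2]; exact u2.mul_inv
  have h3 : (3 : R) * ((u3⁻¹ : Rˣ) : R) = 1 := by rw [← hu3]; exact u3.mul_inv
  set hh : R := ((u2⁻¹ : Rˣ) : R) with hhh
  obtain ⟨y₂, w₂, F₂, hy₂, hw₂, -, r₂, s₂, cr₂, cs₂, hp, hpp, ey₂, ew₂, ek₂⟩ :=
    relabel h h2 h3 hz hzz ha ha3 f₁ f₂ h12
  obtain ⟨y₃, w₃, F₃, hy₃, hw₃, hx₃, r₃, s₃, cr₃, cs₃, hq, hqq, ey₃, ew₃, ek₃⟩ :=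
    relabel h h2 h3 hz hzz ha ha3 f₁ f₃ h13
  have h23' : y₃ ∉ Subgroup.closure ({y₂, w₂} : Set G) := by
    intro hmem
    apply h23
    have hle : Subgroup.closure ({y₂, w₂} : Set G) ≤ Subgroup.closure ({x₂, j₂} : Set G) := by
      rw [Subgroup.closure_le]
      rintro s (rfl | rfl)
      · exact hy₂
      · exact hw₂
    have hy : y₃ ∈ Subgroup.closure ({x₂, j₂} : Set G) := hle hmem
    have hw : w₃ ∈ Subgroup.closure ({x₂, j₂} : Set G) := by
      rw [← F₃.ax]; exact f₂.conj_mem hy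
    have hle3 : Subgroup.closure ({y₃, w₃} : Set G) ≤ Subgroup.closure ({x₂, j₂} : Set G) := by
      rw [Subgroup.closure_le]
      rintro s (rfl | rfl)
      · exact hy
      · exact hw
    exact hle3 hx₃
  rcases g1 h hz hzz ha ha3 F₂ F₃ h23' with ht | ht | ht
  · rw [ey₂, ey₃] at ht
    obtain ⟨hW, hcomm, ne1, ne2⟩ :=
      zr_A rf.II rf.JJ rf.JI h2 h.nt cr₂ cs₂ cr₃ cs₃ hp hq hpp hqq ht
    have a2 : ρ x * ρ y₂ + ρ y₂ * ρ x = -1 := by
      rw [ey₂, anti_I rf.II rf.JI (cen_of_central (half_comm h2)) cr₂ cs₂]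
      linear_combination (norm := noncomm_ring) (-1 : R) * h2
    have a3 : ρ x * ρ y₃ + ρ y₃ * ρ x = -1 := by
      rw [ey₃, anti_I rf.II rf.JI (cen_of_central (half_comm h2)) cr₃ cs₃]
      linear_combination (norm := noncomm_ring) (-1 : R) * h2
    have s2 : ρ y₂ * ρ y₂ = -1 := by rw [← map_mul, F₂.xx, h.neg_one hz hzz]
    have s3 : ρ y₃ * ρ y₃ = -1 := by rw [← map_mul, F₃.xx, h.neg_one hz hzz]
    have t2 : ρ (y₂ * x * y₂) = ρ x - ρ y₂ := by
      rw [map_mul, map_mul]; linear_combination (norm := noncomm_ring) ρ y₂ * a2 - s2 * ρ x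
    have t3 : ρ (y₃ * x * y₃) = ρ x - ρ y₃ := by
      rw [map_mul, map_mul]; linear_combination (norm := noncomm_ring) ρ y₃ * a3 - s3 * ρ x
    set g := (y₂ * x * y₂) * (y₃ * x * y₃) with hg
    have eg : ρ g = (ρ x - q4 (ρ x) (ρ j) 0 hh r₂ s₂) * (ρ x - q4 (ρ x) (ρ j) 0 hh r₃ s₃) := by
      rw [hg, map_mul, t2, t3, ey₂, ey₃]
    rw [← eg] at hW hcomm ne1 ne2
    have hg3 : g ^ 3 = 1 := by
      apply h.inj
      rw [map_pow, map_one]
      linear_combination (norm := noncomm_ring) (ρ g - 1) * hW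
    have hg1 : g ≠ 1 := by
      intro e
      rw [e, map_one] at hW
      have e3 : (3 : R) = 0 := by rw [← hW]; norm_num
      rw [e3, zero_mul] at h3
      exact h.nt h3.symm
    have hga : a * g = g * a := by
      apply h.inj
      rw [map_mul ρ a g, map_mul ρ g a, rf.u_eq h2]; exact hcomm.symm
    have hoa : orderOf a = 3 := orderOf_eq_prime ha3 ha
    have hog : orderOf g = 3 := orderOf_eq_prime hg3 hg1
    have hmem := h.mem_zpowers_of_commute Nat.prime_three hoa hog hga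
    obtain ⟨k, hk⟩ := Subgroup.mem_zpowers_iff.mp hmem
    have hk3 : a ^ (3 : ℤ) = 1 := by
      rw [show (3 : ℤ) = ((3 : ℕ) : ℤ) from rfl, zpow_natCast, ha3]
    have hk' : a ^ k = a ^ (k % 3) := by
      conv_lhs => rw [← Int.emod_add_mul_ediv k 3]
      rw [zpow_add, zpow_mul, hk3, one_zpow, mul_one]
    have hcases : k % 3 = 0 ∨ k % 3 = 1 ∨ k % 3 = 2 := by omega
    rcases hcases with e | e | e
    · rw [hk', e, zpow_zero] at hk; exact hg1 hk.symm
    · rw [hk', e, zpow_one] at hk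
      apply ne1
      rw [← hk]; exact rf.u_eq h2
    · rw [hk', e] at hk
      apply ne2
      rw [← hk, zpow_two, map_mul, ← rf.u_eq h2]
      linear_combination (norm := noncomm_ring) rf.uu
  · rw [ey₂, ew₃] at ht
    exact zr_B rf.II rf.JJ rf.JI h2 h.nt cr₂ cs₂ cr₃ cs₃ hp hq hpp hqq ht
  · rw [ey₂, ek₃] at ht
    exact zr_C rf.II rf.JJ rf.JI h2 h.nt cr₂ cs₂ cr₃ cs₃ hp hq hpp hqq ht

end Cfsg.Agent.Lib.Helper16.Zas
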