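import Mathlib
import Cfsg.Agent.Lib.Helper16.ZR

/-!
# Local structure of fixed-point-free groups: the subgroup generated by the elements of
order three (helper16, Zassenhaus project)
-/

set_option autoImplicit false

namespace Cfsg.Agent.Lib.Helper16.Zas

open Cfsg.Agent.Lib.Helper15

section frames

variable {G : Type*} [Group G] {R : Type*} [Ring R] {ρ : G →* R}

/-- The frames of `a` coming from an element of order three not commuting with `a`. -/
theorem frames_of [Finite G] (h : Fpf ρ) {z a c : G} (hz : z ≠ 1) (hzz : z * z = 1)
    (ha3 : a ^ 3 = 1) (hc3 : c ^ 3 = 1) (hac : a * c ≠ c * a) :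
    (∃ x j : G, Frame z a x j ∧ c ∈ Subgroup.closure ({x, j, a} : Set G)) ∨
    (∃ x j x' j' : G, Frame z a x j ∧ Frame z a x' j' ∧
      x' ∉ Subgroup.closure ({x, j} : Set G) ∧
      c ∈ Subgroup.closure ({x, j, x', j', a} : Set G)) := by
  have zc : ∀ g : G, z * g = g * z := fun g => (h.invol_central hz hzz g).symm
  have ha : a ≠ 1 := by rintro rfl; exact hac (by simp)
  have hc : c ≠ 1 := by rintro rfl; exact hac (by simp)
  set X := Subgroup.closure ({a, c, z} : Set G) with hX
  have haX : a ∈ X := Subgroup.subset_closure (by simp)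
  have hcX : c ∈ X := Subgroup.subset_closure (by simp)
  have hzX : z ∈ X := Subgroup.subset_closure (by simp)
  have hzi : z⁻¹ = z := inv_eq_of_mul_eq_one_right hzz
  have hpl : PlanarOn ρ X :=
    planar_pair ρ a c z (h.order3 ha ha3) (h.order3 hc hc3) (inv_cube ha3) (inv_cube hc3)
      (h.neg_one hz hzz) hzi
  have hgen : X ≤ Subgroup.closure ({s : G | s ∈ X ∧ s ^ 3 = 1} ∪ {z}) := by
    rw [hX, Subgroup.closure_le]
    rintro s (rfl | rfl | rfl)
    · exact Subgroup.subset_closure (Or.inl ⟨haX, ha3⟩)
    · exact Subgroup.subset_closure (Or.inl ⟨hcX, hc3⟩)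
    · exact Subgroup.subset_closure (Or.inr rfl)
  rcases planar_frames h hpl hz hzz hzX haX hcX ha3 hc3 hac hgen with
    ⟨hcard, x, j, hx, hj, f, -⟩ | ⟨hcard, ⟨x, j, x', j', hx, hj, hx', hj', f, f', hne⟩, -⟩
  · left
    refine ⟨x, j, f, ?_⟩
    have hle : Subgroup.closure ({x, j, a} : Set G) ≤ X := by
      rw [Subgroup.closure_le]
      rintro s (rfl | rfl | rfl)
      · exact hx
      · exact hj
      · exact haX
    have heq : Subgroup.closure ({x, j, a} : Set G) = X :=
      Subgroup.eq_of_le_of_card_ge hle (by rw [hcard, (frame_card hz hzz zc ha ha3 f).2])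
    rw [heq]; exact hcX
  · right
    refine ⟨x, j, x', j', f, f', hne, ?_⟩
    have hle : Subgroup.closure ({x, j, x', j', a} : Set G) ≤ X := by
      rw [Subgroup.closure_le]
      rintro s (rfl | rfl | rfl | rfl | rfl)
      · exact hx
      · exact hj
      · exact hx'
      · exact hj'
      · exact haX
    have heq : Subgroup.closure ({x, j, x', j', a} : Set G) = X :=
      Subgroup.eq_of_le_of_card_ge hle
        (by rw [hcard, (two_frames h hz hzz ha ha3 f f' hne).1])
    rw [heq]; exact hcX

end frames

/-- If two elements of order three do not commute, the subgroup generated by all elements of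
order three and the involution has order `24` or `120`, and contains a non-abelian subgroup
of order `8`. -/
theorem local_structure {G : Type*} [Group G] [Finite G] {R : Type*} [Ring R] (ρ : G →* R)
    (h : Fpf ρ) {z a b : G} (hz : z ≠ 1)
    (hzz : z * z = 1) (ha : a ^ 3 = 1) (hb : b ^ 3 = 1) (hab : a * b ≠ b * a) :
    (Nat.card (Subgroup.closure ({c : G | c ^ 3 = 1} ∪ {z})) = 24 ∨
      Nat.card (Subgroup.closure ({c : G | c ^ 3 = 1} ∪ {z})) = 120) ∧
    ∃ Q : Subgroup G, Q ≤ Subgroup.closure ({c : G | c ^ 3 = 1} ∪ {z}) ∧ Nat.card Q = 8 ∧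
      ∃ x ∈ Q, ∃ j ∈ Q, x * j ≠ j * x := by
  have zc : ∀ g : G, z * g = g * z := fun g => (h.invol_central hz hzz g).symm
  have ha1 : a ≠ 1 := by rintro rfl; exact hab (by simp)
  set N := Subgroup.closure ({c : G | c ^ 3 = 1} ∪ {z}) with hN
  have haN : a ∈ N := Subgroup.subset_closure (Or.inl ha)
  have hzN : z ∈ N := Subgroup.subset_closure (Or.inr rfl)
  -- a frame lies in `N`
  have frN : ∀ x j : G, Frame z a x j → x ∈ N ∧ j ∈ N := by
    intro x j f
    apply frame_gen f hzz zc haN hzN
    apply Subgroup.subset_closure
    left
    show (x * a * x⁻¹) ^ 3 = 1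
    rw [conj_pow, ha]; group
  -- the block of a frame is a non-abelian subgroup of order 8
  have blk : ∀ x j : G, Frame z a x j →
      ∃ Q : Subgroup G, Q ≤ N ∧ Nat.card Q = 8 ∧ ∃ x ∈ Q, ∃ j ∈ Q, x * j ≠ j * x := by
    intro x j f
    obtain ⟨hx, hj⟩ := frN x j f
    refine ⟨Subgroup.closure ({x, j} : Set G), ?_, (frame_card hz hzz zc ha1 ha f).1,
      x, Subgroup.subset_closure (by simp), j, Subgroup.subset_closure (by simp), ?_⟩
    · rw [Subgroup.closure_le]
      rintro s (rfl | rfl)
      · exact hx
      · exact hj
    · intro e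
      have e1 := f.jx
      rw [← e] at e1
      apply hz
      have : z * (x * j) = 1 * (x * j) := by rw [one_mul]; exact e1.symm
      exact mul_right_cancel this
  -- elements of order three commuting with `a` are powers of `a`
  have comm_mem : ∀ (M : Subgroup G), a ∈ M → ∀ c : G, c ^ 3 = 1 → a * c = c * a → c ∈ M := by
    intro M haM c hc3 hcomm
    by_cases hc1 : c = 1
    · rw [hc1]; exact M.one_mem
    · have hoa : orderOf a = 3 := orderOf_eq_prime ha ha1
      have hoc : orderOf c = 3 := orderOf_eq_prime hc3 hc1
      have := h.mem_zpowers_of_commute Nat.prime_three hoa hoc hcomm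
      exact (Subgroup.zpowers_le.mpr haM) this
  by_cases hex : ∃ x j x' j' : G, Frame z a x j ∧ Frame z a x' j' ∧
      x' ∉ Subgroup.closure ({x, j} : Set G)
  · obtain ⟨x, j, x', j', f, f', hne⟩ := hex
    set L := Subgroup.closure ({x, j, x', j', a} : Set G) with hL
    have hxL : x ∈ L := Subgroup.subset_closure (by simp)
    have hjL : j ∈ L := Subgroup.subset_closure (by simp)
    have hx'L : x' ∈ L := Subgroup.subset_closure (by simp)
    have hj'L : j' ∈ L := Subgroup.subset_closure (by simp)
    have haL : a ∈ L := Subgroup.subset_closure (by simp)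
    have hB1 : Subgroup.closure ({x, j} : Set G) ≤ L := by
      rw [Subgroup.closure_le]
      rintro s (rfl | rfl)
      · exact hxL
      · exact hjL
    have hB2 : Subgroup.closure ({x', j'} : Set G) ≤ L := by
      rw [Subgroup.closure_le]
      rintro s (rfl | rfl)
      · exact hx'L
      · exact hj'L
    -- every frame lies in `L`
    have frL : ∀ y w : G, Frame z a y w → y ∈ L ∧ w ∈ L := by
      intro y w F
      have hy : y ∈ L := by
        by_contra hyL
        exact three_frames h hz hzz ha1 ha f f' F hne (fun e => hyL (hB1 e))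
          (fun e => hyL (hB2 e))
      refine ⟨hy, ?_⟩
      rw [← F.ax]; exact L.mul_mem (L.mul_mem haL hy) (L.inv_mem haL)
    have hNL : N = L := by
      apply le_antisymm
      · rw [hN, Subgroup.closure_le]
        rintro c (hc3 | rfl)
        · by_cases hcomm : a * c = c * a
          · exact comm_mem L haL c hc3 hcomm
          · rcases frames_of h hz hzz ha hc3 hcomm with ⟨y, w, F, hc⟩ |
              ⟨y, w, y', w', F, F', -, hc⟩
            · obtain ⟨hy, hw⟩ := frL y w F
              have hle : Subgroup.closure ({y, w, a} : Set G) ≤ L := by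
                rw [Subgroup.closure_le]
                rintro s (rfl | rfl | rfl)
                · exact hy
                · exact hw
                · exact haL
              exact hle hc
            · obtain ⟨hy, hw⟩ := frL y w F
              obtain ⟨hy', hw'⟩ := frL y' w' F'
              have hle : Subgroup.closure ({y, w, y', w', a} : Set G) ≤ L := by
                rw [Subgroup.closure_le]
                rintro s (rfl | rfl | rfl | rfl | rfl)
                · exact hy
                · exact hw
                · exact hy'
                · exact hw'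
                · exact haL
              exact hle hc
        · rw [← f.xx]; exact L.mul_mem hxL hxL
      · rw [hL, Subgroup.closure_le]
        rintro s (rfl | rfl | rfl | rfl | rfl)
        · exact (frN _ _ f).1
        · exact (frN _ _ f).2
        · exact (frN _ _ f').1
        · exact (frN _ _ f').2
        · exact haN
    refine ⟨Or.inr ?_, blk x j f⟩
    rw [hNL]; exact (two_frames h hz hzz ha1 ha f f' hne).1
  · -- all frames lie in one block
    have hb1 : b ≠ 1 := by rintro rfl; exact hab (by simp)
    obtain ⟨x, j, f⟩ : ∃ x j : G, Frame z a x j := by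
      rcases frames_of h hz hzz ha hb hab with ⟨x, j, f, -⟩ | ⟨x, j, x', j', f, -, -, -⟩
      · exact ⟨x, j, f⟩
      · exact ⟨x, j, f⟩
    set L := Subgroup.closure ({x, j, a} : Set G) with hL
    have hxL : x ∈ L := Subgroup.subset_closure (by simp)
    have hjL : j ∈ L := Subgroup.subset_closure (by simp)
    have haL : a ∈ L := Subgroup.subset_closure (by simp)
    have hB1 : Subgroup.closure ({x, j} : Set G) ≤ L := by
      rw [Subgroup.closure_le]
      rintro s (rfl | rfl)
      · exact hxL
      · exact hjL
    have frL : ∀ y w : G, Frame z a y w → y ∈ L ∧ w ∈ L := by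
      intro y w F
      have hy : y ∈ L := by
        by_contra hyL
        exact hex ⟨x, j, y, w, f, F, fun e => hyL (hB1 e)⟩
      refine ⟨hy, ?_⟩
      rw [← F.ax]; exact L.mul_mem (L.mul_mem haL hy) (L.inv_mem haL)
    have hNL : N = L := by
      apply le_antisymm
      · rw [hN, Subgroup.closure_le]
        rintro c (hc3 | rfl)
        · by_cases hcomm : a * c = c * a
          · exact comm_mem L haL c hc3 hcomm
          · rcases frames_of h hz hzz ha hc3 hcomm with ⟨y, w, F, hc⟩ |
              ⟨y, w, y', w', F, F', hne, -⟩
            · obtain ⟨hy, hw⟩ := frL y w F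
              have hle : Subgroup.closure ({y, w, a} : Set G) ≤ L := by
                rw [Subgroup.closure_le]
                rintro s (rfl | rfl | rfl)
                · exact hy
                · exact hw
                · exact haL
              exact hle hc
            · exact absurd ⟨y, w, y', w', F, F', hne⟩ hex
        · rw [← f.xx]; exact L.mul_mem hxL hxL
      · rw [hL, Subgroup.closure_le]
        rintro s (rfl | rfl | rfl)
        · exact (frN _ _ f).1
        · exact (frN _ _ f).2
        · exact haN
    refine ⟨Or.inl ?_, blk x j f⟩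
    rw [hNL]; exact (frame_card hz hzz zc ha1 ha f).2

end Cfsg.Agent.Lib.Helper16.Zas
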